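import Mathlib
import Cfsg.Prelude.Def_Classical
import Cfsg.Agent.Lib.Helper18.UEDefs

/-!
# Project UE (helper18, S2335), piece LCARD: the annihilator of a nonzero vector has index `q`.
-/

set_option autoImplicit false

namespace Cfsg.Agent.Lib.Helper18.UE

open Matrix

universe u

variable {F : Type u} [Field F] {m : ℕ}

theorem lcard_equiv (u₀ a' : Fin m → F) (h1 : a' ⬝ᵥ u₀ = 1) :
    Nonempty ((Fin m → F) ≃ {ℓ : Fin m → F | ℓ ⬝ᵥ u₀ = 0} × F) := by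
  refine ⟨{
    toFun := fun x => (⟨x - (x ⬝ᵥ u₀) • a', ?_⟩, x ⬝ᵥ u₀)
    invFun := fun p => p.1.1 + p.2 • a'
    left_inv := ?_
    right_inv := ?_ }⟩
  · show (x - (x ⬝ᵥ u₀) • a') ⬝ᵥ u₀ = 0
    simp [sub_dotProduct, smul_dotProduct, h1]
  · intro x
    show x - (x ⬝ᵥ u₀) • a' + (x ⬝ᵥ u₀) • a' = x
    abel
  · rintro ⟨⟨k, hk⟩, s⟩
    have hk' : k ⬝ᵥ u₀ = 0 := hk
    have e1 : (k + s • a') ⬝ᵥ u₀ = s := by
      simp [add_dotProduct, smul_dotProduct, h1, hk']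
    refine Prod.ext (Subtype.ext ?_) e1
    show k + s • a' - ((k + s • a') ⬝ᵥ u₀) • a' = k
    rw [e1]
    abel

-- piece LCARD
theorem card_L [Fintype F] (u₀ : Fin m → F) (h : u₀ ≠ 0) :
    Nat.card {ℓ : Fin m → F | ℓ ⬝ᵥ u₀ = 0} * Fintype.card F = Fintype.card F ^ m := by
  classical
  obtain ⟨i, hi⟩ : ∃ i, u₀ i ≠ 0 := by
    by_contra hc
    push Not at hc
    exact h (funext hc)
  have h1 : ((u₀ i)⁻¹ • Pi.single i (1 : F) : Fin m → F) ⬝ᵥ u₀ = 1 := by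
    rw [smul_dotProduct, single_dotProduct, one_mul, smul_eq_mul, inv_mul_cancel₀ hi]
  obtain ⟨e⟩ := lcard_equiv u₀ _ h1
  have hc := Nat.card_congr e
  rw [Nat.card_prod, Nat.card_eq_fintype_card, Fintype.card_fun, Fintype.card_fin,
    Nat.card_eq_fintype_card (α := F)] at hc
  rw [hc]

end Cfsg.Agent.Lib.Helper18.UE
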