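import Mathlib

/-!
# Project QB (helper48, S2359): piece FIN

A cyclic subgroup `H` of order `n > 1` such that all centralizers of nontrivial `n`-torsion
elements have the same order: `C(A) = C(H)` for every nontrivial `A ≤ H`.
-/

set_option autoImplicit false

namespace Cfsg.Agent.Lib.Helper48.QB

-- QB-FIN
theorem fin_cent {G : Type*} [Group G] [Finite G] (n N : ℕ)
    (hkey : ∀ x : G, x ≠ 1 → x ^ n = 1 → Nat.card (Subgroup.centralizer {x}) = N)
    (H : Subgroup G) (hH : IsCyclic H) (hn : Nat.card H = n) (hn1 : 1 < n) :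
    (∃ x : G, x ≠ 1 ∧ x ^ n = 1 ∧
      Subgroup.centralizer (H : Set G) = Subgroup.centralizer {x}) ∧
    ∀ A : Subgroup G, A ≤ H → A ≠ ⊥ →
      Subgroup.centralizer (A : Set G) = Subgroup.centralizer (H : Set G) := by
  obtain ⟨g, hg⟩ := hH.exists_generator
  have hord : orderOf g = n := by
    rw [← hn]
    exact orderOf_eq_card_of_forall_mem_zpowers hg
  have hx1 : (g : G) ≠ 1 := by
    intro h
    have h1 : g = 1 := Subtype.ext h
    rw [h1, orderOf_one] at hord
    omega
  have hxn : (g : G) ^ n = 1 := by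
    have h1 : g ^ n = 1 := by rw [← hord]; exact pow_orderOf_eq_one g
    have h2 : ((g ^ n : ↥H) : G) = 1 := by rw [h1]; rfl
    exact_mod_cast h2
  have hpowH : ∀ y ∈ H, y ^ n = 1 := by
    intro y hy
    have h1 : (⟨y, hy⟩ : ↥H) ^ n = 1 := by rw [← hn]; exact pow_card_eq_one'
    have h2 := congrArg (fun z : ↥H => (z : G)) h1
    simp only [Subgroup.coe_pow, Subgroup.coe_one] at h2
    exact h2
  have hcent : Subgroup.centralizer (H : Set G) = Subgroup.centralizer {(g : G)} := by
    apply le_antisymm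
    · apply Subgroup.centralizer_le
      intro y hy
      rw [Set.mem_singleton_iff] at hy
      rw [hy]
      exact g.2
    · intro c hc
      rw [Subgroup.mem_centralizer_iff] at hc ⊢
      have hcg : Commute (g : G) c := hc (g : G) (Set.mem_singleton _)
      intro y hy
      obtain ⟨k, hk⟩ := Subgroup.mem_zpowers_iff.mp (hg ⟨y, hy⟩)
      have hy' : y = (g : G) ^ k := by
        have h2 := congrArg (fun z : ↥H => (z : G)) hk
        simp only [Subgroup.coe_zpow] at h2
        exact h2.symm
      rw [hy']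
      exact (hcg.zpow_left k).eq
  have hcardH : Nat.card (Subgroup.centralizer (H : Set G)) = N := by
    rw [hcent]
    exact hkey (g : G) hx1 hxn
  refine ⟨⟨(g : G), hx1, hxn, hcent⟩, ?_⟩
  intro A hAH hAbot
  obtain ⟨a', ha'⟩ := Subgroup.ne_bot_iff_exists_ne_one.mp hAbot
  obtain ⟨a, haA, ha1⟩ : ∃ a : G, a ∈ A ∧ a ≠ 1 :=
    ⟨(a' : G), a'.2, fun h => ha' (Subtype.ext h)⟩
  have han : a ^ n = 1 := hpowH a (hAH haA)
  have hcarda : Nat.card (Subgroup.centralizer {a}) = N := hkey a ha1 han
  have h1 : Subgroup.centralizer (H : Set G) ≤ Subgroup.centralizer (A : Set G) :=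
    Subgroup.centralizer_le hAH
  have h2 : Subgroup.centralizer (A : Set G) ≤ Subgroup.centralizer {a} := by
    apply Subgroup.centralizer_le
    intro y hy
    rw [Set.mem_singleton_iff] at hy
    rw [hy]
    exact haA
  have h3 : Subgroup.centralizer (H : Set G) = Subgroup.centralizer {a} :=
    Subgroup.eq_of_le_of_card_ge (h1.trans h2) (by rw [hcarda, hcardH])
  exact le_antisymm (h3 ▸ h2) h1

end Cfsg.Agent.Lib.Helper48.QB
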