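import Mathlib

set_option autoImplicit false
set_option linter.unusedSectionVars false

/-!
# Involution pairs: foundation for S3265

`x y : Perm Ω` with `x * x = 1`, `y * y = 1`, `c = x * y`.
We look for `κ` of odd order, inverted by `y`, with `x * y * κ` of odd order
(then `z = y * κ` is conjugate to `y` and `x * z`, `z * y` have odd order).
-/

namespace Cfsg.Agent.Lib.Helper6.OddGr

open Equiv

variable {Ω : Type*} [Fintype Ω] [DecidableEq Ω]

/-- `s` is an odd-periodic point of `σ`. -/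
def OP (σ : Perm Ω) (s : Ω) : Prop := ∃ N : ℕ, Odd N ∧ (σ ^ N) s = s

/-- the period of `s` under `x * y`. -/
noncomputable def per (x y : Perm Ω) (s : Ω) : ℕ := MulAction.period (x * y) s

/-- cycle type: `x s` is not in the `x * y`-cycle of `s`. -/
def CT (x y : Perm Ω) (s : Ω) : Prop := ∀ i : ℤ, ((x * y) ^ i) s ≠ x s

/-- the orbit of `s` under the group generated by `x` and `y`. -/
def Orb (x y : Perm Ω) (s : Ω) : Set Ω :=
  {t | ∃ i : ℤ, t = ((x * y) ^ i) s ∨ t = ((x * y) ^ i) (x s)}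

/-- invariant sets -/
def Inv (x y : Perm Ω) (S : Set Ω) : Prop := ∀ s ∈ S, x s ∈ S ∧ y s ∈ S

/-- block solutions -/
def Solves (x y κ : Perm Ω) (S : Set Ω) : Prop :=
  (∀ s, s ∉ S → κ s = s) ∧ y * κ * y = κ⁻¹ ∧ (∃ N : ℕ, Odd N ∧ κ ^ N = 1) ∧
    ∀ s ∈ S, OP (x * y * κ) s

section basic

variable {x y : Perm Ω}

theorem inv_eq_self_of_sq {x : Perm Ω} (hx : x * x = 1) : x⁻¹ = x :=
  inv_eq_of_mul_eq_one_left hx

theorem apply_apply_of_sq {x : Perm Ω} (hx : x * x = 1) (s : Ω) : x (x s) = s := by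
  have := congrArg (fun f : Perm Ω => f s) hx
  simpa using this

theorem c_inv (hx : x * x = 1) (hy : y * y = 1) : (x * y)⁻¹ = y * x := by
  rw [mul_inv_rev, inv_eq_self_of_sq hx, inv_eq_self_of_sq hy]

theorem x_mul_c (hx : x * x = 1) : x * (x * y) = y := by
  rw [← mul_assoc, hx, one_mul]

theorem y_eq (hx : x * x = 1) : y = x * (x * y) := (x_mul_c hx).symm

theorem x_semiconj (hx : x * x = 1) (hy : y * y = 1) : SemiconjBy x (x * y) (x * y)⁻¹ := by
  unfold SemiconjBy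
  rw [c_inv hx hy, x_mul_c hx, mul_assoc, hx, mul_one]

theorem y_semiconj (hx : x * x = 1) (hy : y * y = 1) : SemiconjBy y (x * y) (x * y)⁻¹ := by
  unfold SemiconjBy
  rw [c_inv hx hy, mul_assoc]

theorem x_mul_zpow (hx : x * x = 1) (hy : y * y = 1) (i : ℤ) :
    x * (x * y) ^ i = (x * y) ^ (-i) * x := by
  have h := (x_semiconj hx hy).zpow_right i
  unfold SemiconjBy at h
  rw [h, inv_zpow, zpow_neg]

theorem y_mul_zpow (hx : x * x = 1) (hy : y * y = 1) (i : ℤ) :
    y * (x * y) ^ i = (x * y) ^ (-i) * y := by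
  have h := (y_semiconj hx hy).zpow_right i
  unfold SemiconjBy at h
  rw [h, inv_zpow, zpow_neg]

/-- `x (c^i s) = c^(-i) (x s)` -/
theorem x_zpow_apply (hx : x * x = 1) (hy : y * y = 1) (i : ℤ) (s : Ω) :
    x (((x * y) ^ i) s) = ((x * y) ^ (-i)) (x s) := by
  have := congrArg (fun f : Perm Ω => f s) (x_mul_zpow hx hy i)
  simpa using this

/-- `y (c^i s) = c^(-i) (y s)` -/
theorem y_zpow_apply (hx : x * x = 1) (hy : y * y = 1) (i : ℤ) (s : Ω) :
    y (((x * y) ^ i) s) = ((x * y) ^ (-i)) (y s) := by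
  have := congrArg (fun f : Perm Ω => f s) (y_mul_zpow hx hy i)
  simpa using this

/-- `y s = c⁻¹ (x s)` -/
theorem y_apply (hx : x * x = 1) (hy : y * y = 1) (s : Ω) :
    y s = ((x * y) ^ (-1 : ℤ)) (x s) := by
  rw [zpow_neg, zpow_one, c_inv hx hy]
  simp [apply_apply_of_sq hx]

/-- `y s = x (c s)` -/
theorem y_apply' (hx : x * x = 1) (s : Ω) : y s = x ((x * y) s) := by
  simp [apply_apply_of_sq hx]

/-- `c s = x (y s)` -/
theorem c_apply (s : Ω) : (x * y) s = x (y s) := rfl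

end basic

section period

variable {x y : Perm Ω}

theorem per_pos (x y : Perm Ω) (s : Ω) : 0 < per x y s :=
  MulAction.period_pos_of_orderOf_pos (orderOf_pos (x * y)) s

theorem pow_apply_eq_self_iff (x y : Perm Ω) (s : Ω) (n : ℕ) :
    ((x * y) ^ n) s = s ↔ per x y s ∣ n := by
  have := MulAction.pow_smul_eq_iff_period_dvd (m := x * y) (a := s) (n := n)
  simpa [Perm.smul_def, per] using this

theorem zpow_apply_eq_self_iff (x y : Perm Ω) (s : Ω) (i : ℤ) :
    ((x * y) ^ i) s = s ↔ (per x y s : ℤ) ∣ i := by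
  have := MulAction.zpow_smul_eq_iff_period_dvd (g := x * y) (a := s) (j := i)
  simpa [Perm.smul_def, per] using this

theorem zpow_apply_eq_zpow_apply_iff (x y : Perm Ω) (s : Ω) (i j : ℤ) :
    ((x * y) ^ i) s = ((x * y) ^ j) s ↔ (per x y s : ℤ) ∣ i - j := by
  rw [← zpow_apply_eq_self_iff]
  have e : ((x * y) ^ (i - j)) s = ((x * y) ^ (-j)) (((x * y) ^ i) s) := by
    rw [← Perm.mul_apply, ← zpow_add]
    congr 2
    ring
  rw [e]
  constructor
  · intro h
    rw [h, ← Perm.mul_apply, ← zpow_add]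
    simp
  · intro h
    have h2 : ((x * y) ^ j) (((x * y) ^ (-j)) (((x * y) ^ i) s)) = ((x * y) ^ j) s := by rw [h]
    rw [← Perm.mul_apply, ← zpow_add] at h2
    simpa using h2

theorem pow_per_apply (x y : Perm Ω) (s : Ω) : ((x * y) ^ per x y s) s = s :=
  (pow_apply_eq_self_iff x y s _).2 dvd_rfl

theorem per_zpow_apply (x y : Perm Ω) (s : Ω) (i : ℤ) :
    per x y (((x * y) ^ i) s) = per x y s := by
  apply Nat.dvd_antisymm
  · rw [← pow_apply_eq_self_iff]
    have h := pow_per_apply x y s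
    have hc : (x * y) ^ per x y s * (x * y) ^ i = (x * y) ^ i * (x * y) ^ per x y s := by
      rw [← zpow_natCast, ← zpow_add, ← zpow_add, add_comm]
    rw [← Perm.mul_apply, hc, Perm.mul_apply, h]
  · rw [← pow_apply_eq_self_iff]
    have h := pow_per_apply x y (((x * y) ^ i) s)
    have hc : (x * y) ^ per x y (((x * y) ^ i) s) * (x * y) ^ i
        = (x * y) ^ i * (x * y) ^ per x y (((x * y) ^ i) s) := by
      rw [← zpow_natCast, ← zpow_add, ← zpow_add, add_comm]
    rw [← Perm.mul_apply, hc, Perm.mul_apply] at h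
    exact ((x * y) ^ i).injective h

theorem per_x_apply (hx : x * x = 1) (hy : y * y = 1) (s : Ω) :
    per x y (x s) = per x y s := by
  have key : ∀ t : Ω, per x y (x t) ∣ per x y t := by
    intro t
    rw [← pow_apply_eq_self_iff, ← zpow_natCast]
    have h := x_zpow_apply hx hy (-(per x y t : ℤ)) t
    rw [neg_neg] at h
    rw [← h]
    have h2 : ((x * y) ^ (-(per x y t : ℤ))) t = t := by
      rw [zpow_apply_eq_self_iff]
      exact (dvd_neg).2 dvd_rfl
    rw [h2]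
  apply Nat.dvd_antisymm (key s)
  have := key (x s)
  rwa [apply_apply_of_sq hx] at this

theorem per_y_apply (hx : x * x = 1) (hy : y * y = 1) (s : Ω) :
    per x y (y s) = per x y s := by
  rw [y_apply hx hy, per_zpow_apply, per_x_apply hx hy]

/-- good points: odd period -/
theorem op_iff_odd_per (x y : Perm Ω) (s : Ω) : OP (x * y) s ↔ Odd (per x y s) := by
  constructor
  · rintro ⟨N, hN, h⟩
    rw [pow_apply_eq_self_iff] at h
    exact Odd.of_dvd_nat hN h
  · intro h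
    exact ⟨per x y s, h, pow_per_apply x y s⟩

theorem not_op_iff_even_per (x y : Perm Ω) (s : Ω) : ¬ OP (x * y) s ↔ Even (per x y s) := by
  rw [op_iff_odd_per, Nat.not_odd_iff_even]

end period

section orbit

variable {x y : Perm Ω}

theorem mem_orb_self (x y : Perm Ω) (s : Ω) : s ∈ Orb x y s :=
  ⟨0, Or.inl (by simp)⟩

theorem x_mem_orb_self (x y : Perm Ω) (s : Ω) : x s ∈ Orb x y s :=
  ⟨0, Or.inr (by simp)⟩

theorem zpow_mem_orb (x y : Perm Ω) (s : Ω) (i : ℤ) : ((x * y) ^ i) s ∈ Orb x y s :=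
  ⟨i, Or.inl rfl⟩

theorem zpow_x_mem_orb (x y : Perm Ω) (s : Ω) (i : ℤ) : ((x * y) ^ i) (x s) ∈ Orb x y s :=
  ⟨i, Or.inr rfl⟩

theorem orb_zpow {s t : Ω} (h : t ∈ Orb x y s) (j : ℤ) : ((x * y) ^ j) t ∈ Orb x y s := by
  obtain ⟨i, rfl | rfl⟩ := h
  · exact ⟨j + i, Or.inl (by rw [zpow_add, Perm.mul_apply])⟩
  · exact ⟨j + i, Or.inr (by rw [zpow_add, Perm.mul_apply])⟩

theorem orb_x (hx : x * x = 1) (hy : y * y = 1) {s t : Ω} (h : t ∈ Orb x y s) :
    x t ∈ Orb x y s := by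
  obtain ⟨i, rfl | rfl⟩ := h
  · exact ⟨-i, Or.inr (x_zpow_apply hx hy i s)⟩
  · refine ⟨-i, Or.inl ?_⟩
    rw [x_zpow_apply hx hy, apply_apply_of_sq hx]

theorem orb_y (hx : x * x = 1) (hy : y * y = 1) {s t : Ω} (h : t ∈ Orb x y s) :
    y t ∈ Orb x y s := by
  rw [y_apply hx hy]
  exact orb_zpow (orb_x hx hy h) _

theorem orb_c {s t : Ω} (h : t ∈ Orb x y s) : (x * y) t ∈ Orb x y s := by
  have := orb_zpow h 1
  simpa using this

theorem inv_orb (hx : x * x = 1) (hy : y * y = 1) (s : Ω) : Inv x y (Orb x y s) :=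
  fun _ ht => ⟨orb_x hx hy ht, orb_y hx hy ht⟩

theorem orb_subset_of_mem (hx : x * x = 1) (hy : y * y = 1) {s t : Ω} (h : t ∈ Orb x y s) :
    Orb x y t ⊆ Orb x y s := by
  rintro u ⟨i, rfl | rfl⟩
  · exact orb_zpow h i
  · exact orb_zpow (orb_x hx hy h) i

theorem orb_symm (hx : x * x = 1) (hy : y * y = 1) {s t : Ω} (h : t ∈ Orb x y s) :
    s ∈ Orb x y t := by
  obtain ⟨i, rfl | rfl⟩ := h
  · refine ⟨-i, Or.inl ?_⟩
    rw [← Perm.mul_apply, ← zpow_add]
    simp
  · refine ⟨i, Or.inr ?_⟩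
    rw [x_zpow_apply hx hy, apply_apply_of_sq hx, ← Perm.mul_apply, ← zpow_add]
    simp

theorem orb_eq_of_mem (hx : x * x = 1) (hy : y * y = 1) {s t : Ω} (h : t ∈ Orb x y s) :
    Orb x y t = Orb x y s :=
  Set.Subset.antisymm (orb_subset_of_mem hx hy h) (orb_subset_of_mem hx hy (orb_symm hx hy h))

theorem orb_disjoint (hx : x * x = 1) (hy : y * y = 1) {s t : Ω} (h : t ∉ Orb x y s) :
    Disjoint (Orb x y t) (Orb x y s) := by
  rw [Set.disjoint_left]
  intro u hut hus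
  apply h
  have h1 := orb_symm hx hy hut
  exact orb_subset_of_mem hx hy hus h1

theorem orb_subset_of_inv (hx : x * x = 1) (hy : y * y = 1) {S : Set Ω} (hS : Inv x y S)
    {s : Ω} (hs : s ∈ S) : Orb x y s ⊆ S := by
  have hc : ∀ t ∈ S, (x * y) t ∈ S := fun t ht => (hS _ (hS t ht).2).1
  have hci : ∀ t ∈ S, (x * y)⁻¹ t ∈ S := by
    intro t ht
    rw [c_inv hx hy]
    exact (hS _ (hS t ht).1).2
  have hz : ∀ (i : ℤ) (t : Ω), t ∈ S → ((x * y) ^ i) t ∈ S := by
    intro i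
    induction i using Int.induction_on with
    | zero => intro t ht; simpa using ht
    | succ n ih =>
      intro t ht
      rw [zpow_add, zpow_one, Perm.mul_apply]
      exact ih _ (hc t ht)
    | pred n ih =>
      intro t ht
      rw [zpow_sub, zpow_one, Perm.mul_apply]
      exact ih _ (hci t ht)
  rintro u ⟨i, rfl | rfl⟩
  · exact hz i s hs
  · exact hz i _ (hS s hs).1

theorem per_of_mem_orb (hx : x * x = 1) (hy : y * y = 1) {s t : Ω} (h : t ∈ Orb x y s) :
    per x y t = per x y s := by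
  obtain ⟨i, rfl | rfl⟩ := h
  · exact per_zpow_apply x y s i
  · rw [per_zpow_apply, per_x_apply hx hy]

theorem inv_diff {S T : Set Ω} (hS : Inv x y S) (hT : Inv x y T)
    (hx : x * x = 1) (hy : y * y = 1) : Inv x y (S \ T) := by
  intro s hs
  refine ⟨⟨(hS s hs.1).1, fun h => hs.2 ?_⟩, ⟨(hS s hs.1).2, fun h => hs.2 ?_⟩⟩
  · have := (hT _ h).1
    rwa [apply_apply_of_sq hx] at this
  · have := (hT _ h).2
    rwa [apply_apply_of_sq hy] at this

theorem inv_union {S T : Set Ω} (hS : Inv x y S) (hT : Inv x y T) : Inv x y (S ∪ T) := by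
  rintro s (hs | hs)
  · exact ⟨Or.inl (hS s hs).1, Or.inl (hS s hs).2⟩
  · exact ⟨Or.inr (hT s hs).1, Or.inr (hT s hs).2⟩

end orbit

section ct

variable {x y : Perm Ω}

theorem CT.x_ne {s : Ω} (h : CT x y s) : x s ≠ s := by
  intro h1
  exact h 0 (by simpa using h1.symm)

end ct

end Cfsg.Agent.Lib.Helper6.OddGr
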