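import Cfsg.Agent.Lib.Helper6.OddGr0

set_option autoImplicit false
set_option linter.unusedSectionVars false

/-!
# Involution pairs, part 1: three-cycles, closed walks, cycle-type points, gluing of solutions
-/

namespace Cfsg.Agent.Lib.Helper6.OddGr

open Equiv

variable {Ω : Type*} [Fintype Ω] [DecidableEq Ω]

section threecycle

/-- the 3-cycle `p → q → r → p` -/
def c3 (p q r : Ω) : Perm Ω := swap p q * swap q r

theorem c3_apply_1 {p q r : Ω} (hpq : p ≠ q) (hpr : p ≠ r) : c3 p q r p = q := by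
  simp [c3, swap_apply_of_ne_of_ne hpq hpr]

theorem c3_apply_2 {p q r : Ω} (hpr : p ≠ r) (hqr : q ≠ r) : c3 p q r q = r := by
  simp [c3, swap_apply_of_ne_of_ne hpr.symm hqr.symm]

theorem c3_apply_3 (p q r : Ω) : c3 p q r r = p := by
  simp [c3]

theorem c3_apply_of_ne {p q r s : Ω} (hp : s ≠ p) (hq : s ≠ q) (hr : s ≠ r) : c3 p q r s = s := by
  simp [c3, swap_apply_of_ne_of_ne hq hr, swap_apply_of_ne_of_ne hp hq]

theorem c3_inv (p q r : Ω) : (c3 p q r)⁻¹ = c3 r q p := by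
  simp [c3, mul_inv_rev, swap_comm]

theorem c3_rotate {p q r : Ω} (hpq : p ≠ q) (hpr : p ≠ r) (hqr : q ≠ r) :
    c3 p q r = c3 q r p := by
  ext s
  by_cases h1 : s = p
  · subst h1
    rw [c3_apply_1 hpq hpr, c3_apply_3]
  by_cases h2 : s = q
  · subst h2
    rw [c3_apply_2 hpr hqr, c3_apply_1 hqr (Ne.symm hpq)]
  by_cases h3 : s = r
  · subst h3
    rw [c3_apply_3, c3_apply_2 (Ne.symm hpq) (Ne.symm hpr)]
  rw [c3_apply_of_ne h1 h2 h3, c3_apply_of_ne h2 h3 h1]

theorem c3_pow_three {p q r : Ω} (hpq : p ≠ q) (hpr : p ≠ r) (hqr : q ≠ r) :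
    (c3 p q r) ^ 3 = 1 := by
  ext s
  rw [pow_succ, pow_succ, pow_one, Perm.mul_apply, Perm.mul_apply, Perm.one_apply]
  by_cases h1 : s = p
  · subst h1
    rw [c3_apply_1 hpq hpr, c3_apply_2 hpr hqr, c3_apply_3]
  by_cases h2 : s = q
  · subst h2
    rw [c3_apply_2 hpr hqr, c3_apply_3, c3_apply_1 hpq hpr]
  by_cases h3 : s = r
  · subst h3
    rw [c3_apply_3, c3_apply_1 hpq hpr, c3_apply_2 hpr hqr]
  rw [c3_apply_of_ne h1 h2 h3, c3_apply_of_ne h1 h2 h3, c3_apply_of_ne h1 h2 h3]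

theorem c3_conj (σ : Perm Ω) (p q r : Ω) :
    σ * c3 p q r * σ⁻¹ = c3 (σ p) (σ q) (σ r) := by
  unfold c3
  have h : ∀ a b : Ω, σ * swap a b * σ⁻¹ = swap (σ a) (σ b) := by
    intro a b
    rw [← Equiv.swap_apply_apply]
  rw [← h p q, ← h q r]
  simp [mul_assoc]

theorem c3_conj_invol {y : Perm Ω} (hy : y * y = 1) (p q r : Ω) :
    y * c3 p q r * y = c3 (y p) (y q) (y r) := by
  have := c3_conj y p q r
  rwa [inv_eq_self_of_sq hy] at this

theorem c3_disjoint {p q r p' q' r' : Ω} (h1 : p ≠ p') (h2 : p ≠ q') (h3 : p ≠ r')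
    (h4 : q ≠ p') (h5 : q ≠ q') (h6 : q ≠ r') (h7 : r ≠ p') (h8 : r ≠ q') (h9 : r ≠ r') :
    Perm.Disjoint (c3 p q r) (c3 p' q' r') := by
  intro s
  by_cases hs : s = p ∨ s = q ∨ s = r
  · right
    rcases hs with rfl | rfl | rfl
    · exact c3_apply_of_ne h1 h2 h3
    · exact c3_apply_of_ne h4 h5 h6
    · exact c3_apply_of_ne h7 h8 h9
  · left
    push Not at hs
    exact c3_apply_of_ne hs.1 hs.2.1 hs.2.2

theorem c3_commute {p q r p' q' r' : Ω} (h1 : p ≠ p') (h2 : p ≠ q') (h3 : p ≠ r')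
    (h4 : q ≠ p') (h5 : q ≠ q') (h6 : q ≠ r') (h7 : r ≠ p') (h8 : r ≠ q') (h9 : r ≠ r') :
    Commute (c3 p q r) (c3 p' q' r') :=
  (c3_disjoint h1 h2 h3 h4 h5 h6 h7 h8 h9).commute

end threecycle

section walk

/-- closed walks of odd length consist of odd-periodic points -/
theorem op_of_walk (σ : Perm Ω) (q : ℕ → Ω) (L : ℕ) (hL : Odd L)
    (h : ∀ i, i < L → σ (q i) = q (i + 1)) (hc : q L = q 0) : ∀ i, i ≤ L → OP σ (q i) := by
  have key : ∀ k i, i + k ≤ L → (σ ^ k) (q i) = q (i + k) := by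
    intro k
    induction k with
    | zero => intro i _; simp
    | succ k ih =>
      intro i hi
      rw [pow_succ', Perm.mul_apply, ih i (by omega), h (i + k) (by omega)]
      congr 1
  intro i hi
  refine ⟨L, hL, ?_⟩
  have e : L = i + (L - i) := by omega
  have h1 := key (L - i) i (by omega)
  have h2 := key i 0 (by omega)
  rw [← e, hc] at h1
  rw [zero_add] at h2
  have h3 : σ ^ L = σ ^ i * σ ^ (L - i) := by rw [← pow_add, ← e]
  rw [h3, Perm.mul_apply, h1, h2]

theorem op_of_fixed (σ : Perm Ω) {s : Ω} (h : σ s = s) : OP σ s :=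
  ⟨1, odd_one, by simpa using h⟩

end walk

section ct

variable {x y : Perm Ω}

theorem CT.zpow_ne {s : Ω} (h : CT x y s) (i j : ℤ) :
    ((x * y) ^ i) s ≠ ((x * y) ^ j) (x s) := by
  intro h1
  apply h (i - j)
  have h2 : ((x * y) ^ (-j)) (((x * y) ^ i) s) = ((x * y) ^ (-j)) (((x * y) ^ j) (x s)) := by
    rw [h1]
  rw [← Perm.mul_apply, ← zpow_add, ← Perm.mul_apply, ← zpow_add] at h2
  have e1 : -j + i = i - j := by ring
  rw [e1] at h2
  simpa using h2

theorem CT.of_mem_orb (hx : x * x = 1) (hy : y * y = 1) {s t : Ω} (h : CT x y s)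
    (ht : t ∈ Orb x y s) : CT x y t := by
  obtain ⟨i, rfl | rfl⟩ := ht
  · intro j h1
    rw [x_zpow_apply hx hy, ← Perm.mul_apply, ← zpow_add] at h1
    exact h.zpow_ne _ _ h1
  · intro j h1
    rw [x_zpow_apply hx hy, apply_apply_of_sq hx, ← Perm.mul_apply, ← zpow_add] at h1
    exact h.zpow_ne _ _ h1.symm

theorem CT.x_ne_of_mem (hx : x * x = 1) (hy : y * y = 1) {s t : Ω} (h : CT x y s)
    (ht : t ∈ Orb x y s) : x t ≠ t :=
  (h.of_mem_orb hx hy ht).x_ne

theorem CT.y_ne (_hx : x * x = 1) {s : Ω} (h : CT x y s) : y s ≠ s := by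
  intro h1
  apply h 1
  rw [zpow_one, c_apply, h1]

theorem CT.y_ne_of_mem (hx : x * x = 1) (hy : y * y = 1) {s t : Ω} (h : CT x y s)
    (ht : t ∈ Orb x y s) : y t ≠ t :=
  (h.of_mem_orb hx hy ht).y_ne hx

theorem CT.x_apply (hx : x * x = 1) (hy : y * y = 1) {s : Ω} (h : CT x y s) : CT x y (x s) :=
  h.of_mem_orb hx hy (x_mem_orb_self x y s)

theorem CT.y_apply (hx : x * x = 1) (hy : y * y = 1) {s : Ω} (h : CT x y s) : CT x y (y s) :=
  h.of_mem_orb hx hy (orb_y hx hy (mem_orb_self x y s))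

/-- a fixed point of `y` (or `x`) does not lie in the orbit of a cycle-type point -/
theorem CT.not_mem_of_yfix (hx : x * x = 1) (hy : y * y = 1) {s e : Ω} (h : CT x y s)
    (he : y e = e) : e ∉ Orb x y s :=
  fun h1 => h.y_ne_of_mem hx hy h1 he

theorem CT.not_mem_of_xfix (hx : x * x = 1) (hy : y * y = 1) {s g : Ω} (h : CT x y s)
    (hg : x g = g) : g ∉ Orb x y s :=
  fun h1 => h.x_ne_of_mem hx hy h1 hg

end ct

section pathorbit

variable {x y : Perm Ω}

/-- every power of `c` is a natural power below the period -/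
theorem exists_nat_pow (x y : Perm Ω) (s : Ω) (i : ℤ) :
    ∃ k : ℕ, k < per x y s ∧ ((x * y) ^ i) s = ((x * y) ^ k) s := by
  have hp : (0 : ℤ) < (per x y s : ℤ) := by exact_mod_cast per_pos x y s
  refine ⟨(i % (per x y s : ℤ)).toNat, ?_, ?_⟩
  · have := Int.emod_lt_of_pos i hp
    have h0 := Int.emod_nonneg i hp.ne'
    omega
  · rw [← zpow_natCast, zpow_apply_eq_zpow_apply_iff]
    have h0 := Int.emod_nonneg i hp.ne'
    rw [Int.toNat_of_nonneg h0]
    exact Int.dvd_self_sub_emod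

theorem x_apply_of_yfix {e : Ω} (he : y e = e) : x e = (x * y) e := by
  rw [c_apply, he]

theorem y_apply_of_xfix (hx : x * x = 1) (hy : y * y = 1) {g : Ω} (hg : x g = g) :
    y g = ((x * y) ^ (-1 : ℤ)) g := by
  rw [y_apply hx hy, hg]

theorem mem_orb_of_yfix {e t : Ω} (he : y e = e) :
    t ∈ Orb x y e ↔ ∃ i : ℤ, t = ((x * y) ^ i) e := by
  constructor
  · rintro ⟨i, rfl | rfl⟩
    · exact ⟨i, rfl⟩
    · refine ⟨i + 1, ?_⟩
      rw [x_apply_of_yfix he, zpow_add, zpow_one, Perm.mul_apply]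
      rfl
  · rintro ⟨i, rfl⟩
    exact zpow_mem_orb x y e i

theorem mem_orb_of_xfix {g t : Ω} (hg : x g = g) :
    t ∈ Orb x y g ↔ ∃ i : ℤ, t = ((x * y) ^ i) g := by
  constructor
  · rintro ⟨i, rfl | rfl⟩
    · exact ⟨i, rfl⟩
    · exact ⟨i, by rw [hg]⟩
  · rintro ⟨i, rfl⟩
    exact zpow_mem_orb x y g i

theorem mem_orb_of_yfix' {e t : Ω} (he : y e = e) :
    t ∈ Orb x y e ↔ ∃ k : ℕ, k < per x y e ∧ t = ((x * y) ^ k) e := by
  rw [mem_orb_of_yfix he]
  constructor
  · rintro ⟨i, rfl⟩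
    exact exists_nat_pow x y e i
  · rintro ⟨k, -, rfl⟩
    exact ⟨k, by rw [zpow_natCast]⟩

theorem mem_orb_of_xfix' {g t : Ω} (hg : x g = g) :
    t ∈ Orb x y g ↔ ∃ k : ℕ, k < per x y g ∧ t = ((x * y) ^ k) g := by
  rw [mem_orb_of_xfix hg]
  constructor
  · rintro ⟨i, rfl⟩
    exact exists_nat_pow x y g i
  · rintro ⟨k, -, rfl⟩
    exact ⟨k, by rw [zpow_natCast]⟩

/-- general orbit membership with natural exponents below the period -/
theorem mem_orb_iff' (hx : x * x = 1) (hy : y * y = 1) {s t : Ω} :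
    t ∈ Orb x y s ↔ (∃ k : ℕ, k < per x y s ∧ t = ((x * y) ^ k) s) ∨
      ∃ k : ℕ, k < per x y s ∧ t = ((x * y) ^ k) (x s) := by
  constructor
  · rintro ⟨i, rfl | rfl⟩
    · exact Or.inl (exists_nat_pow x y s i)
    · right
      have := exists_nat_pow x y (x s) i
      rwa [per_x_apply hx hy] at this
  · rintro (⟨k, -, rfl⟩ | ⟨k, -, rfl⟩)
    · exact ⟨k, Or.inl (by rw [zpow_natCast])⟩
    · exact ⟨k, Or.inr (by rw [zpow_natCast])⟩

end pathorbit

section four

variable {x y : Perm Ω}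

/-! ### points of period 2 -/

theorem c_c_of_per_two {a : Ω} (hp : per x y a = 2) : (x * y) ((x * y) a) = a := by
  have := pow_per_apply x y a
  rw [hp] at this
  simpa [pow_two] using this

theorem xy_eq_yx_of_per_two (hx : x * x = 1) (hy : y * y = 1) {a : Ω} (hp : per x y a = 2) :
    x (y a) = y (x a) := by
  have h := c_c_of_per_two (x := x) (y := y) (a := a) hp
  rw [c_apply, c_apply] at h
  have h1 : x (x (y (x (y a)))) = x a := by rw [h]
  rw [apply_apply_of_sq hx] at h1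
  have h2 : y (y (x (y a))) = y (x a) := by rw [h1]
  rwa [apply_apply_of_sq hy] at h2

theorem c_x_of_per_two (hx : x * x = 1) (hy : y * y = 1) {a : Ω} (hp : per x y a = 2) :
    (x * y) (x a) = y a := by
  rw [c_apply, ← xy_eq_yx_of_per_two hx hy hp, apply_apply_of_sq hx]

theorem c_y_of_per_two (_hx : x * x = 1) (hy : y * y = 1) {a : Ω} (_hp : per x y a = 2) :
    (x * y) (y a) = x a := by
  rw [c_apply, apply_apply_of_sq hy]

theorem x_c_of_per_two (hx : x * x = 1) (_hy : y * y = 1) {a : Ω} (_hp : per x y a = 2) :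
    x ((x * y) a) = y a := by
  rw [c_apply, apply_apply_of_sq hx]

theorem y_c_of_per_two (hx : x * x = 1) (hy : y * y = 1) {a : Ω} (hp : per x y a = 2) :
    y ((x * y) a) = x a := by
  rw [c_apply, xy_eq_yx_of_per_two hx hy hp, apply_apply_of_sq hy]

theorem c_ne_of_per_two {a : Ω} (hp : per x y a = 2) : (x * y) a ≠ a := by
  intro h
  have := (pow_apply_eq_self_iff x y a 1).1 (by simpa using h)
  rw [hp] at this
  omega

/-- the orbit of a point of period 2 -/
theorem orb_of_per_two (hx : x * x = 1) (hy : y * y = 1) {a : Ω} (hp : per x y a = 2) :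
    Orb x y a = {a, x a, (x * y) a, y a} := by
  ext t
  simp only [Set.mem_insert_iff, Set.mem_singleton_iff]
  constructor
  · intro ht
    rcases (mem_orb_iff' hx hy).1 ht with ⟨k, hk, rfl⟩ | ⟨k, hk, rfl⟩
    · rw [hp] at hk
      interval_cases k
      · left; simp
      · right; right; left; simp
    · rw [hp] at hk
      interval_cases k
      · right; left; simp
      · right; right; right
        rw [pow_one, c_x_of_per_two hx hy hp]
  · rintro (rfl | rfl | rfl | rfl)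
    · exact mem_orb_self x y _
    · exact x_mem_orb_self x y _
    · exact orb_c (mem_orb_self x y _)
    · exact orb_y hx hy (mem_orb_self x y _)

/-- the four points of a cycle-type orbit of period 2 are distinct -/
theorem CT.four_ne (hx : x * x = 1) (hy : y * y = 1) {a : Ω} (h : CT x y a)
    (hp : per x y a = 2) :
    x a ≠ a ∧ (x * y) a ≠ a ∧ y a ≠ a ∧ (x * y) a ≠ x a ∧ y a ≠ x a ∧ y a ≠ (x * y) a := by
  refine ⟨h.x_ne, c_ne_of_per_two hp, h.y_ne hx, ?_, ?_, ?_⟩
  · have := h 1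
    simpa using this
  · intro h1
    have h2 : x (y a) = x (x a) := by rw [h1]
    rw [apply_apply_of_sq hx] at h2
    exact c_ne_of_per_two hp h2
  · intro h1
    exact (h.y_apply hx hy).x_ne (by rw [← c_apply]; exact h1.symm)

end four

section balance

/-- bad (even period) fixed points of `y` in `S` -/
def YB (x y : Perm Ω) (S : Set Ω) : Set Ω := {e | e ∈ S ∧ y e = e ∧ Even (per x y e)}

/-- bad (even period) fixed points of `x` in `S` -/
def XB (x y : Perm Ω) (S : Set Ω) : Set Ω := {g | g ∈ S ∧ x g = g ∧ Even (per x y g)}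

/-- balanced sets: as many bad `y`-fixed points as bad `x`-fixed points -/
def Bal (x y : Perm Ω) (S : Set Ω) : Prop := (YB x y S).ncard = (XB x y S).ncard

/-- `S` is a single cycle-type orbit of period 2 (four points) -/
def Lone4 (x y : Perm Ω) (S : Set Ω) : Prop := ∃ a, CT x y a ∧ per x y a = 2 ∧ S = Orb x y a

end balance

end Cfsg.Agent.Lib.Helper6.OddGr
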