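import Cfsg.Agent.Lib.Helper6.OddGr1

set_option autoImplicit false
set_option linter.unusedSectionVars false
set_option linter.unusedVariables false

/-!
# Involution pairs, part 2: products of two disjoint three-cycles
-/

namespace Cfsg.Agent.Lib.Helper6.OddGr

open Equiv

variable {Ω : Type*} [Fintype Ω] [DecidableEq Ω]

/-- six pairwise distinct points -/
structure Six (p q r p' q' r' : Ω) : Prop where
  pq : p ≠ q
  pr : p ≠ r
  qr : q ≠ r
  pq' : p' ≠ q'
  pr' : p' ≠ r'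
  qr' : q' ≠ r'
  h1 : p ≠ p'
  h2 : p ≠ q'
  h3 : p ≠ r'
  h4 : q ≠ p'
  h5 : q ≠ q'
  h6 : q ≠ r'
  h7 : r ≠ p'
  h8 : r ≠ q'
  h9 : r ≠ r'

namespace Six

variable {p q r p' q' r' : Ω}

theorem commute (h : Six p q r p' q' r') : Commute (c3 p q r) (c3 p' q' r') :=
  c3_commute h.h1 h.h2 h.h3 h.h4 h.h5 h.h6 h.h7 h.h8 h.h9

theorem apply_p (h : Six p q r p' q' r') : (c3 p q r * c3 p' q' r') p = q := by
  rw [Perm.mul_apply, c3_apply_of_ne h.h1 h.h2 h.h3, c3_apply_1 h.pq h.pr]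

theorem apply_q (h : Six p q r p' q' r') : (c3 p q r * c3 p' q' r') q = r := by
  rw [Perm.mul_apply, c3_apply_of_ne h.h4 h.h5 h.h6, c3_apply_2 h.pr h.qr]

theorem apply_r (h : Six p q r p' q' r') : (c3 p q r * c3 p' q' r') r = p := by
  rw [Perm.mul_apply, c3_apply_of_ne h.h7 h.h8 h.h9, c3_apply_3]

theorem apply_p' (h : Six p q r p' q' r') : (c3 p q r * c3 p' q' r') p' = q' := by
  rw [Perm.mul_apply, c3_apply_1 h.pq' h.pr', c3_apply_of_ne h.h2.symm h.h5.symm h.h8.symm]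

theorem apply_q' (h : Six p q r p' q' r') : (c3 p q r * c3 p' q' r') q' = r' := by
  rw [Perm.mul_apply, c3_apply_2 h.pr' h.qr', c3_apply_of_ne h.h3.symm h.h6.symm h.h9.symm]

theorem apply_r' (h : Six p q r p' q' r') : (c3 p q r * c3 p' q' r') r' = p' := by
  rw [Perm.mul_apply, c3_apply_3, c3_apply_of_ne h.h1.symm h.h4.symm h.h7.symm]

theorem apply_of_ne {s : Ω} (hp : s ≠ p) (hq : s ≠ q) (hr : s ≠ r) (hp' : s ≠ p')
    (hq' : s ≠ q') (hr' : s ≠ r') : (c3 p q r * c3 p' q' r') s = s := by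
  rw [Perm.mul_apply, c3_apply_of_ne hp' hq' hr', c3_apply_of_ne hp hq hr]

theorem pow_three (h : Six p q r p' q' r') : (c3 p q r * c3 p' q' r') ^ 3 = 1 := by
  rw [h.commute.mul_pow, c3_pow_three h.pq h.pr h.qr, c3_pow_three h.pq' h.pr' h.qr', one_mul]

/-- `y` swaps the two three-cycles (up to inversion): `y p = q'`, `y q = p'`, `y r = r'` -/
theorem inv_of_swap (h : Six p q r p' q' r') {y : Perm Ω} (hy : y * y = 1) (h1 : y p = q')
    (h2 : y q = p') (h3 : y r = r') :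
    y * (c3 p q r * c3 p' q' r') * y = (c3 p q r * c3 p' q' r')⁻¹ := by
  have e : y * (c3 p q r * c3 p' q' r') * y = (y * c3 p q r * y) * (y * c3 p' q' r' * y) := by
    calc y * (c3 p q r * c3 p' q' r') * y = y * c3 p q r * 1 * c3 p' q' r' * y := by group
      _ = y * c3 p q r * (y * y) * c3 p' q' r' * y := by rw [hy]
      _ = (y * c3 p q r * y) * (y * c3 p' q' r' * y) := by group
  have k1 : y p' = q := by rw [← h2, apply_apply_of_sq hy]
  have k2 : y q' = p := by rw [← h1, apply_apply_of_sq hy]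
  have k3 : y r' = r := by rw [← h3, apply_apply_of_sq hy]
  rw [e, c3_conj_invol hy, c3_conj_invol hy, h1, h2, h3, k1, k2, k3, mul_inv_rev, c3_inv, c3_inv,
    c3_rotate h.qr'.symm h.pr'.symm h.pq'.symm, c3_rotate h.qr.symm h.pr.symm h.pq.symm]

/-- `y` inverts each of the two three-cycles: `y p = r`, `y q = q`, `y p' = r'`, `y q' = q'` -/
theorem inv_of_fix (h : Six p q r p' q' r') {y : Perm Ω} (hy : y * y = 1) (h1 : y p = r)
    (h2 : y q = q) (h3 : y p' = r') (h4 : y q' = q') :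
    y * (c3 p q r * c3 p' q' r') * y = (c3 p q r * c3 p' q' r')⁻¹ := by
  have e : y * (c3 p q r * c3 p' q' r') * y = (y * c3 p q r * y) * (y * c3 p' q' r' * y) := by
    calc y * (c3 p q r * c3 p' q' r') * y = y * c3 p q r * 1 * c3 p' q' r' * y := by group
      _ = y * c3 p q r * (y * y) * c3 p' q' r' * y := by rw [hy]
      _ = (y * c3 p q r * y) * (y * c3 p' q' r' * y) := by group
  have k1 : y r = p := by rw [← h1, apply_apply_of_sq hy]
  have k3 : y r' = p' := by rw [← h3, apply_apply_of_sq hy]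
  rw [e, c3_conj_invol hy, c3_conj_invol hy, h1, h2, h3, h4, k1, k3, mul_inv_rev, c3_inv, c3_inv]
  exact (c3_commute h.h9.symm h.h6.symm h.h3.symm h.h8.symm h.h5.symm h.h2.symm h.h7.symm
    h.h4.symm h.h1.symm).eq.symm

end Six

end Cfsg.Agent.Lib.Helper6.OddGr
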