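import Cfsg.Agent.Lib.Helper6.OddGr1

set_option autoImplicit false
set_option linter.unusedSectionVars false
set_option linter.unusedVariables false

/-!
# Involution pairs: block B1 (a cycle orbit of period 2 and a good path orbit)
-/

namespace Cfsg.Agent.Lib.Helper6.OddGr

open Equiv

variable {Ω : Type*} [Fintype Ω] [DecidableEq Ω] {x y : Perm Ω}

/-- the closed walk of block B1 -/
def qB1 (x y : Perm Ω) (a e : Ω) : ℕ → Ω
  | 0 => e
  | 1 => x a
  | 2 => y a
  | 3 => (x * y) a
  | 4 => a
  | (k + 5) => ((x * y) ^ (k + 1)) e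

theorem blockB1 (hx : x * x = 1) (hy : y * y = 1) {a e : Ω} (hct : CT x y a)
    (hpa : per x y a = 2) (he : y e = e) (hodd : Odd (per x y e)) :
    ∃ κ : Perm Ω, Solves x y κ (Orb x y a ∪ Orb x y e) := by
  obtain ⟨n1, n2, n3, n4, n5, n6⟩ := hct.four_ne hx hy hpa
  have heO : e ∉ Orb x y a := hct.not_mem_of_yfix hx hy he
  have hdisj : ∀ t ∈ Orb x y e, t ∉ Orb x y a := by
    intro t ht hta
    apply heO
    have h1 := orb_eq_of_mem hx hy hta
    rw [← h1]
    exact orb_symm hx hy ht
  have m1 : a ∈ Orb x y a := mem_orb_self x y a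
  have m2 : x a ∈ Orb x y a := x_mem_orb_self x y a
  have m3 : (x * y) a ∈ Orb x y a := orb_c m1
  have m4 : y a ∈ Orb x y a := orb_y hx hy m1
  have ne_of : ∀ {s t : Ω}, s ∈ Orb x y e → t ∈ Orb x y a → s ≠ t := by
    intro s t hs ht hst
    exact hdisj s hs (hst ▸ ht)
  have me : e ∈ Orb x y e := mem_orb_self x y e
  have mpow : ∀ k : ℕ, ((x * y) ^ k) e ∈ Orb x y e := by
    intro k
    rw [← zpow_natCast]
    exact zpow_mem_orb x y e k
  have hκ3 : (c3 a e (y a)) ^ 3 = 1 :=
    c3_pow_three (ne_of me m1).symm (Ne.symm n3) (ne_of me m4)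
  refine ⟨c3 a e (y a), ?_, ?_, ⟨3, by decide, hκ3⟩, ?_⟩
  · intro s hs
    apply c3_apply_of_ne
    · rintro rfl; exact hs (Or.inl m1)
    · rintro rfl; exact hs (Or.inr me)
    · rintro rfl; exact hs (Or.inl m4)
  · rw [c3_conj_invol hy, he, apply_apply_of_sq hy, c3_inv]
  · -- the closed walk
    have σe : (x * y * c3 a e (y a)) e = x a := by
      rw [Perm.mul_apply, c3_apply_2 (Ne.symm n3) (ne_of me m4), c_y_of_per_two hx hy hpa]
    have σxa : (x * y * c3 a e (y a)) (x a) = y a := by
      rw [Perm.mul_apply, c3_apply_of_ne n1 (ne_of me m2).symm (Ne.symm n5),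
        c_x_of_per_two hx hy hpa]
    have σya : (x * y * c3 a e (y a)) (y a) = (x * y) a := by
      rw [Perm.mul_apply, c3_apply_3]
    have σca : (x * y * c3 a e (y a)) ((x * y) a) = a := by
      rw [Perm.mul_apply, c3_apply_of_ne n2 (ne_of me m3).symm (Ne.symm n6),
        c_c_of_per_two hpa]
    have σa : (x * y * c3 a e (y a)) a = (x * y) e := by
      rw [Perm.mul_apply, c3_apply_1 (ne_of me m1).symm (Ne.symm n3)]
    have σpow : ∀ k : ℕ, k + 1 < per x y e →
        (x * y * c3 a e (y a)) (((x * y) ^ (k + 1)) e) = ((x * y) ^ (k + 2)) e := by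
      intro k hk
      have h1 : ((x * y) ^ (k + 1)) e ≠ e := by
        intro h
        have := Nat.le_of_dvd (by omega) ((pow_apply_eq_self_iff x y e (k + 1)).1 h)
        omega
      rw [Perm.mul_apply, c3_apply_of_ne (ne_of (mpow _) m1) h1 (ne_of (mpow _) m4),
        ← Perm.mul_apply, ← pow_succ']
    obtain ⟨l, hl⟩ : ∃ l, per x y e = l + 1 := ⟨per x y e - 1, by have := per_pos x y e; omega⟩
    have hL : Odd (l + 5) := by
      have : l + 5 = per x y e + 4 := by omega
      rw [this]
      exact hodd.add_even (by decide)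
    have hwalk := op_of_walk (x * y * c3 a e (y a)) (qB1 x y a e) (l + 5) hL
      (by
        intro i hi
        match i, hi with
        | 0, _ => exact σe
        | 1, _ => exact σxa
        | 2, _ => exact σya
        | 3, _ => exact σca
        | 4, _ => simpa [qB1] using σa
        | (k + 5), hk => exact σpow k (by omega))
      (by
        show ((x * y) ^ (l + 1)) e = e
        rw [← hl]
        exact pow_per_apply x y e)
    rintro s (hs | hs)
    · rw [orb_of_per_two hx hy hpa] at hs
      rcases hs with rfl | rfl | rfl | rfl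
      · exact hwalk 4 (by omega)
      · exact hwalk 1 (by omega)
      · exact hwalk 3 (by omega)
      · exact hwalk 2 (by omega)
    · obtain ⟨k, hk, rfl⟩ := (mem_orb_of_yfix' he).1 hs
      rcases k with _ | k
      · have := hwalk 0 (by omega)
        simpa [qB1] using this
      · exact hwalk (k + 5) (by omega)

end Cfsg.Agent.Lib.Helper6.OddGr
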