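import Cfsg.Agent.Lib.Helper6.OddGr2

set_option autoImplicit false
set_option linter.unusedSectionVars false
set_option linter.unusedVariables false

/-!
# Involution pairs: block B4 (one cycle-type orbit of even period at least 4)
-/

namespace Cfsg.Agent.Lib.Helper6.OddGr

open Equiv

variable {Ω : Type*} [Fintype Ω] [DecidableEq Ω] {x y : Perm Ω}

theorem pow_inj_of_lt (x y : Perm Ω) (s : Ω) {i j : ℕ} (hi : i < per x y s)
    (hj : j < per x y s) (h : ((x * y) ^ i) s = ((x * y) ^ j) s) : i = j := by
  rw [← zpow_natCast, ← zpow_natCast, zpow_apply_eq_zpow_apply_iff] at h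
  have := Int.eq_zero_of_abs_lt_dvd h (by rw [abs_lt]; constructor <;> omega)
  omega

theorem CT.pow_ne {s : Ω} (h : CT x y s) (i j : ℕ) :
    ((x * y) ^ i) s ≠ ((x * y) ^ j) (x s) := by
  rw [← zpow_natCast, ← zpow_natCast]
  exact h.zpow_ne _ _

theorem c_pow_apply (x y : Perm Ω) (k : ℕ) (s : Ω) :
    (x * y) (((x * y) ^ k) s) = ((x * y) ^ (k + 1)) s := by
  rw [pow_succ']
  rfl

/-- first closed walk of block B4 -/
def q1B4 (x y : Perm Ω) (a : Ω) (m' : ℕ) (i : ℕ) : Ω :=
  if i < m' + 2 then ((x * y) ^ (i + 1)) a else if i = m' + 2 then (x * y) (x a) else (x * y) a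

/-- second closed walk of block B4 -/
def q2B4 (x y : Perm Ω) (a : Ω) (m' : ℕ) (i : ℕ) : Ω :=
  if i < m' + 2 then ((x * y) ^ (i + 2)) (x a)
  else if i = m' + 2 then ((x * y) ^ (m' + 3)) a else ((x * y) ^ 2) (x a)

theorem blockB4 (hx : x * x = 1) (hy : y * y = 1) {a : Ω} (hct : CT x y a)
    (hev : Even (per x y a)) (h4 : 4 ≤ per x y a) :
    ∃ κ : Perm Ω, Solves x y κ (Orb x y a) := by
  obtain ⟨m', hm⟩ : ∃ m', per x y a = m' + 4 := ⟨per x y a - 4, by omega⟩
  have hmx : per x y (x a) = m' + 4 := by rw [per_x_apply hx hy, hm]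
  have hA : ∀ i j : ℕ, i < m' + 4 → j < m' + 4 → ((x * y) ^ i) a = ((x * y) ^ j) a → i = j :=
    fun i j hi hj h => pow_inj_of_lt x y a (by omega) (by omega) h
  have hB : ∀ i j : ℕ, i < m' + 4 → j < m' + 4 →
      ((x * y) ^ i) (x a) = ((x * y) ^ j) (x a) → i = j :=
    fun i j hi hj h => pow_inj_of_lt x y (x a) (by omega) (by omega) h
  have hAB : ∀ i j : ℕ, ((x * y) ^ i) a ≠ ((x * y) ^ j) (x a) := fun i j => hct.pow_ne i j
  have hAm : ((x * y) ^ (m' + 4)) a = a := by rw [← hm]; exact pow_per_apply x y a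
  have hBm : ((x * y) ^ (m' + 4)) (x a) = x a := by rw [← hmx]; exact pow_per_apply x y (x a)
  have a0 : ((x * y) ^ 0) a = a := by simp
  have b0 : ((x * y) ^ 0) (x a) = x a := by simp
  have b1 : ((x * y) ^ 1) (x a) = (x * y) (x a) := by simp
  have six : Six a (((x * y) ^ (m' + 3)) a) ((x * y) (x a)) (x a) (((x * y) ^ (m' + 3)) (x a))
      (((x * y) ^ (m' + 2)) a) := by
    refine ⟨?_, ?_, ?_, ?_, ?_, ?_, ?_, ?_, ?_, ?_, ?_, ?_, ?_, ?_, ?_⟩
    · intro h
      have := hA 0 (m' + 3) (by omega) (by omega) (by rw [a0]; exact h)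
      omega
    · rw [← b1]; intro h; exact hAB 0 1 (by rw [a0]; exact h)
    · rw [← b1]; exact hAB _ _
    · intro h
      have := hB 0 (m' + 3) (by omega) (by omega) (by rw [b0]; exact h)
      omega
    · intro h; exact hAB (m' + 2) 0 (by rw [b0]; exact h.symm)
    · exact (hAB _ _).symm
    · intro h; exact hAB 0 0 (by rw [a0, b0]; exact h)
    · intro h; exact hAB 0 (m' + 3) (by rw [a0]; exact h)
    · intro h
      have := hA 0 (m' + 2) (by omega) (by omega) (by rw [a0]; exact h)
      omega
    · intro h; exact hAB (m' + 3) 0 (by rw [b0]; exact h)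
    · exact hAB _ _
    · intro h
      have := hA _ _ (by omega) (by omega) h
      omega
    · intro h
      have := hB 1 0 (by omega) (by omega) (by rw [b0, b1]; exact h)
      omega
    · intro h
      have := hB 1 (m' + 3) (by omega) (by omega) (by rw [b1]; exact h)
      omega
    · rw [← b1]; exact (hAB _ _).symm
  -- the action of `y`
  have y1 : y a = ((x * y) ^ (m' + 3)) (x a) := by
    rw [y_apply hx hy, ← zpow_natCast, zpow_apply_eq_zpow_apply_iff, hmx]
    exact ⟨-1, by push_cast; ring⟩
  have y2 : y (((x * y) ^ (m' + 3)) a) = x a := by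
    rw [← zpow_natCast, y_zpow_apply hx hy, y_apply hx hy, ← Perm.mul_apply, ← zpow_add,
      zpow_apply_eq_self_iff, hmx]
    exact ⟨-1, by push_cast; ring⟩
  have y3 : y ((x * y) (x a)) = ((x * y) ^ (m' + 2)) a := by
    have e1 : (x * y) (x a) = ((x * y) ^ (1 : ℤ)) (x a) := by simp
    rw [e1, y_zpow_apply hx hy, y_apply hx hy, apply_apply_of_sq hx, ← Perm.mul_apply,
      ← zpow_add, ← zpow_natCast, zpow_apply_eq_zpow_apply_iff, hm]
    exact ⟨-1, by push_cast; ring⟩
  refine ⟨_, ?_, six.inv_of_swap hy y1 y2 y3, ⟨3, by decide, six.pow_three⟩, ?_⟩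
  · intro s hs
    have hsA : ∀ k : ℕ, s ≠ ((x * y) ^ k) a := by
      intro k h
      apply hs
      rw [h, ← zpow_natCast]
      exact zpow_mem_orb x y a k
    have hsB : ∀ k : ℕ, s ≠ ((x * y) ^ k) (x a) := by
      intro k h
      apply hs
      rw [h, ← zpow_natCast]
      exact zpow_x_mem_orb x y a k
    apply Six.apply_of_ne
    · have := hsA 0; rwa [a0] at this
    · exact hsA _
    · have := hsB 1; rwa [b1] at this
    · have := hsB 0; rwa [b0] at this
    · exact hsB _
    · exact hsA _
  · -- values of σ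
    have σa : (x * y * (c3 a (((x * y) ^ (m' + 3)) a) ((x * y) (x a)) *
        c3 (x a) (((x * y) ^ (m' + 3)) (x a)) (((x * y) ^ (m' + 2)) a))) a = a := by
      rw [Perm.mul_apply, six.apply_p, c_pow_apply, hAm]
    have σP2 : (x * y * (c3 a (((x * y) ^ (m' + 3)) a) ((x * y) (x a)) *
        c3 (x a) (((x * y) ^ (m' + 3)) (x a)) (((x * y) ^ (m' + 2)) a)))
        (((x * y) ^ (m' + 3)) a) = ((x * y) ^ 2) (x a) := by
      rw [Perm.mul_apply, six.apply_q, pow_two]
      rfl
    have σP3 : (x * y * (c3 a (((x * y) ^ (m' + 3)) a) ((x * y) (x a)) *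
        c3 (x a) (((x * y) ^ (m' + 3)) (x a)) (((x * y) ^ (m' + 2)) a)))
        ((x * y) (x a)) = (x * y) a := by
      rw [Perm.mul_apply, six.apply_r]
    have σxa : (x * y * (c3 a (((x * y) ^ (m' + 3)) a) ((x * y) (x a)) *
        c3 (x a) (((x * y) ^ (m' + 3)) (x a)) (((x * y) ^ (m' + 2)) a))) (x a) = x a := by
      rw [Perm.mul_apply, six.apply_p', c_pow_apply, hBm]
    have σQ2 : (x * y * (c3 a (((x * y) ^ (m' + 3)) a) ((x * y) (x a)) *
        c3 (x a) (((x * y) ^ (m' + 3)) (x a)) (((x * y) ^ (m' + 2)) a)))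
        (((x * y) ^ (m' + 3)) (x a)) = ((x * y) ^ (m' + 3)) a := by
      rw [Perm.mul_apply, six.apply_q', c_pow_apply]
    have σQ3 : (x * y * (c3 a (((x * y) ^ (m' + 3)) a) ((x * y) (x a)) *
        c3 (x a) (((x * y) ^ (m' + 3)) (x a)) (((x * y) ^ (m' + 2)) a)))
        (((x * y) ^ (m' + 2)) a) = (x * y) (x a) := by
      rw [Perm.mul_apply, six.apply_r']
    have σA : ∀ k : ℕ, 1 ≤ k → k ≤ m' + 1 →
        (x * y * (c3 a (((x * y) ^ (m' + 3)) a) ((x * y) (x a)) *
        c3 (x a) (((x * y) ^ (m' + 3)) (x a)) (((x * y) ^ (m' + 2)) a)))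
        (((x * y) ^ k) a) = ((x * y) ^ (k + 1)) a := by
      intro k h1 h2
      rw [Perm.mul_apply, Six.apply_of_ne, c_pow_apply]
      · intro h
        have := hA k 0 (by omega) (by omega) (by rw [a0]; exact h)
        omega
      · intro h
        have := hA k (m' + 3) (by omega) (by omega) h
        omega
      · rw [← b1]; exact hAB _ _
      · rw [← b0]; exact hAB _ _
      · exact hAB _ _
      · intro h
        have := hA k (m' + 2) (by omega) (by omega) h
        omega
    have σB : ∀ k : ℕ, 2 ≤ k → k ≤ m' + 2 →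
        (x * y * (c3 a (((x * y) ^ (m' + 3)) a) ((x * y) (x a)) *
        c3 (x a) (((x * y) ^ (m' + 3)) (x a)) (((x * y) ^ (m' + 2)) a)))
        (((x * y) ^ k) (x a)) = ((x * y) ^ (k + 1)) (x a) := by
      intro k h1 h2
      rw [Perm.mul_apply, Six.apply_of_ne, c_pow_apply]
      · intro h; exact hAB 0 k (by rw [a0]; exact h.symm)
      · exact (hAB _ _).symm
      · intro h
        have := hB k 1 (by omega) (by omega) (by rw [b1]; exact h)
        omega
      · intro h
        have := hB k 0 (by omega) (by omega) (by rw [b0]; exact h)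
        omega
      · intro h
        have := hB k (m' + 3) (by omega) (by omega) h
        omega
      · exact (hAB _ _).symm
    have hL : Odd (m' + 3) := by
      rw [hm] at hev
      obtain ⟨k, hk⟩ := hev
      have hk2 : 2 ≤ k := by omega
      refine ⟨k - 1, ?_⟩
      omega
    have hw1 := op_of_walk _ (q1B4 x y a m') (m' + 3) hL
      (by
        intro i hi
        by_cases h1 : i < m' + 1
        · have e1 : q1B4 x y a m' i = ((x * y) ^ (i + 1)) a := by simp [q1B4]; omega
          have e2 : q1B4 x y a m' (i + 1) = ((x * y) ^ (i + 1 + 1)) a := by simp [q1B4]; omega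
          rw [e1, e2]
          exact σA (i + 1) (by omega) (by omega)
        by_cases h2 : i = m' + 1
        · subst h2
          have e1 : q1B4 x y a m' (m' + 1) = ((x * y) ^ (m' + 2)) a := by simp [q1B4]
          have e2 : q1B4 x y a m' (m' + 1 + 1) = (x * y) (x a) := by simp [q1B4]
          rw [e1, e2]
          exact σQ3
        · have h3 : i = m' + 2 := by omega
          subst h3
          have e1 : q1B4 x y a m' (m' + 2) = (x * y) (x a) := by simp [q1B4]
          have e2 : q1B4 x y a m' (m' + 2 + 1) = (x * y) a := by simp [q1B4]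
          rw [e1, e2]
          exact σP3)
      (by simp [q1B4])
    have hw2 := op_of_walk _ (q2B4 x y a m') (m' + 3) hL
      (by
        intro i hi
        by_cases h1 : i < m' + 1
        · have e1 : q2B4 x y a m' i = ((x * y) ^ (i + 2)) (x a) := by simp [q2B4]; omega
          have e2 : q2B4 x y a m' (i + 1) = ((x * y) ^ (i + 2 + 1)) (x a) := by
            simp [q2B4]; omega
          rw [e1, e2]
          exact σB (i + 2) (by omega) (by omega)
        by_cases h2 : i = m' + 1
        · subst h2
          have e1 : q2B4 x y a m' (m' + 1) = ((x * y) ^ (m' + 3)) (x a) := by simp [q2B4]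
          have e2 : q2B4 x y a m' (m' + 1 + 1) = ((x * y) ^ (m' + 3)) a := by simp [q2B4]
          rw [e1, e2]
          exact σQ2
        · have h3 : i = m' + 2 := by omega
          subst h3
          have e1 : q2B4 x y a m' (m' + 2) = ((x * y) ^ (m' + 3)) a := by simp [q2B4]
          have e2 : q2B4 x y a m' (m' + 2 + 1) = ((x * y) ^ 2) (x a) := by simp [q2B4]
          rw [e1, e2]
          exact σP2)
      (by simp [q2B4])
    intro s hs
    rcases (mem_orb_iff' hx hy).1 hs with ⟨k, hk, rfl⟩ | ⟨k, hk, rfl⟩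
    · rw [hm] at hk
      by_cases k0 : k = 0
      · subst k0
        rw [a0]
        exact op_of_fixed _ σa
      by_cases k1 : k ≤ m' + 2
      · have := hw1 (k - 1) (by omega)
        have e1 : q1B4 x y a m' (k - 1) = ((x * y) ^ k) a := by
          have : k - 1 + 1 = k := by omega
          simp [q1B4, this]; omega
        rwa [e1] at this
      · have hk3 : k = m' + 3 := by omega
        subst hk3
        have := hw2 (m' + 2) (by omega)
        have e1 : q2B4 x y a m' (m' + 2) = ((x * y) ^ (m' + 3)) a := by simp [q2B4]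
        rwa [e1] at this
    · rw [hm] at hk
      by_cases k0 : k = 0
      · subst k0
        rw [b0]
        exact op_of_fixed _ σxa
      by_cases k1 : k = 1
      · subst k1
        have := hw1 (m' + 2) (by omega)
        have e1 : q1B4 x y a m' (m' + 2) = (x * y) (x a) := by simp [q1B4]
        rw [e1] at this
        rw [b1]
        exact this
      · have := hw2 (k - 2) (by omega)
        have e1 : q2B4 x y a m' (k - 2) = ((x * y) ^ k) (x a) := by
          have : k - 2 + 2 = k := by omega
          simp [q2B4, this]; omega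
        rwa [e1] at this

end Cfsg.Agent.Lib.Helper6.OddGr
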