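import Cfsg.Agent.Lib.Helper6.OddGr1

set_option autoImplicit false
set_option linter.unusedSectionVars false
set_option linter.unusedVariables false

/-!
# Involution pairs: block B7 (three cycle-type orbits of period 2)

The twelve points are labelled by `Fin 3 × Fin 4`; all combinatorial checks are done there
by `decide`.
-/

namespace Cfsg.Agent.Lib.Helper6.OddGr

open Equiv

variable {Ω : Type*} [Fintype Ω] [DecidableEq Ω] {x y : Perm Ω}

/-- five-cycle `p → q → r → s → t → p` -/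
def cyc5 {α : Type*} [DecidableEq α] (p q r s t : α) : Perm α :=
  swap p q * swap q r * swap r s * swap s t

/-- the model of `κ` on the twelve labels -/
def k0B7 : Perm (Fin 3 × Fin 4) :=
  cyc5 (0, 0) (0, 2) (1, 3) (2, 0) (1, 2) * cyc5 (0, 1) (0, 3) (1, 1) (2, 3) (1, 0)

/-- the model of `y` on the four labels of one orbit -/
def yjB7 : Perm (Fin 4) := swap 0 3 * swap 1 2

/-- the model of `x * y` on the four labels of one orbit -/
def cjB7 : Perm (Fin 4) := swap 0 2 * swap 1 3

/-- the model of `y` -/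
def y0B7 : Perm (Fin 3 × Fin 4) := Equiv.prodCongr (Equiv.refl _) yjB7

/-- the model of `x * y` -/
def c0B7 : Perm (Fin 3 × Fin 4) := Equiv.prodCongr (Equiv.refl _) cjB7

set_option maxRecDepth 100000 in
theorem k0B7_pow : ∀ i : Fin 3 × Fin 4, (k0B7 ^ 5) i = i := by decide

set_option maxRecDepth 100000 in
theorem k0B7_inv : ∀ i : Fin 3 × Fin 4, k0B7 (y0B7 (k0B7 (y0B7 i))) = i := by decide

set_option maxRecDepth 100000 in
theorem k0B7_op : ∀ i : Fin 3 × Fin 4, ((c0B7 * k0B7) ^ 5) i = i := by decide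

/-- the four points of an orbit of period 2 -/
def F4 (x y : Perm Ω) (j : Fin 4) (s : Ω) : Ω := ![s, x s, (x * y) s, y s] j

/-- the twelve points -/
def ptB7 (x y : Perm Ω) (a b d : Ω) (i : Fin 3 × Fin 4) : Ω := F4 x y i.2 (![a, b, d] i.1)

theorem F4_mem (hx : x * x = 1) (hy : y * y = 1) (j : Fin 4) (s : Ω) :
    F4 x y j s ∈ Orb x y s := by
  fin_cases j
  · exact mem_orb_self x y s
  · exact x_mem_orb_self x y s
  · exact orb_c (mem_orb_self x y s)
  · exact orb_y hx hy (mem_orb_self x y s)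

theorem F4_y (hx : x * x = 1) (hy : y * y = 1) {s : Ω} (hp : per x y s = 2) (j : Fin 4) :
    y (F4 x y j s) = F4 x y (yjB7 j) s := by
  fin_cases j
  · show y s = y s
    rfl
  · show y (x s) = (x * y) s
    rw [← xy_eq_yx_of_per_two hx hy hp]
    rfl
  · show y ((x * y) s) = x s
    exact y_c_of_per_two hx hy hp
  · show y (y s) = s
    exact apply_apply_of_sq hy s

theorem F4_c (hx : x * x = 1) (hy : y * y = 1) {s : Ω} (hp : per x y s = 2) (j : Fin 4) :
    (x * y) (F4 x y j s) = F4 x y (cjB7 j) s := by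
  fin_cases j
  · show (x * y) s = (x * y) s
    rfl
  · show (x * y) (x s) = y s
    exact c_x_of_per_two hx hy hp
  · show (x * y) ((x * y) s) = s
    exact c_c_of_per_two hp
  · show (x * y) (y s) = x s
    exact c_y_of_per_two hx hy hp

theorem F4_inj (hx : x * x = 1) (hy : y * y = 1) {s : Ω} (hct : CT x y s) (hp : per x y s = 2)
    {j j' : Fin 4} (h : F4 x y j s = F4 x y j' s) : j = j' := by
  obtain ⟨n1, n2, n3, n4, n5, n6⟩ := hct.four_ne hx hy hp
  fin_cases j <;> fin_cases j' <;>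
    first
    | rfl
    | exact absurd h n1
    | exact absurd h.symm n1
    | exact absurd h n2
    | exact absurd h.symm n2
    | exact absurd h n3
    | exact absurd h.symm n3
    | exact absurd h n4
    | exact absurd h.symm n4
    | exact absurd h n5
    | exact absurd h.symm n5
    | exact absurd h n6
    | exact absurd h.symm n6

theorem F4_surj (hx : x * x = 1) (hy : y * y = 1) {s t : Ω} (hp : per x y s = 2)
    (ht : t ∈ Orb x y s) : ∃ j : Fin 4, F4 x y j s = t := by
  rw [orb_of_per_two hx hy hp] at ht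
  rcases ht with rfl | rfl | rfl | rfl
  · exact ⟨0, rfl⟩
  · exact ⟨1, rfl⟩
  · exact ⟨2, rfl⟩
  · exact ⟨3, rfl⟩

theorem transfer_pow {α : Type*} (f : α → Ω) (σ : Perm Ω) (σ0 : Perm α)
    (h : ∀ i, σ (f i) = f (σ0 i)) (n : ℕ) (i : α) : (σ ^ n) (f i) = f ((σ0 ^ n) i) := by
  induction n generalizing i with
  | zero => simp
  | succ n ih => rw [pow_succ, Perm.mul_apply, h, ih, pow_succ, Perm.mul_apply]

theorem blockB7 (hx : x * x = 1) (hy : y * y = 1) {a b d : Ω} (hcta : CT x y a)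
    (hpa : per x y a = 2) (hctb : CT x y b) (hpb : per x y b = 2) (hctd : CT x y d)
    (hpd : per x y d = 2) (hba : b ∉ Orb x y a) (hda : d ∉ Orb x y a) (hdb : d ∉ Orb x y b) :
    ∃ κ : Perm Ω, Solves x y κ (Orb x y a ∪ Orb x y b ∪ Orb x y d) := by
  have hct : ∀ o : Fin 3, CT x y (![a, b, d] o) := by
    intro o; fin_cases o
    · exact hcta
    · exact hctb
    · exact hctd
  have hp : ∀ o : Fin 3, per x y (![a, b, d] o) = 2 := by
    intro o; fin_cases o
    · exact hpa
    · exact hpb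
    · exact hpd
  have hP : ∀ o o' : Fin 3, o ≠ o' → ![a, b, d] o ∉ Orb x y (![a, b, d] o') := by
    intro o o' hne
    fin_cases o <;> fin_cases o'
    · exact absurd rfl hne
    · exact fun h => hba (orb_symm hx hy h)
    · exact fun h => hda (orb_symm hx hy h)
    · exact hba
    · exact absurd rfl hne
    · exact fun h => hdb (orb_symm hx hy h)
    · exact hda
    · exact hdb
    · exact absurd rfl hne
  have hinj : Function.Injective (ptB7 x y a b d) := by
    rintro ⟨o, j⟩ ⟨o', j'⟩ h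
    have ho : o = o' := by
      by_contra hne
      apply hP o o' hne
      have h1 : ptB7 x y a b d (o, j) ∈ Orb x y (![a, b, d] o) := F4_mem hx hy j _
      have h2 : ptB7 x y a b d (o, j) ∈ Orb x y (![a, b, d] o') := by
        rw [h]
        exact F4_mem hx hy j' _
      have h3 := orb_eq_of_mem hx hy h1
      have h4 := orb_eq_of_mem hx hy h2
      rw [← h4, h3]
      exact mem_orb_self x y _
    subst ho
    have hj : j = j' := F4_inj hx hy (hct o) (hp o) h
    rw [hj]
  have hy0 : ∀ i, y (ptB7 x y a b d i) = ptB7 x y a b d (y0B7 i) := by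
    rintro ⟨o, j⟩
    exact F4_y hx hy (hp o) j
  have hc0 : ∀ i, (x * y) (ptB7 x y a b d i) = ptB7 x y a b d (c0B7 i) := by
    rintro ⟨o, j⟩
    exact F4_c hx hy (hp o) j
  have hrange : ∀ s, s ∈ Orb x y a ∪ Orb x y b ∪ Orb x y d ↔ ∃ i, ptB7 x y a b d i = s := by
    intro s
    constructor
    · rintro ((h | h) | h)
      · obtain ⟨j, hj⟩ := F4_surj hx hy hpa h
        exact ⟨(0, j), hj⟩
      · obtain ⟨j, hj⟩ := F4_surj hx hy hpb h
        exact ⟨(1, j), hj⟩
      · obtain ⟨j, hj⟩ := F4_surj hx hy hpd h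
        exact ⟨(2, j), hj⟩
    · rintro ⟨⟨o, j⟩, rfl⟩
      have := F4_mem (x := x) (y := y) hx hy j (![a, b, d] o)
      fin_cases o
      · exact Or.inl (Or.inl this)
      · exact Or.inl (Or.inr this)
      · exact Or.inr this
  obtain ⟨ι, hι⟩ : ∃ ι : Fin 3 × Fin 4 ↪ Ω, ∀ i, ι i = ptB7 x y a b d i :=
    ⟨⟨ptB7 x y a b d, hinj⟩, fun _ => rfl⟩
  have hy1 : ∀ i, y (ι i) = ι (y0B7 i) := by
    intro i
    rw [hι, hι]
    exact hy0 i
  have hc1 : ∀ i, (x * y) (ι i) = ι (c0B7 i) := by
    intro i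
    rw [hι, hι]
    exact hc0 i
  have hrange1 : ∀ s, s ∈ Orb x y a ∪ Orb x y b ∪ Orb x y d ↔ ∃ i, ι i = s := by
    intro s
    rw [hrange]
    constructor
    · rintro ⟨i, hi⟩
      exact ⟨i, by rw [hι]; exact hi⟩
    · rintro ⟨i, hi⟩
      exact ⟨i, by rw [← hι]; exact hi⟩
  clear hy0 hc0 hrange hι hinj hP
  generalize hκdef : k0B7.viaFintypeEmbedding ι = κ
  have hκ : ∀ i, κ (ι i) = ι (k0B7 i) := by
    intro i
    rw [← hκdef]
    exact Equiv.Perm.viaFintypeEmbedding_apply_image k0B7 ι i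
  have hfix : ∀ s, s ∉ Orb x y a ∪ Orb x y b ∪ Orb x y d → κ s = s := by
    intro s hs
    rw [← hκdef]
    apply Equiv.Perm.viaFintypeEmbedding_apply_notMem_range
    rintro ⟨i, hi⟩
    exact hs ((hrange1 s).2 ⟨i, hi⟩)
  clear hκdef
  have hinvT : Inv x y (Orb x y a ∪ Orb x y b ∪ Orb x y d) :=
    inv_union (inv_union (inv_orb hx hy a) (inv_orb hx hy b)) (inv_orb hx hy d)
  refine ⟨κ, hfix, ?_, ⟨5, by decide, ?_⟩, ?_⟩
  · have key : κ * (y * κ * y) = 1 := by
      ext s
      rw [Perm.mul_apply, Perm.mul_apply, Perm.mul_apply, Perm.one_apply]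
      by_cases hs : s ∈ Orb x y a ∪ Orb x y b ∪ Orb x y d
      · obtain ⟨i, rfl⟩ := (hrange1 s).1 hs
        rw [hy1, hκ, hy1, hκ, k0B7_inv]
      · have hys : y s ∉ Orb x y a ∪ Orb x y b ∪ Orb x y d := by
          intro h
          apply hs
          have := (hinvT _ h).2
          rwa [apply_apply_of_sq hy] at this
        rw [hfix _ hys, apply_apply_of_sq hy, hfix _ hs]
    exact (eq_inv_of_mul_eq_one_right key)
  · ext s
    rw [Perm.one_apply]
    by_cases hs : s ∈ Orb x y a ∪ Orb x y b ∪ Orb x y d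
    · obtain ⟨i, rfl⟩ := (hrange1 s).1 hs
      rw [transfer_pow (⇑ι) κ k0B7 hκ, k0B7_pow]
    · have : ∀ n : ℕ, (κ ^ n) s = s := by
        intro n
        induction n with
        | zero => simp
        | succ n ih => rw [pow_succ, Perm.mul_apply, hfix s hs, ih]
      exact this 5
  · intro s hs
    obtain ⟨i, rfl⟩ := (hrange1 s).1 hs
    refine ⟨5, by decide, ?_⟩
    have hσ : ∀ i, (x * y * κ) (ι i) = ι ((c0B7 * k0B7) i) := by
      intro i
      rw [Perm.mul_apply, hκ, hc1, Perm.mul_apply]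
    rw [transfer_pow (⇑ι) (x * y * κ) (c0B7 * k0B7) hσ, k0B7_op]

end Cfsg.Agent.Lib.Helper6.OddGr
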