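import Cfsg.Agent.Lib.Helper6.OddGr1

set_option autoImplicit false
set_option linter.unusedSectionVars false
set_option linter.unusedVariables false

/-!
# Involution pairs: orbits which are not of cycle type contain fixed points
-/

namespace Cfsg.Agent.Lib.Helper6.OddGr

open Equiv

variable {Ω : Type*} [Fintype Ω] [DecidableEq Ω] {x y : Perm Ω}

theorem exists_fix_of_not_ct (hx : x * x = 1) (hy : y * y = 1) {s : Ω} (h : ¬ CT x y s) :
    ∃ t ∈ Orb x y s, y t = t ∨ x t = t := by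
  unfold CT at h
  push Not at h
  obtain ⟨i, hi⟩ := h
  rcases Int.even_or_odd' i with ⟨j, rfl | rfl⟩
  · refine ⟨((x * y) ^ j) s, zpow_mem_orb x y s j, Or.inr ?_⟩
    rw [x_zpow_apply hx hy, ← hi, ← Perm.mul_apply, ← zpow_add]
    congr 2
    ring
  · refine ⟨((x * y) ^ j) s, zpow_mem_orb x y s j, Or.inl ?_⟩
    rw [y_apply hx hy, x_zpow_apply hx hy, ← hi, ← Perm.mul_apply, ← zpow_add,
      ← Perm.mul_apply, ← zpow_add]
    congr 2
    ring

theorem exists_yfix_of_not_ct_odd (hx : x * x = 1) (hy : y * y = 1) {s : Ω} (h : ¬ CT x y s)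
    (hodd : Odd (per x y s)) : ∃ e ∈ Orb x y s, y e = e := by
  obtain ⟨t, htO, ht | ht⟩ := exists_fix_of_not_ct hx hy h
  · exact ⟨t, htO, ht⟩
  · have hpt : per x y t = per x y s := per_of_mem_orb hx hy htO
    obtain ⟨k, hk⟩ := hodd
    refine ⟨((x * y) ^ (-(k + 1 : ℤ))) t, orb_zpow htO _, ?_⟩
    rw [y_zpow_apply hx hy, y_apply hx hy, ht, ← Perm.mul_apply, ← zpow_add,
      zpow_apply_eq_zpow_apply_iff, hpt, hk]
    refine ⟨1, ?_⟩
    push_cast
    ring

end Cfsg.Agent.Lib.Helper6.OddGr
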