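import Cfsg.Agent.Lib.Helper6.OddGr1

set_option autoImplicit false
set_option linter.unusedSectionVars false
set_option linter.unusedVariables false

/-!
# Involution pairs: fixed points in path orbits of even period
-/

namespace Cfsg.Agent.Lib.Helper6.OddGr

open Equiv

variable {Ω : Type*} [Fintype Ω] [DecidableEq Ω] {x y : Perm Ω}

/-- in a `c`-cycle of even period `2h`, the points `c^i s` with `2h ∣ 2i` are `s` and `c^h s` -/
theorem half_cases (x y : Perm Ω) (s : Ω) {h : ℕ} (hp : per x y s = 2 * h) {i : ℤ}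
    (hi : (per x y s : ℤ) ∣ 2 * i) :
    ((x * y) ^ i) s = s ∨ ((x * y) ^ i) s = ((x * y) ^ h) s := by
  obtain ⟨m, hm⟩ := hi
  rw [hp] at hm
  push_cast at hm
  have hi' : i = h * m := by linarith
  rcases Int.even_or_odd' m with ⟨m', rfl | rfl⟩
  · left
    rw [zpow_apply_eq_self_iff, hp]
    exact ⟨m', by rw [hi']; push_cast; ring⟩
  · right
    rw [← zpow_natCast, zpow_apply_eq_zpow_apply_iff, hp]
    exact ⟨m', by rw [hi']; push_cast; ring⟩

theorem half_ne (x y : Perm Ω) (s : Ω) {h : ℕ} (hp : per x y s = 2 * h) :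
    s ≠ ((x * y) ^ h) s := by
  intro h1
  have h2 := (pow_apply_eq_self_iff x y s h).1 h1.symm
  have h3 := per_pos x y s
  rw [hp] at h2 h3
  have := Nat.le_of_dvd (by omega) h2
  omega

theorem count_yfix (hx : x * x = 1) (hy : y * y = 1) {e : Ω} (he : y e = e)
    (hev : Even (per x y e)) :
    (YB x y (Orb x y e)).ncard = 2 ∧ XB x y (Orb x y e) = ∅ := by
  obtain ⟨h, hh⟩ := hev
  have hp : per x y e = 2 * h := by omega
  constructor
  · have hset : YB x y (Orb x y e) = {e, ((x * y) ^ h) e} := by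
      ext t
      simp only [YB, Set.mem_ofPred_eq, Set.mem_insert_iff, Set.mem_singleton_iff]
      constructor
      · rintro ⟨htO, ht, -⟩
        obtain ⟨i, rfl⟩ := (mem_orb_of_yfix he).1 htO
        rw [y_zpow_apply hx hy, he, zpow_apply_eq_zpow_apply_iff] at ht
        have hd : (per x y e : ℤ) ∣ 2 * i := by
          have : (2 : ℤ) * i = -(-i - i) := by ring
          rw [this]
          exact (dvd_neg).2 ht
        exact half_cases x y e hp hd
      · rintro (rfl | rfl)
        · exact ⟨mem_orb_self x y _, he, ⟨h, hh⟩⟩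
        · refine ⟨?_, ?_, ?_⟩
          · rw [← zpow_natCast]
            exact zpow_mem_orb x y e h
          · rw [← zpow_natCast, y_zpow_apply hx hy, he, zpow_apply_eq_zpow_apply_iff, hp]
            exact ⟨-1, by push_cast; ring⟩
          · rw [← zpow_natCast, per_zpow_apply]
            exact ⟨h, hh⟩
    rw [hset]
    exact Set.ncard_pair (half_ne x y e hp)
  · ext t
    simp only [XB, Set.mem_ofPred_eq, Set.mem_empty_iff_false, iff_false]
    rintro ⟨htO, ht, -⟩
    obtain ⟨i, rfl⟩ := (mem_orb_of_yfix he).1 htO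
    rw [x_zpow_apply hx hy, x_apply_of_yfix he] at ht
    have e1 : ((x * y) ^ (-i)) ((x * y) e) = ((x * y) ^ (-i + 1)) e := by
      rw [zpow_add, zpow_one, Perm.mul_apply (((x * y) ^ (-i))) (x * y)]
    rw [e1, zpow_apply_eq_zpow_apply_iff, hp] at ht
    obtain ⟨m, hm⟩ := ht
    push_cast at hm
    have : (2 : ℤ) ∣ -i + 1 - i := ⟨h * m, by rw [hm]; ring⟩
    omega

theorem count_xfix (hx : x * x = 1) (hy : y * y = 1) {g : Ω} (hg : x g = g)
    (hev : Even (per x y g)) :
    (XB x y (Orb x y g)).ncard = 2 ∧ YB x y (Orb x y g) = ∅ := by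
  obtain ⟨h, hh⟩ := hev
  have hp : per x y g = 2 * h := by omega
  constructor
  · have hset : XB x y (Orb x y g) = {g, ((x * y) ^ h) g} := by
      ext t
      simp only [XB, Set.mem_ofPred_eq, Set.mem_insert_iff, Set.mem_singleton_iff]
      constructor
      · rintro ⟨htO, ht, -⟩
        obtain ⟨i, rfl⟩ := (mem_orb_of_xfix hg).1 htO
        rw [x_zpow_apply hx hy, hg, zpow_apply_eq_zpow_apply_iff] at ht
        have hd : (per x y g : ℤ) ∣ 2 * i := by
          have : (2 : ℤ) * i = -(-i - i) := by ring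
          rw [this]
          exact (dvd_neg).2 ht
        exact half_cases x y g hp hd
      · rintro (rfl | rfl)
        · exact ⟨mem_orb_self x y _, hg, ⟨h, hh⟩⟩
        · refine ⟨?_, ?_, ?_⟩
          · rw [← zpow_natCast]
            exact zpow_mem_orb x y g h
          · rw [← zpow_natCast, x_zpow_apply hx hy, hg, zpow_apply_eq_zpow_apply_iff, hp]
            exact ⟨-1, by push_cast; ring⟩
          · rw [← zpow_natCast, per_zpow_apply]
            exact ⟨h, hh⟩
    rw [hset]
    exact Set.ncard_pair (half_ne x y g hp)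
  · ext t
    simp only [YB, Set.mem_ofPred_eq, Set.mem_empty_iff_false, iff_false]
    rintro ⟨htO, ht, -⟩
    obtain ⟨i, rfl⟩ := (mem_orb_of_xfix hg).1 htO
    rw [y_zpow_apply hx hy, y_apply_of_xfix hx hy hg, ← Perm.mul_apply, ← zpow_add,
      zpow_apply_eq_zpow_apply_iff, hp] at ht
    obtain ⟨m, hm⟩ := ht
    push_cast at hm
    have : (2 : ℤ) ∣ -i + -1 - i := ⟨h * m, by rw [hm]; ring⟩
    omega

end Cfsg.Agent.Lib.Helper6.OddGr
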