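import Cfsg.Agent.Lib.Helper6.OddGrSolves
import Cfsg.Agent.Lib.Helper6.OddGrClass
import Cfsg.Agent.Lib.Helper6.OddGrCount
import Cfsg.Agent.Lib.Helper6.OddGrB1
import Cfsg.Agent.Lib.Helper6.OddGrB4
import Cfsg.Agent.Lib.Helper6.OddGrB7
import Cfsg.Agent.Lib.Helper55.OddGrB2
import Cfsg.Agent.Lib.Helper55.OddGrB6
import Cfsg.Agent.Lib.Helper94.OddGrB3
import Cfsg.Agent.Lib.Helper43.OddGrB5
import Cfsg.Agent.Lib.Helper78.OddGrBAL0

set_option autoImplicit false
set_option linter.unusedSectionVars false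

/-!
# Involution pairs: the induction over invariant sets and the common neighbour
-/

namespace Cfsg.Agent.Lib.Helper6.OddGr

open Equiv

variable {Ω : Type*} [Fintype Ω] [DecidableEq Ω] {x y : Perm Ω}

section balance

theorem yb_union (S T : Set Ω) : YB x y (S ∪ T) = YB x y S ∪ YB x y T := by
  ext e
  simp only [YB, Set.mem_ofPred_eq, Set.mem_union]
  tauto

theorem xb_union (S T : Set Ω) : XB x y (S ∪ T) = XB x y S ∪ XB x y T := by
  ext e
  simp only [XB, Set.mem_ofPred_eq, Set.mem_union]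
  tauto

theorem yb_diff (S T : Set Ω) : YB x y (S \ T) = YB x y S \ YB x y T := by
  ext e
  simp only [YB, Set.mem_ofPred_eq, Set.mem_sdiff]
  tauto

theorem xb_diff (S T : Set Ω) : XB x y (S \ T) = XB x y S \ XB x y T := by
  ext e
  simp only [XB, Set.mem_ofPred_eq, Set.mem_sdiff]
  tauto

theorem yb_mono {S T : Set Ω} (h : T ⊆ S) : YB x y T ⊆ YB x y S :=
  fun _ he => ⟨h he.1, he.2⟩

theorem xb_mono {S T : Set Ω} (h : T ⊆ S) : XB x y T ⊆ XB x y S :=
  fun _ he => ⟨h he.1, he.2⟩

theorem bal_diff {S T : Set Ω} (h : T ⊆ S) (hS : Bal x y S) (hT : Bal x y T) :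
    Bal x y (S \ T) := by
  unfold Bal at *
  rw [yb_diff, xb_diff, Set.ncard_sdiff (yb_mono h) (Set.toFinite _),
    Set.ncard_sdiff (xb_mono h) (Set.toFinite _), hS, hT]

theorem bal_of_empty {S : Set Ω} (h1 : YB x y S = ∅) (h2 : XB x y S = ∅) : Bal x y S := by
  unfold Bal
  rw [h1, h2]

theorem yb_orb_ct (hx : x * x = 1) (hy : y * y = 1) {a : Ω} (h : CT x y a) :
    YB x y (Orb x y a) = ∅ := by
  ext e
  simp only [YB, Set.mem_ofPred_eq, Set.mem_empty_iff_false, iff_false]
  rintro ⟨h1, h2, -⟩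
  exact h.y_ne_of_mem hx hy h1 h2

theorem xb_orb_ct (hx : x * x = 1) (hy : y * y = 1) {a : Ω} (h : CT x y a) :
    XB x y (Orb x y a) = ∅ := by
  ext e
  simp only [XB, Set.mem_ofPred_eq, Set.mem_empty_iff_false, iff_false]
  rintro ⟨h1, h2, -⟩
  exact h.x_ne_of_mem hx hy h1 h2

theorem yb_orb_odd (hx : x * x = 1) (hy : y * y = 1) {s : Ω} (h : Odd (per x y s)) :
    YB x y (Orb x y s) = ∅ := by
  ext e
  simp only [YB, Set.mem_ofPred_eq, Set.mem_empty_iff_false, iff_false]
  rintro ⟨h1, -, h3⟩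
  rw [per_of_mem_orb hx hy h1] at h3
  exact (Nat.not_even_iff_odd.2 h) h3

theorem xb_orb_odd (hx : x * x = 1) (hy : y * y = 1) {s : Ω} (h : Odd (per x y s)) :
    XB x y (Orb x y s) = ∅ := by
  ext e
  simp only [XB, Set.mem_ofPred_eq, Set.mem_empty_iff_false, iff_false]
  rintro ⟨h1, -, h3⟩
  rw [per_of_mem_orb hx hy h1] at h3
  exact (Nat.not_even_iff_odd.2 h) h3

theorem bal_pair (hx : x * x = 1) (hy : y * y = 1) {e g : Ω} (he : y e = e)
    (hbe : Even (per x y e)) (hg : x g = g) (hbg : Even (per x y g)) :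
    Bal x y (Orb x y e ∪ Orb x y g) := by
  unfold Bal
  rw [yb_union, xb_union, (count_yfix hx hy he hbe).2, (count_xfix hx hy hg hbg).2,
    Set.union_empty, Set.empty_union, (count_yfix hx hy he hbe).1, (count_xfix hx hy hg hbg).1]

theorem not_mem_orb_of_pair (hx : x * x = 1) (hy : y * y = 1) {e g : Ω} (he : y e = e)
    (hbe : Even (per x y e)) (hg : x g = g) (hbg : Even (per x y g)) : g ∉ Orb x y e := by
  intro h
  have h1 : g ∈ XB x y (Orb x y e) := ⟨h, hg, hbg⟩
  rw [(count_yfix hx hy he hbe).2] at h1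
  exact h1

/-- a bad point which is not of cycle type yields, by balance, bad fixed points of both kinds -/
theorem exists_bad_pair (hx : x * x = 1) (hy : y * y = 1) {S : Set Ω} (hS : Inv x y S)
    (hB : Bal x y S) {s : Ω} (hs : s ∈ S) (hnct : ¬ CT x y s) (hev : Even (per x y s)) :
    ∃ e ∈ S, y e = e ∧ Even (per x y e) ∧ ∃ g ∈ S, x g = g ∧ Even (per x y g) := by
  obtain ⟨t, htO, ht⟩ := exists_fix_of_not_ct hx hy hnct
  have htS : t ∈ S := orb_subset_of_inv hx hy hS hs htO
  have hpt : Even (per x y t) := by rw [per_of_mem_orb hx hy htO]; exact hev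
  unfold Bal at hB
  rcases ht with ht | ht
  · have h1 : t ∈ YB x y S := ⟨htS, ht, hpt⟩
    have h2 : (XB x y S).ncard ≠ 0 := by
      rw [← hB]
      intro h0
      rw [Set.ncard_eq_zero (Set.toFinite _)] at h0
      rw [h0] at h1
      exact h1
    obtain ⟨g, hg⟩ := Set.nonempty_of_ncard_ne_zero h2
    exact ⟨t, htS, ht, hpt, g, hg.1, hg.2.1, hg.2.2⟩
  · have h1 : t ∈ XB x y S := ⟨htS, ht, hpt⟩
    have h2 : (YB x y S).ncard ≠ 0 := by
      rw [hB]
      intro h0
      rw [Set.ncard_eq_zero (Set.toFinite _)] at h0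
      rw [h0] at h1
      exact h1
    obtain ⟨e, he⟩ := Set.nonempty_of_ncard_ne_zero h2
    exact ⟨e, he.1, he.2.1, he.2.2, t, htS, ht, hpt⟩

theorem not_lone4_diff {S T : Set Ω}
    (h : ∀ a' ∈ S, CT x y a' → per x y a' = 2 → a' ∈ T) : ¬ Lone4 x y (S \ T) := by
  rintro ⟨a', hct, hp, hS'⟩
  have h1 : a' ∈ S \ T := by rw [hS']; exact mem_orb_self x y a'
  exact h1.2 (h a' h1.1 hct hp)

end balance

section induction

theorem main_ind (hx : x * x = 1) (hy : y * y = 1) :
    ∀ (n : ℕ) (S : Set Ω), S.ncard = n → Inv x y S → Bal x y S → ¬ Lone4 x y S →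
      ∃ κ : Perm Ω, Solves x y κ S := by
  intro n
  induction n using Nat.strong_induction_on with
  | _ n ih =>
  intro S hn hS hB hL
  have orbS : ∀ s ∈ S, Orb x y s ⊆ S := fun s hs => orb_subset_of_inv hx hy hS hs
  have step : ∀ T : Set Ω, T ⊆ S → T.Nonempty → Inv x y T → Bal x y T →
      (∃ κ : Perm Ω, Solves x y κ T) → ¬ Lone4 x y (S \ T) → ∃ κ : Perm Ω, Solves x y κ S := by
    rintro T hTS hTne hT hBT ⟨κ1, h1⟩ hL'
    have hlt : (S \ T).ncard < n := by
      rw [← hn]
      exact Set.ncard_lt_ncard (LE.le.sdiff_ssubset_of_nonempty hTS hTne) (Set.toFinite _)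
    obtain ⟨κ2, h2⟩ := ih _ hlt (S \ T) rfl (inv_diff hS hT hx hy) (bal_diff hTS hB hBT) hL'
    refine ⟨κ1 * κ2, ?_⟩
    have := solves_union hx hy hT (inv_diff hS hT hx hy) Set.disjoint_sdiff_right h1 h2
    rwa [Set.union_sdiff_cancel hTS] at this
  by_cases hgood : ∀ s ∈ S, Odd (per x y s)
  · exact ⟨1, solves_one hy hgood⟩
  push Not at hgood
  obtain ⟨s0, hs0, hs0bad⟩ := hgood
  rw [Nat.not_odd_iff_even] at hs0bad
  by_cases h4 : ∃ a ∈ S, CT x y a ∧ per x y a = 2
  · obtain ⟨a, haS, hcta, hpa⟩ := h4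
    have hOa : Orb x y a ⊆ S := orbS a haS
    have hBa : YB x y (Orb x y a) = ∅ ∧ XB x y (Orb x y a) = ∅ :=
      ⟨yb_orb_ct hx hy hcta, xb_orb_ct hx hy hcta⟩
    by_cases hA : ∃ w ∈ S, CT x y w ∧ Even (per x y w) ∧ w ∉ Orb x y a
    · obtain ⟨w, hwS, hctw, hevw, hwa⟩ := hA
      have hOw : Orb x y w ⊆ S := orbS w hwS
      have hbal2 : ∀ d : Ω, CT x y d → Bal x y (Orb x y a ∪ Orb x y d) := by
        intro d hctd
        apply bal_of_empty
        · rw [yb_union, hBa.1, yb_orb_ct hx hy hctd, Set.union_empty]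
        · rw [xb_union, hBa.2, xb_orb_ct hx hy hctd, Set.union_empty]
      by_cases hL1 : Lone4 x y (S \ (Orb x y a ∪ Orb x y w))
      · obtain ⟨d, hctd, hpd, hSd⟩ := hL1
        have hd : d ∈ S \ (Orb x y a ∪ Orb x y w) := by rw [hSd]; exact mem_orb_self x y d
        have hdS : d ∈ S := hd.1
        have hda : d ∉ Orb x y a := fun h => hd.2 (Or.inl h)
        have hdw : d ∉ Orb x y w := fun h => hd.2 (Or.inr h)
        by_cases hpw : per x y w = 2
        · have hSeq : Orb x y a ∪ Orb x y w ∪ Orb x y d = S := by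
            rw [← hSd, Set.union_sdiff_cancel (Set.union_subset hOa hOw)]
          obtain ⟨κ, hκ⟩ := blockB7 hx hy hcta hpa hctw hpw hctd hpd hwa hda hdw
          rw [hSeq] at hκ
          exact ⟨κ, hκ⟩
        · refine step (Orb x y a ∪ Orb x y d) (Set.union_subset hOa (orbS d hdS))
            ⟨a, Or.inl (mem_orb_self x y a)⟩ (inv_union (inv_orb hx hy a) (inv_orb hx hy d))
            (hbal2 d hctd) (Cfsg.Agent.Lib.Helper43.OddGr.blockB5 hx hy hcta hpa hctd (by rw [hpd]; exact even_two) hda) ?_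
          rintro ⟨a'', hct'', hp'', hS''⟩
          have hwd : w ∉ Orb x y d := fun h => hdw (orb_symm hx hy h)
          have hw' : w ∈ S \ (Orb x y a ∪ Orb x y d) := ⟨hwS, fun h => h.elim hwa hwd⟩
          rw [hS''] at hw'
          exact hpw ((per_of_mem_orb hx hy hw').trans hp'')
      · exact step (Orb x y a ∪ Orb x y w) (Set.union_subset hOa hOw)
          ⟨a, Or.inl (mem_orb_self x y a)⟩ (inv_union (inv_orb hx hy a) (inv_orb hx hy w))
          (hbal2 w hctw) (Cfsg.Agent.Lib.Helper43.OddGr.blockB5 hx hy hcta hpa hctw hevw hwa) hL1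
    · push Not at hA
      have hrest : ∀ T : Set Ω, Orb x y a ⊆ T → ¬ Lone4 x y (S \ T) := by
        intro T hT
        apply not_lone4_diff
        intro a' ha' hct' hp'
        exact hT (hA a' ha' hct' (by rw [hp']; exact even_two))
      by_cases hE : ∃ e ∈ S, y e = e ∧ Odd (per x y e)
      · obtain ⟨e, heS, he, hodd⟩ := hE
        refine step (Orb x y a ∪ Orb x y e) (Set.union_subset hOa (orbS e heS))
          ⟨a, Or.inl (mem_orb_self x y a)⟩ (inv_union (inv_orb hx hy a) (inv_orb hx hy e))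
          ?_ (blockB1 hx hy hcta hpa he hodd) (hrest _ Set.subset_union_left)
        apply bal_of_empty
        · rw [yb_union, hBa.1, yb_orb_odd hx hy hodd, Set.union_empty]
        · rw [xb_union, hBa.2, xb_orb_odd hx hy hodd, Set.union_empty]
      push Not at hE
      by_cases hG : ∃ w ∈ S, CT x y w ∧ Odd (per x y w)
      · obtain ⟨w, hwS, hctw, hoddw⟩ := hG
        have hwa : w ∉ Orb x y a := by
          intro h
          have h1 := per_of_mem_orb hx hy h
          rw [hpa] at h1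
          rw [h1] at hoddw
          exact absurd hoddw (by decide)
        refine step (Orb x y a ∪ Orb x y w) (Set.union_subset hOa (orbS w hwS))
          ⟨a, Or.inl (mem_orb_self x y a)⟩ (inv_union (inv_orb hx hy a) (inv_orb hx hy w))
          ?_ (Cfsg.Agent.Lib.Helper55.OddGr.blockB6 hx hy hcta hpa hctw hoddw hwa) (hrest _ Set.subset_union_left)
        apply bal_of_empty
        · rw [yb_union, hBa.1, yb_orb_odd hx hy hoddw, Set.union_empty]
        · rw [xb_union, hBa.2, xb_orb_odd hx hy hoddw, Set.union_empty]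
      push Not at hG
      have hex : ∃ s ∈ S, s ∉ Orb x y a := by
        by_contra hcon
        push Not at hcon
        exact hL ⟨a, hcta, hpa, Set.Subset.antisymm hcon hOa⟩
      obtain ⟨s, hsS, hsa⟩ := hex
      have hnct : ¬ CT x y s := by
        intro hct
        rcases Nat.even_or_odd (per x y s) with hev | hodd
        · exact hsa (hA s hsS hct hev)
        · exact hG s hsS hct hodd
      have hev : Even (per x y s) := by
        by_contra hne
        have hodd := Nat.not_even_iff_odd.1 hne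
        obtain ⟨e, heO, he⟩ := exists_yfix_of_not_ct_odd hx hy hnct hodd
        refine hE e (orbS s hsS heO) he ?_
        rw [per_of_mem_orb hx hy heO]
        exact hodd
      obtain ⟨e, heS, he, hbe, g, hgS, hg, hbg⟩ := exists_bad_pair hx hy hS hB hsS hnct hev
      have hge := not_mem_orb_of_pair hx hy he hbe hg hbg
      refine step (Orb x y a ∪ Orb x y e ∪ Orb x y g)
        (Set.union_subset (Set.union_subset hOa (orbS e heS)) (orbS g hgS))
        ⟨a, Or.inl (Or.inl (mem_orb_self x y a))⟩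
        (inv_union (inv_union (inv_orb hx hy a) (inv_orb hx hy e)) (inv_orb hx hy g))
        ?_ (Cfsg.Agent.Lib.Helper94.OddGr.blockB3 hx hy hcta hpa he hbe hg hbg hge)
        (hrest _ (Set.subset_union_left.trans Set.subset_union_left))
      have hp := bal_pair hx hy he hbe hg hbg
      unfold Bal at hp ⊢
      rw [Set.union_assoc, yb_union, xb_union, hBa.1, hBa.2, Set.empty_union, Set.empty_union]
      exact hp
  · push Not at h4
    have hrest : ∀ T : Set Ω, ¬ Lone4 x y (S \ T) := by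
      intro T
      apply not_lone4_diff
      intro a' ha' hct' hp'
      exact absurd hp' (h4 a' ha' hct')
    by_cases hC : ∃ a ∈ S, CT x y a ∧ Even (per x y a)
    · obtain ⟨a, haS, hcta, heva⟩ := hC
      have h4' : 4 ≤ per x y a := by
        have h1 := per_pos x y a
        have h2 := h4 a haS hcta
        obtain ⟨k, hk⟩ := heva
        omega
      refine step (Orb x y a) (orbS a haS) ⟨a, mem_orb_self x y a⟩ (inv_orb hx hy a) ?_
        (blockB4 hx hy hcta heva h4') (hrest _)
      exact bal_of_empty (yb_orb_ct hx hy hcta) (xb_orb_ct hx hy hcta)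
    · push Not at hC
      have hnct : ¬ CT x y s0 := fun h => hC s0 hs0 h hs0bad
      obtain ⟨e, heS, he, hbe, g, hgS, hg, hbg⟩ := exists_bad_pair hx hy hS hB hs0 hnct hs0bad
      have hge := not_mem_orb_of_pair hx hy he hbe hg hbg
      exact step (Orb x y e ∪ Orb x y g) (Set.union_subset (orbS e heS) (orbS g hgS))
        ⟨e, Or.inl (mem_orb_self x y e)⟩ (inv_union (inv_orb hx hy e) (inv_orb hx hy g))
        (bal_pair hx hy he hbe hg hbg) (Cfsg.Agent.Lib.Helper55.OddGr.blockB2 hx hy he hbe hg hbg hge) (hrest _)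

/-- common neighbour of two conjugate involutions on at least five points -/
theorem exists_common (hx : x * x = 1) (hy : y * y = 1) (hc : IsConj x y)
    (h5 : 5 ≤ Fintype.card Ω) :
    ∃ z : Perm Ω, IsConj y z ∧ Odd (orderOf (x * z)) ∧ Odd (orderOf (z * y)) := by
  have hL : ¬ Lone4 x y Set.univ := by
    rintro ⟨a, hct, hp, hu⟩
    have h1 : (Set.univ : Set Ω).ncard ≤ 4 := by
      rw [hu, orb_of_per_two hx hy hp]
      have e1 := Set.ncard_insert_le a ({x a, (x * y) a, y a} : Set Ω)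
      have e2 := Set.ncard_insert_le (x a) ({(x * y) a, y a} : Set Ω)
      have e3 := Set.ncard_insert_le ((x * y) a) ({y a} : Set Ω)
      have e4 : ({y a} : Set Ω).ncard = 1 := Set.ncard_singleton _
      omega
    rw [Set.ncard_univ, Nat.card_eq_fintype_card] at h1
    omega
  obtain ⟨κ, hκ⟩ := main_ind hx hy _ Set.univ rfl (fun s _ => ⟨trivial, trivial⟩)
    (Cfsg.Agent.Lib.Helper78.OddGr.bal_univ hx hy hc) hL
  exact solves_final hx hy hκ

end induction

end Cfsg.Agent.Lib.Helper6.OddGr
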