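import Cfsg.Agent.Lib.Helper6.OddGr1

set_option autoImplicit false
set_option linter.unusedSectionVars false
set_option linter.unusedVariables false

/-!
# Involution pairs: gluing block solutions
-/

namespace Cfsg.Agent.Lib.Helper6.OddGr

open Equiv

variable {Ω : Type*} [Fintype Ω] [DecidableEq Ω] {x y : Perm Ω}

theorem solves_one (hy : y * y = 1) {S : Set Ω} (h : ∀ s ∈ S, Odd (per x y s)) :
    Solves x y 1 S := by
  refine ⟨fun s _ => rfl, by rw [mul_one, hy, inv_one], ⟨1, odd_one, by simp⟩, ?_⟩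
  intro s hs
  rw [mul_one]
  exact (op_iff_odd_per x y s).2 (h s hs)

/-- a permutation fixing the complement of `S` pointwise maps `S` into `S` -/
theorem apply_mem_of_fix {κ : Perm Ω} {S : Set Ω} (h : ∀ s, s ∉ S → κ s = s) {s : Ω}
    (hs : s ∈ S) : κ s ∈ S := by
  by_contra hn
  have h1 := h _ hn
  have h2 : κ s = s := κ.injective h1
  rw [h2] at hn
  exact hn hs

theorem op_congr_on {σ τ : Perm Ω} {S : Set Ω} (h : ∀ s ∈ S, σ s = τ s ∧ τ s ∈ S) {s : Ω}
    (hs : s ∈ S) (hop : OP τ s) : OP σ s := by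
  have key : ∀ n : ℕ, ∀ s ∈ S, (σ ^ n) s = (τ ^ n) s ∧ (τ ^ n) s ∈ S := by
    intro n
    induction n with
    | zero => intro s hs; simpa using hs
    | succ n ih =>
      intro s hs
      rw [pow_succ, pow_succ, Perm.mul_apply, Perm.mul_apply, (h s hs).1]
      exact ih _ (h s hs).2
  obtain ⟨N, hN, hNs⟩ := hop
  exact ⟨N, hN, by rw [(key N s hs).1, hNs]⟩

theorem solves_union (hx : x * x = 1) (hy : y * y = 1) {S T : Set Ω} (hS : Inv x y S)
    (hT : Inv x y T) (hd : Disjoint S T) {κ₁ κ₂ : Perm Ω} (h1 : Solves x y κ₁ S)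
    (h2 : Solves x y κ₂ T) : Solves x y (κ₁ * κ₂) (S ∪ T) := by
  obtain ⟨f1, i1, ⟨N1, hN1, p1⟩, o1⟩ := h1
  obtain ⟨f2, i2, ⟨N2, hN2, p2⟩, o2⟩ := h2
  have hdis : Perm.Disjoint κ₁ κ₂ := by
    intro s
    by_cases hs : s ∈ S
    · right
      exact f2 s (fun h => Set.disjoint_left.1 hd hs h)
    · left
      exact f1 s hs
  have hcomm : Commute κ₁ κ₂ := hdis.commute
  have hcS : ∀ s ∈ S, (x * y) s ∈ S := fun s hs => (hS _ (hS s hs).2).1
  have hcT : ∀ s ∈ T, (x * y) s ∈ T := fun s hs => (hT _ (hT s hs).2).1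
  refine ⟨?_, ?_, ⟨N1 * N2, hN1.mul hN2, ?_⟩, ?_⟩
  · intro s hs
    rw [Perm.mul_apply, f2 s (fun h => hs (Or.inr h)), f1 s (fun h => hs (Or.inl h))]
  · have e : y * (κ₁ * κ₂) * y = (y * κ₁ * y) * (y * κ₂ * y) := by
      calc y * (κ₁ * κ₂) * y = y * κ₁ * 1 * κ₂ * y := by group
        _ = y * κ₁ * (y * y) * κ₂ * y := by rw [hy]
        _ = (y * κ₁ * y) * (y * κ₂ * y) := by group
    rw [e, i1, i2, mul_inv_rev, hcomm.inv_inv.eq]
  · rw [hcomm.mul_pow, pow_mul, p1, one_pow, mul_comm N1 N2, pow_mul, p2, one_pow, mul_one]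
  · rintro s (hs | hs)
    · refine op_congr_on (S := S) ?_ hs (o1 s hs)
      intro t ht
      have ht2 : κ₂ t = t := f2 t (fun h => Set.disjoint_left.1 hd ht h)
      refine ⟨?_, ?_⟩
      · rw [← mul_assoc, Perm.mul_apply, ht2]
      · rw [Perm.mul_apply]
        exact hcS _ (apply_mem_of_fix f1 ht)
    · refine op_congr_on (S := T) ?_ hs (o2 s hs)
      intro t ht
      have ht2 : κ₂ t ∈ T := apply_mem_of_fix f2 ht
      have ht1 : κ₁ (κ₂ t) = κ₂ t := f1 _ (fun h => Set.disjoint_left.1 hd h ht2)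
      refine ⟨?_, ?_⟩
      · rw [Perm.mul_apply (x * y) (κ₁ * κ₂), Perm.mul_apply κ₁ κ₂, ht1]
        rfl
      · rw [Perm.mul_apply]
        exact hcT _ ht2

/-- a permutation all of whose points are odd-periodic has odd order -/
theorem odd_orderOf_of_op {σ : Perm Ω} (h : ∀ s, OP σ s) : Odd (orderOf σ) := by
  classical
  choose N hN hNs using h
  have hodd : Odd (∏ s, N s) := by
    exact Finset.prod_induction N (fun n => Odd n) (fun a b ha hb => ha.mul hb) odd_one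
      (fun s _ => hN s)
  have hpow : σ ^ (∏ s, N s) = 1 := by
    ext s
    obtain ⟨k, hk⟩ := Finset.dvd_prod_of_mem N (Finset.mem_univ s)
    rw [hk, pow_mul, Perm.one_apply]
    have : ∀ n : ℕ, ((σ ^ N s) ^ n) s = s := by
      intro n
      induction n with
      | zero => simp
      | succ n ih => rw [pow_succ, Perm.mul_apply, hNs s, ih]
    exact this k
  exact Odd.of_dvd_nat hodd (orderOf_dvd_of_pow_eq_one hpow)

theorem solves_final (hx : x * x = 1) (hy : y * y = 1) {κ : Perm Ω}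
    (h : Solves x y κ Set.univ) :
    ∃ z : Perm Ω, IsConj y z ∧ Odd (orderOf (x * z)) ∧ Odd (orderOf (z * y)) := by
  obtain ⟨-, hi, ⟨N, hN, hp⟩, ho⟩ := h
  obtain ⟨k, rfl⟩ := hN
  refine ⟨y * κ, ?_, ?_, ?_⟩
  · -- ρ = κ^(k+1), ρ^2 = κ, y ρ y = ρ⁻¹
    have hρ2 : κ ^ (k + 1) * κ ^ (k + 1) = κ := by
      rw [← pow_add]
      have : k + 1 + (k + 1) = (2 * k + 1) + 1 := by ring
      rw [this, pow_succ, hp, one_mul]
    have hconj : ∀ n : ℕ, y * κ ^ n * y = (κ ^ n)⁻¹ := by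
      intro n
      induction n with
      | zero => simp [hy]
      | succ n ih =>
        have e : y * κ ^ (n + 1) * y = (y * κ ^ n * y) * (y * κ * y) := by
          calc y * κ ^ (n + 1) * y = y * κ ^ n * 1 * κ * y := by rw [pow_succ]; group
            _ = y * κ ^ n * (y * y) * κ * y := by rw [hy]
            _ = (y * κ ^ n * y) * (y * κ * y) := by group
        rw [e, ih, hi, ← mul_inv_rev, ← pow_succ']
    rw [isConj_iff]
    refine ⟨(κ ^ (k + 1))⁻¹, ?_⟩
    rw [inv_inv]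
    have h1 := hconj (k + 1)
    -- (ρ⁻¹) * y * ρ = y * ρ * ρ
    have h2 : (κ ^ (k + 1))⁻¹ * y = y * κ ^ (k + 1) := by
      rw [← h1]
      calc y * κ ^ (k + 1) * y * y = y * κ ^ (k + 1) * (y * y) := by group
        _ = y * κ ^ (k + 1) := by rw [hy, mul_one]
    rw [h2, mul_assoc, hρ2]
  · rw [← mul_assoc]
    exact odd_orderOf_of_op (fun s => ho s (Set.mem_univ s))
  · rw [hi, orderOf_inv]
    exact Odd.of_dvd_nat ⟨k, rfl⟩ (orderOf_dvd_of_pow_eq_one hp)

end Cfsg.Agent.Lib.Helper6.OddGr
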