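import Mathlib

set_option autoImplicit false

/-!
# Foundation for S2930 (3-minimal groups with alternating generalized Fitting subgroup), helper6

`IsPartition 𝔄` : the family `𝔄` of subsets of `α` is pairwise disjoint and covers `α`
(members may a priori be empty; this is harmless for all uses).
-/

namespace Cfsg.Agent.Lib.Helper6.PM3

/-- pairwise disjoint family covering the whole type -/
def IsPartition {α : Type*} (𝔄 : Set (Set α)) : Prop :=
  (∀ B ∈ 𝔄, ∀ B' ∈ 𝔄, B ≠ B' → Disjoint B B') ∧ ∀ x : α, ∃ B ∈ 𝔄, x ∈ B

end Cfsg.Agent.Lib.Helper6.PM3
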