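import Mathlib
import Cfsg.Agent.Lib.Helper6.PM3Defs
import Cfsg.Agent.Lib.Helper73.PM3PE1
import Cfsg.Agent.Lib.Helper8.PM3PE2

set_option autoImplicit false

namespace Cfsg.Agent.Lib.Helper6.PM3

open scoped Pointwise
open MulAction

/-- every non-subsingleton block of the join of the two stabilisers is everything -/
theorem pe3_block_univ (n : ℕ) (𝔅 𝔓 : Set (Set (Fin n)))
    (hB : IsPartition 𝔅) (hB3 : ∀ B ∈ 𝔅, B.ncard = 3)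
    (hP : IsPartition 𝔓) (href : ∀ B ∈ 𝔅, ∃ P ∈ 𝔓, B ⊆ P)
    (Ps : Set (Fin n)) (hPsm : Ps ∈ 𝔓) (hPs9 : 9 ≤ Ps.ncard)
    (K : Subgroup (alternatingGroup (Fin n)))
    (hK𝔅 : stabilizer (alternatingGroup (Fin n)) 𝔅 ≤ K)
    (hK𝔓 : stabilizer (alternatingGroup (Fin n)) 𝔓 ≤ K)
    (𝔹 : Set (Fin n)) (hblk : IsBlock K 𝔹) (hns : ¬ 𝔹.Subsingleton) : 𝔹 = Set.univ := by
  classical
  have hblockOf : ∀ x : Fin n, ∃ B ∈ 𝔅, x ∈ B ∧ ∀ P ∈ 𝔓, x ∈ P → B ⊆ P := by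
    intro x
    obtain ⟨B, hBm, hxB⟩ := hB.2 x
    refine ⟨B, hBm, hxB, ?_⟩
    intro P hPm hxP
    obtain ⟨P', hP'm, hBP'⟩ := href B hBm
    by_cases hPP : P' = P
    · rw [← hPP]; exact hBP'
    · exact absurd (hP.1 P' hP'm P hPm hPP) (Set.not_disjoint_iff.mpr ⟨x, hBP' hxB, hxP⟩)
  have hpart3 : ∀ P ∈ 𝔓, ∀ x ∈ P, 3 ≤ P.ncard := by
    intro P hPm x hxP
    obtain ⟨B, hBm, hxB, hBP⟩ := hblockOf x
    rw [← hB3 B hBm]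
    exact Set.ncard_le_ncard (hBP P hPm hxP) (Set.toFinite P)
  by_contra hne
  obtain ⟨w, hw⟩ : ∃ w, w ∉ 𝔹 := by
    by_contra h
    push Not at h
    exact hne (Set.eq_univ_of_forall h)
  have hsub : ∀ P ∈ 𝔓, (𝔹 ∩ P).Nonempty → P ⊆ 𝔹 := by
    intro P hPm hmeet
    obtain ⟨x, hx𝔹, hxP⟩ := hmeet
    exact part_subset_block n 𝔓 hP K hK𝔓 𝔹 hblk hns P hPm (hpart3 P hPm x hxP) ⟨x, hx𝔹, hxP⟩
  obtain ⟨p1, hp1⟩ : Ps.Nonempty := by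
    rw [← Set.ncard_pos (Set.toFinite Ps)]; omega
  obtain ⟨c1, hc1m, hp1c1, hc1P⟩ := hblockOf p1
  have hc1Ps := hc1P Ps hPsm hp1
  obtain ⟨p3, hp3Ps, hp3c1⟩ : ∃ p3 ∈ Ps, p3 ∉ c1 := by
    by_contra h
    push Not at h
    have := Set.ncard_le_ncard (h : Ps ⊆ c1) (Set.toFinite c1)
    rw [hB3 c1 hc1m] at this
    omega
  obtain ⟨c3, hc3m, hp3c3, hc3P⟩ := hblockOf p3
  have hc3Ps := hc3P Ps hPsm hp3Ps
  have hc13 : c1 ≠ c3 := fun h => hp3c1 (h ▸ hp3c3)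
  obtain ⟨p, hpPs, hpc1, hpc3⟩ : ∃ p ∈ Ps, p ∉ c1 ∧ p ∉ c3 := by
    by_contra h
    push Not at h
    have hsub' : Ps ⊆ c1 ∪ c3 := fun q hq => by
      by_cases hq1 : q ∈ c1
      · exact Or.inl hq1
      · exact Or.inr (h q hq hq1)
    have h1 := Set.ncard_le_ncard hsub' (Set.toFinite _)
    have h2 := Set.ncard_union_le c1 c3
    rw [hB3 c1 hc1m, hB3 c3 hc3m] at h2
    omega
  by_cases hmeet : (𝔹 ∩ Ps).Nonempty
  · have hPs𝔹 := hsub Ps hPsm hmeet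
    obtain ⟨b2, hb2m, hwb2, hb2P⟩ := hblockOf w
    obtain ⟨P2, hP2m, hwP2⟩ := hP.2 w
    have hb2P2 := hb2P P2 hP2m hwP2
    have hP2𝔹 : ∀ q ∈ P2, q ∉ 𝔹 := by
      intro q hq hq𝔹
      exact hw (hsub P2 hP2m ⟨q, hq𝔹, hq⟩ hwP2)
    have hb2𝔹 : ∀ q ∈ b2, q ∉ 𝔹 := fun q hq => hP2𝔹 q (hb2P2 hq)
    have h12 : c1 ≠ b2 := fun h => hb2𝔹 p1 (h ▸ hp1c1) (hPs𝔹 hp1)
    have h32 : c3 ≠ b2 := fun h => hb2𝔹 p3 (h ▸ hp3c3) (hPs𝔹 hp3Ps)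
    obtain ⟨g, hg, hgb, hgfix⟩ :=
      exists_swap_blocks n 𝔅 hB hB3 c1 b2 c3 hc1m hb2m hc3m h12 hc13 h32.symm
    have hpb2 : p ∉ b2 := fun h => hb2𝔹 p h (hPs𝔹 hpPs)
    have hgp : g • p = p := hgfix p hpc1 hpb2 hpc3
    have hg𝔹 : (⟨g, hK𝔅 hg⟩ : K) • 𝔹 = 𝔹 := by
      apply hblk.smul_eq_of_mem (hPs𝔹 hpPs)
      show g • p ∈ 𝔹
      rw [hgp]
      exact hPs𝔹 hpPs
    have hw2 : w ∈ (⟨g, hK𝔅 hg⟩ : K) • 𝔹 := by
      have hw' : w ∈ g • c1 := by rw [hgb]; exact hwb2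
      obtain ⟨q, hq, rfl⟩ := hw'
      exact ⟨q, hPs𝔹 (hc1Ps hq), rfl⟩
    rw [hg𝔹] at hw2
    exact hw hw2
  · have hdisj : ∀ q ∈ Ps, q ∉ 𝔹 := fun q hq hq𝔹 => hmeet ⟨q, hq𝔹, hq⟩
    obtain ⟨u, hu⟩ : 𝔹.Nonempty := by
      by_contra h
      rw [Set.not_nonempty_iff_eq_empty] at h
      exact hns (h ▸ Set.subsingleton_empty)
    obtain ⟨b1, hb1m, hub1, hb1P⟩ := hblockOf u
    obtain ⟨P1, hP1m, huP1⟩ := hP.2 u
    have hP1𝔹 := hsub P1 hP1m ⟨u, hu, huP1⟩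
    have hb1𝔹 : b1 ⊆ 𝔹 := (hb1P P1 hP1m huP1).trans hP1𝔹
    have h1c1 : b1 ≠ c1 := fun h => hdisj p1 hp1 (hb1𝔹 (h ▸ hp1c1))
    have h1c3 : b1 ≠ c3 := fun h => hdisj p3 hp3Ps (hb1𝔹 (h ▸ hp3c3))
    obtain ⟨g, hg, hgb, hgfix⟩ :=
      exists_swap_blocks n 𝔅 hB hB3 b1 c1 c3 hb1m hc1m hc3m h1c1 h1c3 hc13
    obtain ⟨gK, hgK⟩ : ∃ gK : K, gK = ⟨g, hK𝔅 hg⟩ := ⟨_, rfl⟩
    have hsmul : ∀ q : Fin n, gK • q = g • q := fun q => by rw [hgK]; rfl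
    have hblk' : IsBlock K (gK • 𝔹) := hblk.translate gK
    have hns' : ¬ (gK • 𝔹).Subsingleton := by
      intro h
      apply hns
      intro a ha b hb
      have h1 := h (Set.smul_mem_smul_set ha) (Set.smul_mem_smul_set hb)
      exact MulAction.injective gK h1
    have hmeet' : ((gK • 𝔹) ∩ Ps).Nonempty := by
      refine ⟨gK • u, Set.smul_mem_smul_set hu, hc1Ps ?_⟩
      rw [hsmul, ← hgb]
      exact Set.smul_mem_smul_set hub1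
    have hPsg := part_subset_block n 𝔓 hP K hK𝔓 (gK • 𝔹) hblk' hns' Ps hPsm (by omega) hmeet'
    obtain ⟨q, hq𝔹, hqp⟩ := hPsg hpPs
    have hpb1 : p ∉ b1 := fun h => hdisj p hpPs (hb1𝔹 h)
    have hgp : g • p = p := hgfix p hpb1 hpc1 hpc3
    have hqp' : q = p := by
      have h1 : gK • q = gK • p := by
        rw [hsmul p, hgp]
        exact hqp
      exact MulAction.injective gK h1
    exact hdisj p hpPs (hqp' ▸ hq𝔹)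

theorem sup_stabilizer_eq_top (n : ℕ) (𝔅 𝔓 : Set (Set (Fin n)))
    (hB : IsPartition 𝔅) (hB3 : ∀ B ∈ 𝔅, B.ncard = 3)
    (hP : IsPartition 𝔓) (href : ∀ B ∈ 𝔅, ∃ P ∈ 𝔓, B ⊆ P)
    (h9 : ∃ P ∈ 𝔓, 9 ≤ P.ncard) :
    stabilizer (alternatingGroup (Fin n)) 𝔅 ⊔ stabilizer (alternatingGroup (Fin n)) 𝔓 = ⊤ := by
  classical
  obtain ⟨Ps, hPsm, hPs9⟩ := h9
  obtain ⟨K, hKdef⟩ : ∃ K : Subgroup (alternatingGroup (Fin n)),
      K = stabilizer (alternatingGroup (Fin n)) 𝔅 ⊔ stabilizer (alternatingGroup (Fin n)) 𝔓 :=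
    ⟨_, rfl⟩
  rw [← hKdef]
  have hK𝔅 : stabilizer (alternatingGroup (Fin n)) 𝔅 ≤ K := hKdef ▸ le_sup_left
  have hK𝔓 : stabilizer (alternatingGroup (Fin n)) 𝔓 ≤ K := hKdef ▸ le_sup_right
  have claimA := pe3_block_univ n 𝔅 𝔓 hB hB3 hP href Ps hPsm hPs9 K hK𝔅 hK𝔓
  -- three distinct points of Ps
  have h3 : 2 < Ps.ncard := by omega
  rw [Set.two_lt_ncard_iff] at h3
  obtain ⟨x, y, z, hx, hy, hz, hxy, hxz, hyz⟩ := h3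
  obtain ⟨c, hc, hc3, hcx, hcy, hcz, hcfix⟩ :=
    exists_three_cycle n 𝔓 hP Ps hPsm x y z hx hy hz hxy hxz hyz
  -- transitivity
  have horb : orbit K x = Set.univ := by
    apply claimA _ (IsBlock.orbit x)
    intro hsub
    have h1 : x ∈ orbit K x := mem_orbit_self x
    have h2 : y ∈ orbit K x := ⟨⟨c, hK𝔓 hc⟩, hcx⟩
    exact hxy (hsub h1 h2)
  have htr : IsPretransitive K (Fin n) := by
    rw [isPretransitive_iff_orbit_eq_univ x]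
    exact horb
  have hprim : IsPreprimitive K (Fin n) := by
    refine ⟨fun {𝔹} hblk => ?_⟩
    by_cases hs : 𝔹.Subsingleton
    · exact Or.inl hs
    · exact Or.inr (claimA 𝔹 hblk hs)
  -- Jordan
  obtain ⟨K', hK'⟩ : ∃ K' : Subgroup (Equiv.Perm (Fin n)),
      K' = K.map (alternatingGroup (Fin n)).subtype := ⟨_, rfl⟩
  have hmemK' : ∀ k : K, ((k : alternatingGroup (Fin n)) : Equiv.Perm (Fin n)) ∈ K' := by
    intro k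
    rw [hK']
    exact Subgroup.mem_map_of_mem _ k.2
  have htr' : IsPretransitive K' (Fin n) := by
    refine ⟨fun a b => ?_⟩
    obtain ⟨k, hk⟩ := htr.exists_smul_eq a b
    exact ⟨⟨_, hmemK' k⟩, hk⟩
  have hprim' : IsPreprimitive K' (Fin n) := by
    refine ⟨fun {𝔹} hblk => ?_⟩
    apply hprim.isTrivialBlock_of_isBlock
    rw [isBlock_iff_smul_eq_or_disjoint]
    intro k
    exact hblk.smul_eq_or_disjoint ⟨_, hmemK' k⟩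
  have hcK' : (c : Equiv.Perm (Fin n)) ∈ K' := by
    rw [hK']
    exact Subgroup.mem_map_of_mem _ (hK𝔓 hc)
  have hle := Equiv.Perm.alternatingGroup_le_of_isPreprimitive_of_isThreeCycle_mem hprim' hc3 hcK'
  rw [eq_top_iff]
  intro g _
  have hg' : (g : Equiv.Perm (Fin n)) ∈ K' := hle g.2
  rw [hK'] at hg'
  obtain ⟨k, hk, hkg⟩ := hg'
  have : k = g := Subtype.ext hkg
  rw [← this]
  exact hk

end Cfsg.Agent.Lib.Helper6.PM3
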