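import Mathlib
import Cfsg.Agent.Lib.Helper6.PM3Defs

set_option autoImplicit false

namespace Cfsg.Agent.Lib.Helper6.PM3

open scoped Pointwise
open MulAction

theorem stabilizer_ne_top (n : ℕ) (𝔄 : Set (Set (Fin n)))
    (hdisj : ∀ B ∈ 𝔄, ∀ B' ∈ 𝔄, B ≠ B' → Disjoint B B')
    (A : Set (Fin n)) (hA : A ∈ 𝔄) (x y z : Fin n) (hx : x ∈ A) (hy : y ∈ A) (hxy : x ≠ y)
    (hz : z ∉ A) : stabilizer (alternatingGroup (Fin n)) 𝔄 ≠ ⊤ := by
  classical
  intro htop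
  have hxz : x ≠ z := fun h => hz (h ▸ hx)
  have hyz : y ≠ z := fun h => hz (h ▸ hy)
  obtain ⟨c, hcdef⟩ : ∃ c : Equiv.Perm (Fin n), c = Equiv.swap x y * Equiv.swap y z := ⟨_, rfl⟩
  have hc : c ∈ alternatingGroup (Fin n) := by
    rw [Equiv.Perm.mem_alternatingGroup, hcdef, Equiv.Perm.sign_mul, Equiv.Perm.sign_swap hxy,
      Equiv.Perm.sign_swap hyz]
    rfl
  have hcx : c x = y := by
    rw [hcdef, Equiv.Perm.mul_apply, Equiv.swap_apply_of_ne_of_ne hxy hxz, Equiv.swap_apply_left]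
  have hcy : c y = z := by
    rw [hcdef, Equiv.Perm.mul_apply, Equiv.swap_apply_left,
      Equiv.swap_apply_of_ne_of_ne hxz.symm hyz.symm]
  have hmem : (⟨c, hc⟩ : alternatingGroup (Fin n)) ∈ stabilizer (alternatingGroup (Fin n)) 𝔄 := by
    rw [htop]
    trivial
  rw [mem_stabilizer_iff] at hmem
  have hcA : (⟨c, hc⟩ : alternatingGroup (Fin n)) • A ∈ 𝔄 := by
    rw [← hmem]
    exact Set.smul_mem_smul_set hA
  have hyin : y ∈ (⟨c, hc⟩ : alternatingGroup (Fin n)) • A := ⟨x, hx, hcx⟩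
  have heq : (⟨c, hc⟩ : alternatingGroup (Fin n)) • A = A := by
    by_contra hne
    exact Set.disjoint_left.mp (hdisj _ hcA A hA hne) hyin hy
  have hzin : z ∈ (⟨c, hc⟩ : alternatingGroup (Fin n)) • A := ⟨y, hy, hcy⟩
  rw [heq] at hzin
  exact hz hzin

end Cfsg.Agent.Lib.Helper6.PM3
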