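import Mathlib

set_option autoImplicit false

namespace Cfsg.Agent.Lib.Helper6.PM3

open scoped Pointwise
open MulAction

theorem pg0_card {G α : Type*} [Group G] [Finite G] [MulAction G α] (x : α) :
    Nat.card (orbit G x) * Nat.card (stabilizer G x) = Nat.card G := by
  rw [Nat.card_coe_set_eq, ← MulAction.index_stabilizer]
  exact Subgroup.index_mul_card _

theorem translate_family {G α : Type*} [Group G] [Finite G] [MulAction G α] (K : Subgroup G)
    (x : α) (hK : stabilizer G x ≤ K) :
    (∀ g g' : G, g • orbit K x = g' • orbit K x ∨ Disjoint (g • orbit K x) (g' • orbit K x)) ∧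
    (∀ g : G, g • orbit K x ⊆ orbit G x) ∧
    (∀ y ∈ orbit G x, ∃ g : G, y ∈ g • orbit K x) ∧
    (∀ g : G, (g • orbit K x).ncard * Nat.card (stabilizer G x) = Nat.card K) := by
  refine ⟨?_, ?_, ?_, ?_⟩
  · exact isBlock_iff_smul_eq_smul_or_disjoint.mp (IsBlock.of_orbit hK)
  · rintro g _ ⟨_, ⟨k, rfl⟩, rfl⟩
    refine ⟨g * (k : G), ?_⟩
    show (g * (k : G)) • x = g • ((k : G) • x)
    rw [mul_smul]
  · rintro _ ⟨g, rfl⟩
    exact ⟨g, Set.smul_mem_smul_set (mem_orbit_self x)⟩
  · intro g
    have h1 : (g • orbit K x).ncard = (orbit K x).ncard :=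
      Set.ncard_image_of_injective _ (MulAction.injective g)
    have h2 := pg0_card (G := K) x
    have h3 : Nat.card (stabilizer K x) = Nat.card (stabilizer G x) := by
      apply Nat.card_congr
      refine ⟨fun k => ⟨(k : K), ?_⟩, fun g => ⟨⟨(g : G), hK g.2⟩, ?_⟩, ?_, ?_⟩
      · have := k.2
        rw [mem_stabilizer_iff] at this ⊢
        exact this
      · have := g.2
        rw [mem_stabilizer_iff] at this ⊢
        exact this
      · intro k
        rfl
      · intro g
        rfl
    rw [h1, ← h3, ← Nat.card_coe_set_eq]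
    exact h2

end Cfsg.Agent.Lib.Helper6.PM3
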