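import Mathlib

set_option autoImplicit false

namespace Cfsg.Agent.Lib.Helper6.PM3

open scoped Pointwise
open MulAction

theorem pg1_card {G α : Type*} [Group G] [Finite G] [MulAction G α] (x : α) :
    Nat.card (orbit G x) * Nat.card (stabilizer G x) = Nat.card G := by
  rw [Nat.card_coe_set_eq, ← MulAction.index_stabilizer]
  exact Subgroup.index_mul_card _

theorem pg1_exp {G α : Type*} [Group G] [Finite G] [MulAction G α] (hG : IsPGroup 3 G)
    (x : α) (c : ℕ) (h1 : 3 ^ c ≤ Nat.card (orbit G x)) :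
    ∃ m j : ℕ, Nat.card G = 3 ^ m ∧ Nat.card (stabilizer G x) = 3 ^ j ∧ j + c ≤ m := by
  have : Fact (Nat.Prime 3) := ⟨Nat.prime_three⟩
  obtain ⟨m, hm⟩ := IsPGroup.iff_card.mp hG
  obtain ⟨j, hj⟩ := IsPGroup.iff_card.mp (hG.to_subgroup (stabilizer G x))
  refine ⟨m, j, hm, hj, ?_⟩
  have h := pg1_card (G := G) x
  rw [hm, hj] at h
  by_contra hlt
  have hlt' : m < j + c := by omega
  have h2 : 3 ^ m < 3 ^ (j + c) := Nat.pow_lt_pow_right (by norm_num) hlt'
  have h3 : 3 ^ (j + c) ≤ Nat.card (orbit G x) * 3 ^ j := by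
    rw [pow_add, mul_comm]
    exact Nat.mul_le_mul_right _ h1
  omega

theorem exists_chain {G α : Type*} [Group G] [Finite G] [MulAction G α] (hG : IsPGroup 3 G)
    (x : α) (h1 : 3 ≤ Nat.card (orbit G x)) :
    ∃ K : Subgroup G, stabilizer G x ≤ K ∧ Nat.card K = 3 * Nat.card (stabilizer G x) := by
  have : Fact (Nat.Prime 3) := ⟨Nat.prime_three⟩
  obtain ⟨m, j, hm, hj, hle⟩ := pg1_exp hG x 1 (by simpa using h1)
  have hdvd : 3 ^ (j + 1) ∣ Nat.card G := by
    rw [hm]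
    exact pow_dvd_pow 3 hle
  obtain ⟨K, hKc, hK⟩ := Sylow.exists_subgroup_card_pow_succ hdvd hj
  refine ⟨K, hK, ?_⟩
  rw [hKc, hj, pow_succ, mul_comm]

theorem exists_chain2 {G α : Type*} [Group G] [Finite G] [MulAction G α] (hG : IsPGroup 3 G)
    (x : α) (h1 : 27 ≤ Nat.card (orbit G x)) :
    ∃ K N : Subgroup G, stabilizer G x ≤ K ∧ K ≤ N ∧ N.Normal ∧
      Nat.card K = 3 * Nat.card (stabilizer G x) ∧ N.index = 3 := by
  have : Fact (Nat.Prime 3) := ⟨Nat.prime_three⟩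
  obtain ⟨m, j, hm, hj, hle⟩ := pg1_exp hG x 3 (by simpa using h1)
  have hdvd : 3 ^ (j + 1) ∣ Nat.card G := by
    rw [hm]
    exact pow_dvd_pow 3 (by omega)
  obtain ⟨K, hKc, hK⟩ := Sylow.exists_subgroup_card_pow_succ hdvd hj
  have hdvd2 : 3 ^ (m - 1) ∣ Nat.card G := by
    rw [hm]
    exact pow_dvd_pow 3 (by omega)
  obtain ⟨N, hNc, hKN⟩ := Sylow.exists_subgroup_card_pow_prime_le 3 hdvd2 K hKc (by omega)
  have hidx : N.index = 3 := by
    have h := N.index_mul_card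
    rw [hNc, hm] at h
    have h2 : (3 : ℕ) ^ m = 3 * 3 ^ (m - 1) := by
      rw [← pow_succ']
      congr 1
      omega
    rw [h2] at h
    exact Nat.eq_of_mul_eq_mul_right (by positivity) h
  have hNn : N.Normal := by
    apply Subgroup.normal_of_index_eq_minFac_card
    rw [hidx, hm, Nat.Prime.pow_minFac Nat.prime_three (by omega)]
  refine ⟨K, N, hK, hKN, hNn, ?_, hidx⟩
  rw [hKc, hj, pow_succ, mul_comm]

end Cfsg.Agent.Lib.Helper6.PM3
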