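import Mathlib
import Cfsg.Agent.Lib.Helper6.PM3Defs
import Cfsg.Agent.Lib.Helper6.PM3PG0
import Cfsg.Agent.Lib.Helper6.PM3PG1

set_option autoImplicit false

namespace Cfsg.Agent.Lib.Helper6.PM3

open scoped Pointwise
open MulAction

/-- the family of translates of the orbit of an overgroup of a point stabiliser -/
def pgFam {n : ℕ} (S : Subgroup (alternatingGroup (Fin n))) (K : Subgroup S) (x : Fin n) :
    Set (Set (Fin n)) := {B | ∃ g : S, B = g • orbit K x}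

theorem pg_smul_eq {n : ℕ} (S : Subgroup (alternatingGroup (Fin n))) (g : S) (A : Set (Fin n)) :
    (g : alternatingGroup (Fin n)) • A = g • A := rfl

theorem pg_family {n : ℕ} (S : Subgroup (alternatingGroup (Fin n))) (K : Subgroup S) (x : Fin n)
    (hK : stabilizer S x ≤ K) :
    S ≤ stabilizer (alternatingGroup (Fin n)) (pgFam S K x) ∧
    (∀ B ∈ pgFam S K x, ∀ B' ∈ pgFam S K x, B ≠ B' → Disjoint B B') ∧
    (∀ B ∈ pgFam S K x, B ⊆ orbit S x) ∧
    (∀ y ∈ orbit S x, ∃ B ∈ pgFam S K x, y ∈ B) ∧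
    (∀ B ∈ pgFam S K x, B.ncard * Nat.card (stabilizer S x) = Nat.card K) := by
  obtain ⟨h1, h2, h3, h4⟩ := translate_family (G := S) K x hK
  refine ⟨?_, ?_, ?_, ?_, ?_⟩
  · intro s hs
    rw [mem_stabilizer_iff]
    ext B
    constructor
    · rintro ⟨B', ⟨g, rfl⟩, rfl⟩
      refine ⟨⟨s, hs⟩ * g, ?_⟩
      rw [mul_smul]
      rfl
    · rintro ⟨g, rfl⟩
      refine ⟨(⟨s, hs⟩ : S)⁻¹ • (g • orbit K x), ⟨(⟨s, hs⟩ : S)⁻¹ * g, by rw [mul_smul]⟩, ?_⟩
      show (⟨s, hs⟩ : S) • ((⟨s, hs⟩ : S)⁻¹ • (g • orbit K x)) = g • orbit K x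
      rw [smul_inv_smul]
  · rintro B ⟨g, rfl⟩ B' ⟨g', rfl⟩ hne
    exact (h1 g g').resolve_left hne
  · rintro B ⟨g, rfl⟩
    exact h2 g
  · intro y hy
    obtain ⟨g, hg⟩ := h3 y hy
    exact ⟨_, ⟨g, rfl⟩, hg⟩
  · rintro B ⟨g, rfl⟩
    exact h4 g

theorem exists_family_two (n : ℕ) (S : Subgroup (alternatingGroup (Fin n))) (hS : IsPGroup 3 S)
    (x y : Fin n) (hxy : y ∉ orbit S x) (hcov : orbit S x ∪ orbit S y = Set.univ)
    (hx : 3 ≤ (orbit S x).ncard) (hy : 3 ≤ (orbit S y).ncard) :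
    ∃ 𝔅 : Set (Set (Fin n)), S ≤ stabilizer (alternatingGroup (Fin n)) 𝔅 ∧ IsPartition 𝔅 ∧
      (∀ B ∈ 𝔅, B.ncard = 3) ∧ ∀ B ∈ 𝔅, B ⊆ orbit S x ∨ B ⊆ orbit S y := by
  classical
  obtain ⟨Kx, hKx, hKxc⟩ := exists_chain (G := S) hS x (by rw [Nat.card_coe_set_eq]; exact hx)
  obtain ⟨Ky, hKy, hKyc⟩ := exists_chain (G := S) hS y (by rw [Nat.card_coe_set_eq]; exact hy)
  obtain ⟨a1, a2, a3, a4, a5⟩ := pg_family S Kx x hKx
  obtain ⟨b1, b2, b3, b4, b5⟩ := pg_family S Ky y hKy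
  have hdisj : Disjoint (orbit S x) (orbit S y) := by
    rcases MulAction.orbit.eq_or_disjoint (G := S) x y with h | h
    · exact absurd (h ▸ mem_orbit_self y) hxy
    · exact h
  refine ⟨pgFam S Kx x ∪ pgFam S Ky y, ?_, ⟨?_, ?_⟩, ?_, ?_⟩
  · intro s hs
    have h1 := a1 hs
    have h2 := b1 hs
    rw [mem_stabilizer_iff] at h1 h2 ⊢
    rw [Set.smul_set_union, h1, h2]
  · intro B hB B' hB' hne
    rcases hB with hB | hB <;> rcases hB' with hB' | hB'
    · exact a2 B hB B' hB' hne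
    · exact hdisj.mono (a3 B hB) (b3 B' hB')
    · exact hdisj.symm.mono (b3 B hB) (a3 B' hB')
    · exact b2 B hB B' hB' hne
  · intro z
    have hz : z ∈ orbit S x ∪ orbit S y := by rw [hcov]; trivial
    rcases hz with hz | hz
    · obtain ⟨B, hB, hzB⟩ := a4 z hz
      exact ⟨B, Or.inl hB, hzB⟩
    · obtain ⟨B, hB, hzB⟩ := b4 z hz
      exact ⟨B, Or.inr hB, hzB⟩
  · intro B hB
    rcases hB with hB | hB
    · have h := a5 B hB
      rw [hKxc] at h
      have hpos : 0 < Nat.card (stabilizer S x) := Nat.card_pos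
      exact Nat.eq_of_mul_eq_mul_right hpos h
    · have h := b5 B hB
      rw [hKyc] at h
      have hpos : 0 < Nat.card (stabilizer S y) := Nat.card_pos
      exact Nat.eq_of_mul_eq_mul_right hpos h
  · intro B hB
    rcases hB with hB | hB
    · exact Or.inl (a3 B hB)
    · exact Or.inr (b3 B hB)

theorem exists_families_one (n : ℕ) (hn : 27 ≤ n) (S : Subgroup (alternatingGroup (Fin n)))
    (hS : IsPGroup 3 S) (x : Fin n) (htr : orbit S x = Set.univ) :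
    ∃ 𝔅 𝔓 : Set (Set (Fin n)), S ≤ stabilizer (alternatingGroup (Fin n)) 𝔅 ∧
      S ≤ stabilizer (alternatingGroup (Fin n)) 𝔓 ∧
      IsPartition 𝔅 ∧ (∀ B ∈ 𝔅, B.ncard = 3) ∧ IsPartition 𝔓 ∧ (∀ B ∈ 𝔅, ∃ P ∈ 𝔓, B ⊆ P) ∧
      (∀ P ∈ 𝔓, 9 ≤ P.ncard) ∧ (∀ P ∈ 𝔓, P ≠ Set.univ) := by
  classical
  have hcardorb : Nat.card (orbit S x) = n := by
    rw [htr, Nat.card_coe_set_eq, Set.ncard_univ, Nat.card_eq_fintype_card, Fintype.card_fin]
  obtain ⟨K, N, hK, hKN, hNn, hKc, hNi⟩ := exists_chain2 (G := S) hS x (by rw [hcardorb]; exact hn)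
  obtain ⟨a1, a2, a3, a4, a5⟩ := pg_family S K x hK
  obtain ⟨b1, b2, b3, b4, b5⟩ := pg_family S N x (hK.trans hKN)
  have hSc : n * Nat.card (stabilizer S x) = Nat.card S := by
    have h := MulAction.card_orbit_mul_card_stabilizer_eq_card_group S x
    simp only [← Nat.card_eq_fintype_card] at h
    rw [hcardorb] at h
    exact h
  have hNc : 3 * Nat.card N = Nat.card S := by
    rw [← hNi]
    exact N.index_mul_card
  have hpos : 0 < Nat.card (stabilizer S x) := Nat.card_pos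
  have hPcard : ∀ P ∈ pgFam S N x, 3 * P.ncard = n := by
    intro P hP
    have h := b5 P hP
    have h2 : 3 * P.ncard * Nat.card (stabilizer S x) = n * Nat.card (stabilizer S x) := by
      rw [hSc, ← hNc, ← h]
      ring
    exact Nat.eq_of_mul_eq_mul_right hpos h2
  refine ⟨pgFam S K x, pgFam S N x, a1, b1, ⟨a2, ?_⟩, ?_, ⟨b2, ?_⟩, ?_, ?_, ?_⟩
  · intro z
    exact a4 z (by rw [htr]; trivial)
  · intro B hB
    have h := a5 B hB
    rw [hKc] at h
    exact Nat.eq_of_mul_eq_mul_right hpos h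
  · intro z
    exact b4 z (by rw [htr]; trivial)
  · rintro B ⟨g, rfl⟩
    refine ⟨g • orbit N x, ⟨g, rfl⟩, ?_⟩
    apply Set.smul_set_mono
    rintro _ ⟨k, rfl⟩
    exact ⟨⟨k, hKN k.2⟩, rfl⟩
  · intro P hP
    have := hPcard P hP
    omega
  · intro P hP hPu
    have := hPcard P hP
    rw [hPu, Set.ncard_univ, Nat.card_eq_fintype_card, Fintype.card_fin] at this
    omega

end Cfsg.Agent.Lib.Helper6.PM3
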