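import Mathlib
import Cfsg.Agent.Lib.Helper6.PM3Defs
import Cfsg.Agent.Lib.Helper77.PM3PD
import Cfsg.Agent.Lib.Helper6.PM3PF
import Cfsg.Agent.Lib.Helper6.PM3PE3
import Cfsg.Agent.Lib.Helper6.PM3PG2

set_option autoImplicit false

namespace Cfsg.Agent.Lib.Helper6.PM3

open scoped Pointwise
open MulAction

/-- arithmetic: `n = 3^a + 3^b`, `n ≥ 5`: either allowed, or both exponents positive and one ≥ 2 -/
theorem core_arith (n a b : ℕ) (hn : 5 ≤ n) (h : n = 3 ^ a + 3 ^ b) :
    (n = 6 ∨ n = 9 ∨ ∃ c : ℕ, 2 ≤ c ∧ n = 3 ^ c + 1) ∨ (1 ≤ a ∧ 1 ≤ b ∧ (2 ≤ a ∨ 2 ≤ b)) := by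
  rcases Nat.eq_zero_or_pos a with ha | ha
  · subst ha
    left; right; right
    refine ⟨b, ?_, by rw [h]; ring⟩
    by_contra hb
    have hb' : b = 0 ∨ b = 1 := by omega
    rcases hb' with rfl | rfl <;> simp at h <;> omega
  rcases Nat.eq_zero_or_pos b with hb | hb
  · subst hb
    left; right; right
    refine ⟨a, ?_, by rw [h]; ring⟩
    by_contra ha'
    have ha'' : a = 1 := by omega
    subst ha''
    simp at h
    omega
  by_cases h2 : 2 ≤ a ∨ 2 ≤ b
  · right
    exact ⟨ha, hb, h2⟩
  · left; left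
    have ha1 : a = 1 := by omega
    have hb1 : b = 1 := by omega
    subst ha1 hb1
    rw [h]
    norm_num

theorem core (n : ℕ) (hn : 5 ≤ n) (S : Subgroup (alternatingGroup (Fin n))) (hS : IsPGroup 3 S)
    (huniq : ∀ M₁ M₂ : Subgroup (alternatingGroup (Fin n)), IsCoatom M₁ → IsCoatom M₂ →
      S ≤ M₁ → S ≤ M₂ → M₁ = M₂) :
    n = 6 ∨ n = 9 ∨ ∃ a : ℕ, 2 ≤ a ∧ n = 3 ^ a + 1 := by
  classical
  have : Fact (Nat.Prime 3) := ⟨Nat.prime_three⟩
  have key : ∀ H₁ H₂ : Subgroup (alternatingGroup (Fin n)), S ≤ H₁ → S ≤ H₂ → H₁ ≠ ⊤ →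
      H₂ ≠ ⊤ → H₁ ⊔ H₂ = ⊤ → False := by
    intro H₁ H₂ h1 h2 hn1 hn2 hsup
    obtain ⟨M₁, hM₁, hle₁⟩ := (eq_top_or_exists_le_coatom H₁).resolve_left hn1
    obtain ⟨M₂, hM₂, hle₂⟩ := (eq_top_or_exists_le_coatom H₂).resolve_left hn2
    have h12 := huniq M₁ M₂ hM₁ hM₂ (h1.trans hle₁) (h2.trans hle₂)
    subst h12
    exact hM₁.1 (eq_top_iff.mpr (hsup ▸ sup_le hle₁ hle₂))
  have hpow : ∀ x : Fin n, ∃ k, (orbit S x).ncard = 3 ^ k := by
    intro x
    obtain ⟨k, hk⟩ := hS.card_orbit x
    exact ⟨k, by rw [← Nat.card_coe_set_eq]; exact hk⟩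
  by_cases h3 : ∃ x y z : Fin n, y ∉ orbit S x ∧ z ∉ orbit S x ∧ z ∉ orbit S y
  · obtain ⟨x, y, z, hxy, hxz, hyz⟩ := h3
    obtain ⟨M₁, M₂, h1, h2, h3, h4, h5⟩ := two_coatoms_of_three_orbits n hn S x y z hxy hxz hyz
    exact absurd (huniq M₁ M₂ h1 h2 h3 h4) h5
  · push Not at h3
    obtain ⟨x, -⟩ : ∃ x : Fin n, True := ⟨⟨0, by omega⟩, trivial⟩
    by_cases htr : orbit S x = Set.univ
    · -- one orbit
      obtain ⟨k, hk⟩ := hpow x
      rw [htr, Set.ncard_univ, Nat.card_eq_fintype_card, Fintype.card_fin] at hk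
      have hk2 : 2 ≤ k := by
        by_contra hk'
        have : k = 0 ∨ k = 1 := by omega
        rcases this with rfl | rfl <;> simp at hk <;> omega
      by_cases hk3 : k = 2
      · right; left
        rw [hk, hk3]
        norm_num
      · exfalso
        have hk3' : 3 ≤ k := by omega
        have hn27 : 27 ≤ n := by
          rw [hk]
          calc 27 = 3 ^ 3 := by norm_num
            _ ≤ 3 ^ k := Nat.pow_le_pow_right (by norm_num) hk3'
        obtain ⟨𝔅, 𝔓, hS𝔅, hS𝔓, hB, hB3, hP, href, hP9, hPne⟩ :=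
          exists_families_one n hn27 S hS x htr
        obtain ⟨P, hPm, hxP⟩ := hP.2 x
        have hP9' := hP9 P hPm
        obtain ⟨B, hBm, hxB⟩ := hB.2 x
        apply key _ _ hS𝔅 hS𝔓
        · -- stab 𝔅 ≠ ⊤
          have hB3' := hB3 B hBm
          have h2 : 1 < B.ncard := by omega
          rw [Set.one_lt_ncard_iff] at h2
          obtain ⟨u, v, hu, hv, huv⟩ := h2
          obtain ⟨w, hw⟩ : ∃ w, w ∉ B := by
            by_contra h
            push Not at h
            have := Set.eq_univ_of_forall h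
            rw [this, Set.ncard_univ, Nat.card_eq_fintype_card, Fintype.card_fin] at hB3'
            omega
          exact stabilizer_ne_top n 𝔅 hB.1 B hBm u v w hu hv huv hw
        · have h2 : 1 < P.ncard := by omega
          rw [Set.one_lt_ncard_iff] at h2
          obtain ⟨u, v, hu, hv, huv⟩ := h2
          obtain ⟨w, hw⟩ : ∃ w, w ∉ P := by
            by_contra h
            push Not at h
            exact hPne P hPm (Set.eq_univ_of_forall h)
          exact stabilizer_ne_top n 𝔓 hP.1 P hPm u v w hu hv huv hw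
        · exact sup_stabilizer_eq_top n 𝔅 𝔓 hB hB3 hP href ⟨P, hPm, hP9'⟩
    · -- two orbits
      obtain ⟨y, hy⟩ : ∃ y, y ∉ orbit S x := by
        by_contra h
        push Not at h
        exact htr (Set.eq_univ_of_forall h)
      have hcov : orbit S x ∪ orbit S y = Set.univ := by
        apply Set.eq_univ_of_forall
        intro z
        by_contra hz
        rw [Set.mem_union, not_or] at hz
        exact hz.2 (h3 x y z hy hz.1)
      have hdisj : Disjoint (orbit S x) (orbit S y) := by
        rcases MulAction.orbit.eq_or_disjoint (G := S) x y with h | h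
        · exact absurd (h ▸ mem_orbit_self y) hy
        · exact h
      obtain ⟨a, ha⟩ := hpow x
      obtain ⟨b, hb⟩ := hpow y
      have hnab : n = 3 ^ a + 3 ^ b := by
        have h1 := Set.ncard_union_eq hdisj (Set.toFinite _) (Set.toFinite _)
        rw [hcov, Set.ncard_univ, Nat.card_eq_fintype_card, Fintype.card_fin, ha, hb] at h1
        exact h1
      rcases core_arith n a b hn hnab with hgood | ⟨ha1, hb1, hab2⟩
      · exact hgood
      · exfalso
        have hx3 : 3 ≤ (orbit S x).ncard := by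
          rw [ha]
          calc 3 = 3 ^ 1 := by norm_num
            _ ≤ 3 ^ a := Nat.pow_le_pow_right (by norm_num) ha1
        have hy3 : 3 ≤ (orbit S y).ncard := by
          rw [hb]
          calc 3 = 3 ^ 1 := by norm_num
            _ ≤ 3 ^ b := Nat.pow_le_pow_right (by norm_num) hb1
        obtain ⟨𝔅, hS𝔅, hB, hB3, hBsub⟩ := exists_family_two n S hS x y hy hcov hx3 hy3
        obtain ⟨𝔓, h𝔓⟩ : ∃ 𝔓 : Set (Set (Fin n)), 𝔓 = {orbit S x, orbit S y} := ⟨_, rfl⟩
        have hne : orbit S x ≠ orbit S y := fun h => hy (h ▸ mem_orbit_self y)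
        have hP : IsPartition 𝔓 := by
          constructor
          · intro B hBm B' hB'm hBB'
            rw [h𝔓] at hBm hB'm
            rcases hBm with rfl | rfl <;> rcases hB'm with rfl | rfl
            · exact absurd rfl hBB'
            · exact hdisj
            · exact hdisj.symm
            · exact absurd rfl hBB'
          · intro z
            have hz : z ∈ orbit S x ∪ orbit S y := by rw [hcov]; trivial
            rcases hz with hz | hz
            · exact ⟨orbit S x, by rw [h𝔓]; exact Or.inl rfl, hz⟩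
            · exact ⟨orbit S y, by rw [h𝔓]; exact Or.inr rfl, hz⟩
        have hS𝔓 : S ≤ stabilizer (alternatingGroup (Fin n)) 𝔓 := by
          intro s hs
          rw [mem_stabilizer_iff, h𝔓]
          have e1 : s • orbit S x = orbit S x := MulAction.smul_orbit (⟨s, hs⟩ : S) x
          have e2 : s • orbit S y = orbit S y := MulAction.smul_orbit (⟨s, hs⟩ : S) y
          rw [Set.smul_set_insert, Set.smul_set_singleton, e1, e2]
        have href : ∀ B ∈ 𝔅, ∃ P ∈ 𝔓, B ⊆ P := by
          intro B hBm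
          rcases hBsub B hBm with h | h
          · exact ⟨orbit S x, by rw [h𝔓]; exact Or.inl rfl, h⟩
          · exact ⟨orbit S y, by rw [h𝔓]; exact Or.inr rfl, h⟩
        have h9 : ∃ P ∈ 𝔓, 9 ≤ P.ncard := by
          rcases hab2 with h | h
          · refine ⟨orbit S x, by rw [h𝔓]; exact Or.inl rfl, ?_⟩
            rw [ha]
            calc 9 = 3 ^ 2 := by norm_num
              _ ≤ 3 ^ a := Nat.pow_le_pow_right (by norm_num) h
          · refine ⟨orbit S y, by rw [h𝔓]; exact Or.inr rfl, ?_⟩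
            rw [hb]
            calc 9 = 3 ^ 2 := by norm_num
              _ ≤ 3 ^ b := Nat.pow_le_pow_right (by norm_num) h
        obtain ⟨B, hBm, hxB⟩ := hB.2 x
        apply key _ _ hS𝔅 hS𝔓
        · have hB3' := hB3 B hBm
          have h2 : 1 < B.ncard := by omega
          rw [Set.one_lt_ncard_iff] at h2
          obtain ⟨u, v, hu, hv, huv⟩ := h2
          obtain ⟨w, hw⟩ : ∃ w, w ∉ B := by
            by_contra h
            push Not at h
            have := Set.eq_univ_of_forall h
            rw [this, Set.ncard_univ, Nat.card_eq_fintype_card, Fintype.card_fin] at hB3'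
            omega
          exact stabilizer_ne_top n 𝔅 hB.1 B hBm u v w hu hv huv hw
        · have h2 : 1 < (orbit S x).ncard := by omega
          rw [Set.one_lt_ncard_iff] at h2
          obtain ⟨u, v, hu, hv, huv⟩ := h2
          exact stabilizer_ne_top n 𝔓 hP.1 (orbit S x) (by rw [h𝔓]; exact Or.inl rfl) u v y hu hv
            huv hy
        · exact sup_stabilizer_eq_top n 𝔅 𝔓 hB hB3 hP href h9

end Cfsg.Agent.Lib.Helper6.PM3
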