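import Mathlib.GroupTheory.SpecificGroups.Cyclic
import Mathlib.GroupTheory.OrderOfElement
import Mathlib.Data.Nat.Factorization.Basic
import Mathlib.Tactic

/-!
The (undirected, reflexive) power graph of a finite group: adjacency, closed twins, and the
arithmetic of cyclic subgroups needed to recognise elements of order `p * q` (helper6, S4085).
-/

set_option autoImplicit false

namespace Cfsg.Agent.Lib.Helper6.PowGr

open Subgroup

variable {G : Type*} [Group G]

/-- Adjacency in the power graph: one of the two elements is a power of the other. -/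
def A (x z : G) : Prop := x ∈ zpowers z ∨ z ∈ zpowers x

/-- Closed twins: the same neighbours. -/
def Tw (x z : G) : Prop := ∀ w : G, A w x ↔ A w z

/-- The closed-twin class of an element. -/
def T (x : G) : Set G := {z | Tw z x}

theorem le_tr {x y z : G} (h1 : x ∈ zpowers y) (h2 : y ∈ zpowers z) : x ∈ zpowers z :=
  (zpowers_le.2 h2) h1

theorem A_refl (x : G) : A x x := Or.inl (mem_zpowers x)

theorem A_symm {x z : G} (h : A x z) : A z x := Or.symm h

theorem Tw_refl (x : G) : Tw x x := fun _ => Iff.rfl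

theorem Tw_symm {x z : G} (h : Tw x z) : Tw z x := fun w => (h w).symm

theorem Tw_trans {x y z : G} (h1 : Tw x y) (h2 : Tw y z) : Tw x z :=
  fun w => (h1 w).trans (h2 w)

theorem Tw_A {x z : G} (h : Tw x z) : A x z := (h x).1 (A_refl x)

theorem Tw_of_le_le {x z : G} (h1 : x ∈ zpowers z) (h2 : z ∈ zpowers x) : Tw x z := by
  intro w
  constructor
  · rintro (h | h)
    · exact Or.inl (le_tr h h1)
    · exact Or.inr (le_tr h2 h)
  · rintro (h | h)
    · exact Or.inl (le_tr h h2)
    · exact Or.inr (le_tr h1 h)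

theorem T_eq_of_Tw {x z : G} (h : Tw x z) : T x = T z := by
  ext w
  exact ⟨fun hw => Tw_trans hw h, fun hw => Tw_trans hw (Tw_symm h)⟩

theorem mem_T_self (x : G) : x ∈ T x := Tw_refl x

section Fin
variable [Finite G]

/-- In a cyclic subgroup, membership in `zpowers` is divisibility of orders. -/
theorem mem_zpowers_of_orderOf_dvd {c x z : G} (hx : x ∈ zpowers c) (hz : z ∈ zpowers c)
    (h : orderOf x ∣ orderOf z) : x ∈ zpowers z := by
  rw [← mem_powers_iff_mem_zpowers, Submonoid.mem_powers_iff] at hx hz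
  obtain ⟨i, rfl⟩ := hx
  obtain ⟨j, rfl⟩ := hz
  have hn0 : 0 < orderOf c := orderOf_pos c
  have h1 : (c ^ i) ^ orderOf (c ^ j) = 1 := orderOf_dvd_iff_pow_eq_one.1 h
  rw [← pow_mul, orderOf_pow c] at h1
  have h2 : orderOf c ∣ i * (orderOf c / Nat.gcd (orderOf c) j) :=
    orderOf_dvd_iff_pow_eq_one.2 h1
  have hg : Nat.gcd (orderOf c) j ∣ i := by
    obtain ⟨n', hn'⟩ := Nat.gcd_dvd_left (orderOf c) j
    have hgpos : 0 < Nat.gcd (orderOf c) j := Nat.gcd_pos_of_pos_left j hn0
    have hn'pos : 0 < n' := by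
      rcases Nat.eq_zero_or_pos n' with h0 | h0
      · rw [h0, Nat.mul_zero] at hn'
        omega
      · exact h0
    have hdiv : orderOf c / Nat.gcd (orderOf c) j = n' :=
      Nat.div_eq_of_eq_mul_right hgpos hn'
    rw [hdiv] at h2
    have h3 : Nat.gcd (orderOf c) j * n' ∣ i * n' := by
      rw [← hn']
      exact h2
    exact Nat.dvd_of_mul_dvd_mul_right hn'pos h3
  obtain ⟨t, ht⟩ := hg
  have hb : c ^ (Nat.gcd (orderOf c) j) ∈ zpowers (c ^ j) := by
    have hbez := Nat.gcd_eq_gcd_ab (orderOf c) j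
    rw [mem_zpowers_iff]
    refine ⟨Nat.gcdB (orderOf c) j, ?_⟩
    rw [← zpow_natCast c (Nat.gcd (orderOf c) j), hbez, zpow_add, zpow_mul, zpow_natCast,
      pow_orderOf_eq_one, one_zpow, one_mul, zpow_mul, zpow_natCast]
  rw [ht, pow_mul]
  exact Subgroup.pow_mem _ hb t

/-- An element of each order dividing the order of `a`, inside `zpowers a`. -/
theorem exists_mem_zpowers_orderOf (a : G) {d : ℕ} (hd : d ∣ orderOf a) :
    ∃ u : G, u ∈ zpowers a ∧ orderOf u = d :=
  ⟨a ^ (orderOf a / d), Subgroup.pow_mem _ (mem_zpowers a) _,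
    orderOf_pow_orderOf_div (orderOf_pos a).ne' hd⟩

/-- A proper non-identity closed twin below `z` forces `z` to have prime power order. -/
theorem primePow_of_twin {x z : G} (htw : Tw x z) (hle : x ∈ zpowers z) (hnle : z ∉ zpowers x)
    (hx : x ≠ 1) : ∃ s j : ℕ, Nat.Prime s ∧ orderOf z = s ^ j := by
  have hd : orderOf x ∣ orderOf z := orderOf_dvd_of_mem_zpowers hle
  have hn0 : orderOf z ≠ 0 := (orderOf_pos z).ne'
  have hd0 : orderOf x ≠ 0 := (orderOf_pos x).ne'
  have hd1 : orderOf x ≠ 1 := fun h => hx (orderOf_eq_one_iff.1 h)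
  have hdn : ¬ orderOf z ∣ orderOf x := fun h =>
    hnle (mem_zpowers_of_orderOf_dvd (mem_zpowers z) hle h)
  have key : ∀ r : ℕ, r.Prime → r ∣ orderOf z → ∀ s : ℕ, s.Prime → s ∣ orderOf x → s ≠ r →
      r ^ ((orderOf z).factorization r) ∣ orderOf x := by
    intro r hr _ s hs hsd hsr
    have hv : r ^ ((orderOf z).factorization r) ∣ orderOf z := Nat.ordProj_dvd (orderOf z) r
    obtain ⟨w, hwz, how⟩ := exists_mem_zpowers_orderOf z hv
    have hA : A w x := (htw w).2 (Or.inl hwz)
    rcases hA with h | h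
    · have h' := orderOf_dvd_of_mem_zpowers h
      rwa [how] at h'
    · have h' := orderOf_dvd_of_mem_zpowers h
      rw [how] at h'
      have h'' : s ∣ r ^ ((orderOf z).factorization r) := dvd_trans hsd h'
      exact absurd ((Nat.prime_dvd_prime_iff_eq hs hr).1 (hs.dvd_of_dvd_pow h'')) hsr
  obtain ⟨s, hs, hsd⟩ := Nat.exists_prime_and_dvd hd1
  by_cases hall : ∀ r : ℕ, r.Prime → r ∣ orderOf z → r = s
  · exact ⟨s, _, hs, Nat.eq_prime_pow_of_unique_prime_dvd hn0 (fun {r} hr hrn => hall r hr hrn)⟩
  · exfalso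
    simp only [not_forall] at hall
    obtain ⟨r, hr, hrn, hrs⟩ := hall
    have hrd : r ∣ orderOf x :=
      dvd_trans (dvd_pow_self r (Nat.Prime.factorization_pos_of_dvd hr hn0 hrn).ne')
        (key r hr hrn s hs hsd (Ne.symm hrs))
    apply hdn
    rw [← Nat.factorization_prime_le_iff_dvd hn0 hd0]
    intro r' hr'
    by_cases hr'n : r' ∣ orderOf z
    · have hdv : r' ^ ((orderOf z).factorization r') ∣ orderOf x := by
        by_cases h' : r' = s
        · exact key r' hr' hr'n r hr hrd (by rw [h']; exact hrs)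
        · exact key r' hr' hr'n s hs hsd (Ne.symm h')
      exact (hr'.pow_dvd_iff_le_factorization hd0).1 hdv
    · rw [Nat.factorization_eq_zero_of_not_dvd hr'n]
      exact Nat.zero_le _

/-- The number of generators of a cyclic subgroup. -/
theorem ncard_gens (x : G) :
    {z : G | zpowers z = zpowers x}.ncard = Nat.totient (orderOf x) := by
  classical
  let _ : Fintype (zpowers x) := Fintype.ofFinite _
  have h1 := IsCyclic.card_orderOf_eq_totient (α := zpowers x) (d := orderOf x)
    (by rw [← Nat.card_eq_fintype_card, Nat.card_zpowers])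
  have h2 : {z : G | zpowers z = zpowers x} = Subtype.val ''
      ((Finset.univ.filter fun a : zpowers x => orderOf a = orderOf x : Finset (zpowers x)) :
        Set (zpowers x)) := by
    ext z
    constructor
    · intro hz
      have hz' : zpowers z = zpowers x := hz
      have hzC : z ∈ zpowers x := hz' ▸ mem_zpowers z
      refine ⟨⟨z, hzC⟩, ?_, rfl⟩
      rw [Finset.mem_coe, Finset.mem_filter]
      refine ⟨Finset.mem_univ _, ?_⟩
      rw [Subgroup.orderOf_mk, ← Nat.card_zpowers z, ← Nat.card_zpowers x, hz']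
    · rintro ⟨a, ha, rfl⟩
      rw [Finset.mem_coe, Finset.mem_filter] at ha
      have hle : zpowers (a : G) ≤ zpowers x := zpowers_le.2 a.2
      refine Subgroup.eq_of_le_of_card_ge hle ?_
      rw [Nat.card_zpowers, Nat.card_zpowers, Subgroup.orderOf_coe, ha.2]
  rw [h2, Set.ncard_image_of_injective _ Subtype.val_injective, Set.ncard_coe_finset, h1]

omit [Finite G] in
/-- The number of non-identity elements of a cyclic subgroup. -/
theorem ncard_zpowers_diff_one (y : G) :
    {t : G | t ∈ zpowers y ∧ t ≠ 1}.ncard = orderOf y - 1 := by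
  have h : {t : G | t ∈ zpowers y ∧ t ≠ 1} = (zpowers y : Set G) \ {1} := by
    ext t
    simp
  rw [h, Set.ncard_sdiff_singleton_of_mem (one_mem (zpowers y))]
  congr 1
  rw [← Nat.card_coe_set_eq]
  exact Nat.card_zpowers y

end Fin

end Cfsg.Agent.Lib.Helper6.PowGr
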