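import Cfsg.Agent.Lib.Helper6.PowGrA

/-!
Recognising an element of order `p * q` from a power-graph configuration, in a finite group
whose only dominating vertex is the identity (helper6, S4085).
-/

set_option autoImplicit false

namespace Cfsg.Agent.Lib.Helper6.PowGr

open Subgroup

variable {G : Type*} [Group G]

/-- The identity is the only vertex adjacent to all vertices. -/
def Dom1 (G : Type*) [Group G] : Prop := ∀ x : G, (∀ z : G, A z x) → x = 1

theorem one_not_twin (hdom : Dom1 G) {x : G} (hx : x ≠ 1) : ¬ Tw 1 x := by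
  intro h
  apply hx
  apply hdom
  intro z
  exact (h z).1 (Or.inr (one_mem _))

variable [Finite G]

/-- A closed twin of maximal order: all twins are powers of it. -/
theorem exists_max_twin (x : G) : ∃ y : G, Tw y x ∧ ∀ t : G, Tw t x → t ∈ zpowers y := by
  obtain ⟨y, hy, hmax⟩ := Set.exists_max_image (T x) orderOf (Set.toFinite _) ⟨x, mem_T_self x⟩
  refine ⟨y, hy, fun t ht => ?_⟩
  have hA : A t y := Tw_A (Tw_trans ht (Tw_symm hy))
  rcases hA with h | h
  · exact h
  · have h1 := orderOf_dvd_of_mem_zpowers h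
    have h2 : orderOf t ≤ orderOf y := hmax t ht
    have h3 : orderOf t = orderOf y := le_antisymm h2 (Nat.le_of_dvd (orderOf_pos t) h1)
    exact mem_zpowers_of_orderOf_dvd (mem_zpowers t) h (by rw [h3])

/-- The twin class of an element of prime order `s` has `s ^ j - 1` elements. -/
theorem twin_class_prime (hdom : Dom1 G) {u : G} {s : ℕ} (hs : s.Prime) (hu : orderOf u = s) :
    ∃ j : ℕ, 1 ≤ j ∧ (T u).ncard = s ^ j - 1 := by
  have hu1 : u ≠ 1 := by
    intro h
    rw [h, orderOf_one] at hu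
    exact hs.ne_one hu.symm
  obtain ⟨y, hy, hmax⟩ := exists_max_twin u
  have huy : u ∈ zpowers y := hmax u (Tw_refl u)
  have hsy : s ∣ orderOf y := hu ▸ orderOf_dvd_of_mem_zpowers huy
  have hpow : ∃ j : ℕ, 1 ≤ j ∧ orderOf y = s ^ j := by
    by_cases hyu : y ∈ zpowers u
    · refine ⟨1, le_rfl, ?_⟩
      have h1 := orderOf_dvd_of_mem_zpowers hyu
      rw [hu] at h1
      rw [pow_one]
      exact Nat.dvd_antisymm h1 hsy
    · obtain ⟨s', j, hs', hj⟩ := primePow_of_twin (Tw_symm hy) huy hyu hu1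
      have h1 : s ∣ s' ^ j := hj ▸ hsy
      have hss : s = s' := (Nat.prime_dvd_prime_iff_eq hs hs').1 (hs.dvd_of_dvd_pow h1)
      subst hss
      refine ⟨j, ?_, hj⟩
      rcases Nat.eq_zero_or_pos j with h0 | h0
      · rw [h0, pow_zero] at hj
        rw [hj] at hsy
        exact absurd (Nat.dvd_one.1 hsy) hs.ne_one
      · exact h0
  obtain ⟨j, hj1, hj⟩ := hpow
  refine ⟨j, hj1, ?_⟩
  have hT : T u = {t : G | t ∈ zpowers y ∧ t ≠ 1} := by
    ext t
    constructor
    · intro ht
      refine ⟨hmax t ht, ?_⟩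
      intro h1
      rw [h1] at ht
      exact one_not_twin hdom hu1 ht
    · rintro ⟨hty, ht1⟩
      have hot : orderOf t ∣ s ^ j := hj ▸ orderOf_dvd_of_mem_zpowers hty
      have hst : s ∣ orderOf t := by
        obtain ⟨i, _, hoi⟩ := (Nat.dvd_prime_pow hs).1 hot
        rw [hoi]
        have hi0 : i ≠ 0 := by
          intro h0
          rw [h0, pow_zero] at hoi
          exact ht1 (orderOf_eq_one_iff.1 hoi)
        exact dvd_pow_self s hi0
      have hut : u ∈ zpowers t := mem_zpowers_of_orderOf_dvd huy hty (by rw [hu]; exact hst)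
      intro z
      constructor
      · rintro (h | h)
        · exact (hy z).1 (Or.inl (le_tr h hty))
        · exact Or.inr (le_tr hut h)
      · intro h
        have h' : A z y := (hy z).2 h
        rcases h' with h' | h'
        · have hoz : orderOf z ∣ s ^ j := hj ▸ orderOf_dvd_of_mem_zpowers h'
          obtain ⟨i₁, _, h₁⟩ := (Nat.dvd_prime_pow hs).1 hoz
          obtain ⟨i₂, _, h₂⟩ := (Nat.dvd_prime_pow hs).1 hot
          rcases le_total i₁ i₂ with hle | hle
          · exact Or.inl (mem_zpowers_of_orderOf_dvd h' hty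
              (by rw [h₁, h₂]; exact pow_dvd_pow s hle))
          · exact Or.inr (mem_zpowers_of_orderOf_dvd hty h'
              (by rw [h₁, h₂]; exact pow_dvd_pow s hle))
        · exact Or.inr (le_tr hty h')
  rw [hT, ncard_zpowers_diff_one, hj]

/-- First configuration: `a`, `b` are powers of `g`. Then `a` has a power of order `p`. -/
theorem config_one (hdom : Dom1 G) {p : ℕ} (hp : p.Prime) {a b g : G}
    (hag : a ∈ zpowers g) (hbg : b ∈ zpowers g) (hab : ¬ A a b)
    (hN : ∀ z : G, A z g → z ∈ T a ∨ z ∈ T b ∨ (A z a ∧ A z b))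
    (hTa : (T a).ncard = p - 1) : ∃ u : G, u ∈ zpowers a ∧ orderOf u = p := by
  have ha0 : orderOf a ≠ 0 := (orderOf_pos a).ne'
  have hb0 : orderOf b ≠ 0 := (orderOf_pos b).ne'
  have hb1 : b ≠ 1 := by
    intro h
    rw [h] at hab
    exact hab (Or.inr (one_mem _))
  have step1 : ∃ s : ℕ, s.Prime ∧ s ∣ orderOf a ∧ ¬ s ∣ orderOf b := by
    by_contra hcon
    have P1 : ∀ s : ℕ, s.Prime → s ∣ orderOf a → s ∣ orderOf b := by
      intro s hs hsa
      by_contra h
      exact hcon ⟨s, hs, hsa, h⟩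
    have hnd : ¬ orderOf b ∣ orderOf a := fun h =>
      hab (Or.inr (mem_zpowers_of_orderOf_dvd hbg hag h))
    rw [← Nat.factorization_prime_le_iff_dvd hb0 ha0] at hnd
    simp only [not_forall, not_le] at hnd
    obtain ⟨s, hs, hlt⟩ := hnd
    have hσ : s ^ ((orderOf b).factorization s) ∣ orderOf b := Nat.ordProj_dvd _ _
    obtain ⟨w, hwb, how⟩ := exists_mem_zpowers_orderOf b hσ
    have hk0 : (orderOf b).factorization s ≠ 0 := by omega
    have hw1 : w ≠ 1 := by
      intro h
      rw [h, orderOf_one] at how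
      exact (Nat.one_lt_pow hk0 hs.one_lt).ne how
    rcases hN w (Or.inl (le_tr hwb hbg)) with h | h | ⟨h, _⟩
    · exact hab (A_symm ((h b).1 (Or.inr hwb)))
    · have hpp : ∃ s' j : ℕ, Nat.Prime s' ∧ orderOf b = s' ^ j := by
        by_cases hbw : b ∈ zpowers w
        · refine ⟨s, (orderOf b).factorization s, hs, ?_⟩
          have h1 := Nat.dvd_antisymm (orderOf_dvd_of_mem_zpowers hbw)
            (orderOf_dvd_of_mem_zpowers hwb)
          exact h1.trans how
        · exact primePow_of_twin h hwb hbw hw1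
      obtain ⟨s', j, hs', hj⟩ := hpp
      have ha' : orderOf a = s' ^ (orderOf a).primeFactorsList.length :=
        Nat.eq_prime_pow_of_unique_prime_dvd ha0 (fun {d} hd hda => by
          have h1 := P1 d hd hda
          rw [hj] at h1
          exact (Nat.prime_dvd_prime_iff_eq hd hs').1 (hd.dvd_of_dvd_pow h1))
      rcases le_total ((orderOf a).primeFactorsList.length) j with hle | hle
      · exact hab (Or.inl (mem_zpowers_of_orderOf_dvd hag hbg
          (by rw [ha', hj]; exact pow_dvd_pow s' hle)))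
      · exact hab (Or.inr (mem_zpowers_of_orderOf_dvd hbg hag
          (by rw [ha', hj]; exact pow_dvd_pow s' hle)))
    · rcases h with h | h
      · have h1 := orderOf_dvd_of_mem_zpowers h
        rw [how] at h1
        have h2 := (hs.pow_dvd_iff_le_factorization ha0).1 h1
        omega
      · exact hab (Or.inl (le_tr h hwb))
  obtain ⟨s, hs, hsa, hsb⟩ := step1
  obtain ⟨u, hua, hou⟩ := exists_mem_zpowers_orderOf a hsa
  have huT : u ∈ T a := by
    rcases hN u (Or.inl (le_tr hua hag)) with h | h | ⟨_, h⟩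
    · exact h
    · exact absurd ((h a).1 (Or.inr hua)) hab
    · exfalso
      rcases h with h | h
      · exact hsb (hou ▸ orderOf_dvd_of_mem_zpowers h)
      · have h1 := orderOf_dvd_of_mem_zpowers h
        rw [hou] at h1
        rcases (Nat.dvd_prime hs).1 h1 with h2 | h2
        · exact hb1 (orderOf_eq_one_iff.1 h2)
        · exact hsb (h2 ▸ dvd_rfl)
  obtain ⟨j, hj1, hj⟩ := twin_class_prime hdom hs hou
  have huT' : Tw u a := huT
  rw [T_eq_of_Tw huT', hTa] at hj
  have hpj : p = s ^ j := by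
    have h1 : 1 ≤ p := hp.one_lt.le
    have h2 : 1 ≤ s ^ j := Nat.one_le_pow _ _ hs.pos
    omega
  have hsp : s ∣ p := by
    rw [hpj]
    exact dvd_pow_self s (by omega)
  have hsp' : s = p := (Nat.prime_dvd_prime_iff_eq hs hp).1 hsp
  exact ⟨u, hua, by rw [hou, hsp']⟩

/-- Second configuration: `g` is a power of both `a` and `b`. Impossible. -/
theorem config_two (hdom : Dom1 G) {p q : ℕ} (hp : p.Prime) (hq : q.Prime) (hpq : p ≠ q)
    {a b g : G} (hga : g ∈ zpowers a) (hgb : g ∈ zpowers b) (hab : ¬ A a b) (hg1 : g ≠ 1)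
    (hTa : (T a).ncard = p - 1) (hTb : (T b).ncard = q - 1)
    (hTg : (T g).ncard = (p - 1) * (q - 1)) : False := by
  obtain ⟨y, hy, hmax⟩ := exists_max_twin g
  have hgy : g ∈ zpowers y := hmax g (Tw_refl g)
  have hAya : A a y := (hy a).2 (Or.inr hga)
  have hAyb : A b y := (hy b).2 (Or.inr hgb)
  have hyab : y ∈ zpowers a ∧ y ∈ zpowers b := by
    rcases hAya with h1 | h1 <;> rcases hAyb with h2 | h2
    · exfalso
      by_cases hyg : y ∈ zpowers g
      · exact hab (Or.inl (le_tr (le_tr h1 hyg) hgb))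
      · obtain ⟨s, j, hs, hj⟩ := primePow_of_twin (Tw_symm hy) hgy hyg hg1
        have hoa : orderOf a ∣ s ^ j := hj ▸ orderOf_dvd_of_mem_zpowers h1
        have hob : orderOf b ∣ s ^ j := hj ▸ orderOf_dvd_of_mem_zpowers h2
        obtain ⟨i₁, _, e₁⟩ := (Nat.dvd_prime_pow hs).1 hoa
        obtain ⟨i₂, _, e₂⟩ := (Nat.dvd_prime_pow hs).1 hob
        rcases le_total i₁ i₂ with hle | hle
        · exact hab (Or.inl (mem_zpowers_of_orderOf_dvd h1 h2
            (by rw [e₁, e₂]; exact pow_dvd_pow s hle)))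
        · exact hab (Or.inr (mem_zpowers_of_orderOf_dvd h2 h1
            (by rw [e₁, e₂]; exact pow_dvd_pow s hle)))
    · exact absurd (Or.inl (le_tr h1 h2)) hab
    · exact absurd (Or.inr (le_tr h2 h1)) hab
    · exact ⟨h1, h2⟩
  obtain ⟨hya, hyb⟩ := hyab
  have gens_le : ∀ c : G, Nat.totient (orderOf c) ≤ (T c).ncard := by
    intro c
    rw [← ncard_gens c]
    refine Set.ncard_le_ncard ?_ (Set.toFinite _)
    intro z hz
    have hz' : zpowers z = zpowers c := hz
    have h1 : z ∈ zpowers c := hz' ▸ mem_zpowers z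
    have h2 : c ∈ zpowers z := hz'.symm ▸ mem_zpowers c
    exact Tw_of_le_le h1 h2
  have tot_le : ∀ c : G, y ∈ zpowers c → Nat.totient (orderOf y) ≤ (T c).ncard := by
    intro c hc
    exact le_trans (Nat.le_of_dvd (Nat.totient_pos.2 (orderOf_pos c))
      (Nat.totient_dvd_of_dvd (orderOf_dvd_of_mem_zpowers hc))) (gens_le c)
  have hla : Nat.totient (orderOf y) ≤ p - 1 := by
    rw [← hTa]
    exact tot_le a hya
  have hlb : Nat.totient (orderOf y) ≤ q - 1 := by
    rw [← hTb]
    exact tot_le b hyb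
  have hT1 : T g ⊆ {t : G | t ∈ zpowers y ∧ t ≠ 1} := by
    intro t ht
    refine ⟨hmax t ht, ?_⟩
    intro h1
    rw [h1] at ht
    exact one_not_twin hdom hg1 ht
  have hle1 : (p - 1) * (q - 1) ≤ orderOf y - 1 := by
    rw [← hTg, ← ncard_zpowers_diff_one y]
    exact Set.ncard_le_ncard hT1 (Set.toFinite _)
  have hP : 1 ≤ p - 1 := by
    have := hp.two_le
    omega
  have hQ : 1 ≤ q - 1 := by
    have := hq.two_le
    omega
  have hPQ : p - 1 ≠ q - 1 := by omega
  have fin : (p - 1) * (q - 1) ≤ p - 1 → (p - 1) * (q - 1) ≤ q - 1 → False := by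
    intro h1 h2
    have h3 : q - 1 ≤ 1 := by nlinarith
    have h4 : p - 1 ≤ 1 := by nlinarith
    omega
  by_cases hpp : ∃ s j : ℕ, Nat.Prime s ∧ orderOf y = s ^ j
  · obtain ⟨s, j, hs, hj⟩ := hpp
    rw [hj] at hle1 hla hlb
    have hs2 := hs.two_le
    rcases j with _ | j
    · rw [pow_zero] at hle1
      have : 0 < (p - 1) * (q - 1) := Nat.mul_pos hP hQ
      omega
    · rw [Nat.totient_prime_pow_succ hs] at hla hlb
      rcases j with _ | j
      · rw [pow_zero, one_mul] at hla hlb
        rw [zero_add, pow_one] at hle1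
        exact fin (le_trans hle1 hla) (le_trans hle1 hlb)
      · have h1 : s ^ (j + 1) ≤ s ^ (j + 1) * (s - 1) := Nat.le_mul_of_pos_right _ (by omega)
        have hPs : s ^ (j + 1) ≤ p - 1 := le_trans h1 hla
        have hQs : s ^ (j + 1) ≤ q - 1 := le_trans h1 hlb
        have h2 : s ^ (j + 1) * s ^ (j + 1) ≤ (p - 1) * (q - 1) := Nat.mul_le_mul hPs hQs
        have h3 : s ^ (j + 1 + 1) ≤ s ^ (j + 1) * s ^ (j + 1) := by
          rw [← pow_add]
          exact Nat.pow_le_pow_right hs.pos (by omega)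
        have h4 : 0 < s ^ (j + 1 + 1) := pow_pos hs.pos _
        omega
  · have hT2 : T g ⊆ {z : G | zpowers z = zpowers y} := by
      intro t ht
      have hty := hmax t ht
      have ht1 : t ≠ 1 := by
        intro h1
        rw [h1] at ht
        exact one_not_twin hdom hg1 ht
      by_contra hne
      have hyt : y ∉ zpowers t := fun h =>
        hne (le_antisymm (zpowers_le.2 hty) (zpowers_le.2 h))
      have ht' : Tw t g := ht
      exact hpp (primePow_of_twin (Tw_trans ht' (Tw_symm hy)) hty hyt ht1)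
    have hle2 : (p - 1) * (q - 1) ≤ Nat.totient (orderOf y) := by
      rw [← hTg, ← ncard_gens y]
      exact Set.ncard_le_ncard hT2 (Set.toFinite _)
    exact fin (le_trans hle2 hla) (le_trans hle2 hlb)

/-- The power-graph configuration of `(g ^ q, g ^ p, g)` for `g` of order `p * q` forces an
element of order `p * q`. -/
theorem exists_orderOf_mul (hdom : Dom1 G) {p q : ℕ} (hp : p.Prime) (hq : q.Prime)
    (hpq : p ≠ q) {a b g : G} (hab : ¬ A a b) (hag : A a g) (hbg : A b g) (hg1 : g ≠ 1)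
    (hTa : (T a).ncard = p - 1) (hTb : (T b).ncard = q - 1)
    (hTg : (T g).ncard = (p - 1) * (q - 1))
    (hN : ∀ z : G, A z g → z ∈ T a ∨ z ∈ T b ∨ (A z a ∧ A z b)) :
    ∃ h : G, orderOf h = p * q := by
  rcases hag with h1 | h1 <;> rcases hbg with h2 | h2
  · obtain ⟨u, hua, hou⟩ := config_one hdom hp h1 h2 hab hN hTa
    obtain ⟨v, hvb, hov⟩ := config_one hdom hq h2 h1 (fun h => hab (A_symm h)) (fun z hz => by
      rcases hN z hz with h | h | ⟨h, h'⟩
      · exact Or.inr (Or.inl h)
      · exact Or.inl h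
      · exact Or.inr (Or.inr ⟨h', h⟩)) hTb
    have hpg : p ∣ orderOf g := hou ▸ orderOf_dvd_of_mem_zpowers (le_tr hua h1)
    have hqg : q ∣ orderOf g := hov ▸ orderOf_dvd_of_mem_zpowers (le_tr hvb h2)
    have hpqg : p * q ∣ orderOf g :=
      Nat.Coprime.mul_dvd_of_dvd_of_dvd ((Nat.coprime_primes hp hq).2 hpq) hpg hqg
    obtain ⟨h, _, hh⟩ := exists_mem_zpowers_orderOf g hpqg
    exact ⟨h, hh⟩
  · exact absurd (Or.inl (le_tr h1 h2)) hab
  · exact absurd (Or.inr (le_tr h2 h1)) hab
  · exact (config_two hdom hp hq hpq h1 h2 hab hg1 hTa hTb hTg).elim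

end Cfsg.Agent.Lib.Helper6.PowGr
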