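import Cfsg.Agent.Lib.Helper6.PowGrB
import Mathlib.GroupTheory.Perm.Cycle.Type

/-!
Isomorphic power graphs give the same elements of order `p * q` (helper6, S4085).
-/

set_option autoImplicit false

namespace Cfsg.Agent.Lib.Helper6.PowGr

open Subgroup

section Source
variable {G : Type*} [Group G] [Finite G]

omit [Finite G] in
theorem order_cases {p q : ℕ} (hp : p.Prime) (hq : q.Prime) {g z : G}
    (hg : orderOf g = p * q) (hz : z ∈ zpowers g) :
    orderOf z = 1 ∨ orderOf z = p ∨ orderOf z = q ∨ orderOf z = p * q := by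
  have h := orderOf_dvd_of_mem_zpowers hz
  rw [hg] at h
  obtain ⟨k₁, k₂, h1, h2, h3⟩ := dvd_mul.1 h
  rcases (Nat.dvd_prime hp).1 h1 with e1 | e1 <;> rcases (Nat.dvd_prime hq).1 h2 with e2 | e2
  · left
    rw [h3, e1, e2, one_mul]
  · right; right; left
    rw [h3, e1, e2, one_mul]
  · right; left
    rw [h3, e1, e2, mul_one]
  · right; right; right
    rw [h3, e1, e2]

omit [Finite G] in
theorem source_not_adj {p q : ℕ} (hp : p.Prime) (hq : q.Prime) (hpq : p ≠ q) {a b : G}
    (hoa : orderOf a = p) (hob : orderOf b = q) : ¬ A a b := by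
  rintro (h | h)
  · have h1 := orderOf_dvd_of_mem_zpowers h
    rw [hoa, hob] at h1
    exact hpq ((Nat.prime_dvd_prime_iff_eq hp hq).1 h1)
  · have h1 := orderOf_dvd_of_mem_zpowers h
    rw [hoa, hob] at h1
    exact hpq ((Nat.prime_dvd_prime_iff_eq hq hp).1 h1).symm

theorem source_T_prime {p q : ℕ} (hp : p.Prime) (hq : q.Prime) (hpq : p ≠ q) {g a b : G}
    (hg : orderOf g = p * q) (ha : a ∈ zpowers g) (hb : b ∈ zpowers g) (hoa : orderOf a = p)
    (hob : orderOf b = q) : T a = {t : G | t ∈ zpowers a ∧ t ≠ 1} := by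
  have hnab : ¬ A a b := source_not_adj hp hq hpq hoa hob
  ext z
  constructor
  · intro hz
    have hz' : Tw z a := hz
    have hzg : A g z := (hz' g).2 (Or.inr ha)
    have hzb : ¬ A b z := fun h => hnab (A_symm ((hz' b).1 h))
    have hzle : z ∈ zpowers g := by
      rcases hzg with h | h
      · exact absurd (Or.inl (le_tr hb h)) hzb
      · exact h
    rcases order_cases hp hq hg hzle with h | h | h | h
    · have h1 : z = 1 := orderOf_eq_one_iff.1 h
      rw [h1] at hzb
      exact absurd (Or.inr (one_mem _)) hzb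
    · refine ⟨mem_zpowers_of_orderOf_dvd hzle ha (by rw [h, hoa]), ?_⟩
      intro h1
      rw [h1, orderOf_one] at h
      exact hp.ne_one h.symm
    · exact absurd (Or.inr (mem_zpowers_of_orderOf_dvd hzle hb (by rw [h, hob]))) hzb
    · have h1 : g ∈ zpowers z :=
        mem_zpowers_of_orderOf_dvd (mem_zpowers g) hzle (by rw [h, hg])
      exact absurd (Or.inl (le_tr hb h1)) hzb
  · rintro ⟨hza, hz1⟩
    have h1 := orderOf_dvd_of_mem_zpowers hza
    rw [hoa] at h1
    rcases (Nat.dvd_prime hp).1 h1 with h2 | h2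
    · exact absurd (orderOf_eq_one_iff.1 h2) hz1
    · exact Tw_of_le_le hza
        (mem_zpowers_of_orderOf_dvd (mem_zpowers a) hza (by rw [hoa, h2]))

theorem source_T_top (hdom : Dom1 G) {p q : ℕ} (hp : p.Prime) (hq : q.Prime) (hpq : p ≠ q)
    {g a b : G} (hg : orderOf g = p * q) (hg1 : g ≠ 1) (ha : a ∈ zpowers g)
    (hb : b ∈ zpowers g) (hoa : orderOf a = p) (hob : orderOf b = q) :
    T g = {z : G | zpowers z = zpowers g} := by
  have hnab : ¬ A a b := source_not_adj hp hq hpq hoa hob
  ext z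
  constructor
  · intro hz
    have hz' : Tw z g := hz
    have hAz : A z g := Tw_A hz'
    have hza : A a z := (hz' a).2 (Or.inl ha)
    have hzb : A b z := (hz' b).2 (Or.inl hb)
    by_cases hzle : z ∈ zpowers g
    · rcases order_cases hp hq hg hzle with h | h | h | h
      · have h1 : z = 1 := orderOf_eq_one_iff.1 h
        rw [h1] at hz'
        exact absurd hz' (one_not_twin hdom hg1)
      · exfalso
        have hza' : z ∈ zpowers a := mem_zpowers_of_orderOf_dvd hzle ha (by rw [h, hoa])
        have haz' : a ∈ zpowers z := mem_zpowers_of_orderOf_dvd ha hzle (by rw [h, hoa])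
        rcases hzb with h' | h'
        · exact hnab (Or.inr (le_tr h' hza'))
        · exact hnab (Or.inl (le_tr haz' h'))
      · exfalso
        have hzb' : z ∈ zpowers b := mem_zpowers_of_orderOf_dvd hzle hb (by rw [h, hob])
        have hbz' : b ∈ zpowers z := mem_zpowers_of_orderOf_dvd hb hzle (by rw [h, hob])
        rcases hza with h' | h'
        · exact hnab (Or.inl (le_tr h' hzb'))
        · exact hnab (Or.inr (le_tr hbz' h'))
      · have h1 : g ∈ zpowers z :=
          mem_zpowers_of_orderOf_dvd (mem_zpowers g) hzle (by rw [h, hg])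
        exact le_antisymm (zpowers_le.2 hzle) (zpowers_le.2 h1)
    · exfalso
      have hgz : g ∈ zpowers z := by
        rcases hAz with h | h
        · exact absurd h hzle
        · exact h
      obtain ⟨s, j, hs, hj⟩ := primePow_of_twin (Tw_symm hz') hgz hzle hg1
      have h1 : p * q ∣ s ^ j := by
        rw [← hg, ← hj]
        exact orderOf_dvd_of_mem_zpowers hgz
      have hps : p = s := (Nat.prime_dvd_prime_iff_eq hp hs).1
        (hp.dvd_of_dvd_pow (dvd_trans (dvd_mul_right p q) h1))
      have hqs : q = s := (Nat.prime_dvd_prime_iff_eq hq hs).1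
        (hq.dvd_of_dvd_pow (dvd_trans (dvd_mul_left q p) h1))
      exact hpq (hps.trans hqs.symm)
  · intro hz
    have hz' : zpowers z = zpowers g := hz
    have h1 : z ∈ zpowers g := hz' ▸ mem_zpowers z
    have h2 : g ∈ zpowers z := hz'.symm ▸ mem_zpowers g
    exact Tw_of_le_le h1 h2

theorem source_nbhd {p q : ℕ} (hp : p.Prime) (hq : q.Prime) (hpq : p ≠ q) {g a b : G}
    (hg : orderOf g = p * q) (ha : a ∈ zpowers g) (hb : b ∈ zpowers g) (hoa : orderOf a = p)
    (hob : orderOf b = q) :
    ∀ z : G, A z g → z ∈ T a ∨ z ∈ T b ∨ (A z a ∧ A z b) := by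
  have hg' : orderOf g = q * p := by rw [hg, mul_comm]
  intro z hz
  rcases hz with h | h
  · rcases order_cases hp hq hg h with h' | h' | h' | h'
    · have h1 : z = 1 := orderOf_eq_one_iff.1 h'
      right; right
      rw [h1]
      exact ⟨Or.inl (one_mem _), Or.inl (one_mem _)⟩
    · left
      rw [source_T_prime hp hq hpq hg ha hb hoa hob]
      refine ⟨mem_zpowers_of_orderOf_dvd h ha (by rw [h', hoa]), ?_⟩
      intro h1
      rw [h1, orderOf_one] at h'
      exact hp.ne_one h'.symm
    · right; left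
      rw [source_T_prime hq hp (Ne.symm hpq) hg' hb ha hob hoa]
      refine ⟨mem_zpowers_of_orderOf_dvd h hb (by rw [h', hob]), ?_⟩
      intro h1
      rw [h1, orderOf_one] at h'
      exact hq.ne_one h'.symm
    · have h1 : g ∈ zpowers z :=
        mem_zpowers_of_orderOf_dvd (mem_zpowers g) h (by rw [h', hg])
      right; right
      exact ⟨Or.inr (le_tr ha h1), Or.inr (le_tr hb h1)⟩
  · right; right
    exact ⟨Or.inr (le_tr ha h), Or.inr (le_tr hb h)⟩

/-- A non-identity dominating vertex has order divisible by every prime divisor of the group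
order. -/
theorem exists_of_dominating {x : G} (hx : x ≠ 1) (hdom : ∀ z : G, A z x) {p q : ℕ}
    (hp : p.Prime) (hq : q.Prime) (hpq : p ≠ q) (hcard : p * q ∣ Nat.card G) :
    ∃ h : G, orderOf h = p * q := by
  have key : ∀ r : ℕ, r.Prime → r ∣ Nat.card G → r ∣ orderOf x := by
    intro r hr hrc
    have : Fact r.Prime := ⟨hr⟩
    obtain ⟨u, hu⟩ := exists_prime_orderOf_dvd_card' (G := G) r hrc
    rcases hdom u with h | h
    · exact hu ▸ orderOf_dvd_of_mem_zpowers h
    · have h1 := orderOf_dvd_of_mem_zpowers h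
      rw [hu] at h1
      rcases (Nat.dvd_prime hr).1 h1 with h2 | h2
      · exact absurd (orderOf_eq_one_iff.1 h2) hx
      · rw [h2]
  have h1 : p ∣ orderOf x := key p hp (dvd_trans (dvd_mul_right p q) hcard)
  have h2 : q ∣ orderOf x := key q hq (dvd_trans (dvd_mul_left q p) hcard)
  have h3 : p * q ∣ orderOf x :=
    Nat.Coprime.mul_dvd_of_dvd_of_dvd ((Nat.coprime_primes hp hq).2 hpq) h1 h2
  obtain ⟨h, _, hh⟩ := exists_mem_zpowers_orderOf x h3
  exact ⟨h, hh⟩

end Source

section Transfer
variable {G : Type*} {H : Type*} [Group G] [Group H]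

theorem Tw_map (e : G ≃ H) (he : ∀ x y : G, A x y ↔ A (e x) (e y)) (x y : G) :
    Tw (e x) (e y) ↔ Tw x y := by
  constructor
  · intro h w
    rw [he w x, he w y]
    exact h (e w)
  · intro h w
    obtain ⟨w', rfl⟩ := e.surjective w
    rw [← he, ← he]
    exact h w'

theorem T_map (e : G ≃ H) (he : ∀ x y : G, A x y ↔ A (e x) (e y)) (x : G) :
    T (e x) = e '' T x := by
  ext z
  constructor
  · intro hz
    obtain ⟨z', rfl⟩ := e.surjective z
    exact ⟨z', (Tw_map e he z' x).1 hz, rfl⟩
  · rintro ⟨z', hz', rfl⟩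
    exact (Tw_map e he z' x).2 hz'

theorem ncard_T_map (e : G ≃ H) (he : ∀ x y : G, A x y ↔ A (e x) (e y)) (x : G) :
    (T (e x)).ncard = (T x).ncard := by
  rw [T_map e he, Set.ncard_image_of_injective _ e.injective]

/-- One direction of S4085. -/
theorem power_graph_aux [Finite G] [Finite H] (e : G ≃ H)
    (he : ∀ x y : G, A x y ↔ A (e x) (e y)) {p q : ℕ} (hp : p.Prime) (hq : q.Prime)
    (hpq : p ≠ q) : (∃ g : G, orderOf g = p * q) → ∃ h : H, orderOf h = p * q := by
  rintro ⟨g, hg⟩
  by_cases hdomH : Dom1 H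
  swap
  · unfold Dom1 at hdomH
    simp only [not_forall] at hdomH
    obtain ⟨x, hx, hx1⟩ := hdomH
    refine exists_of_dominating hx1 hx hp hq hpq ?_
    rw [← Nat.card_congr e, ← hg]
    exact orderOf_dvd_natCard g
  have he1 : e 1 = 1 := hdomH (e 1) (fun z => by
    obtain ⟨z', rfl⟩ := e.surjective z
    exact (he z' 1).1 (Or.inr (one_mem _)))
  have hdomG : Dom1 G := by
    intro x hx
    have h1 : e x = 1 := hdomH (e x) (fun z => by
      obtain ⟨z', rfl⟩ := e.surjective z
      exact (he z' x).1 (hx z'))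
    exact e.injective (h1.trans he1.symm)
  have ha : g ^ q ∈ zpowers g := Subgroup.pow_mem _ (mem_zpowers g) q
  have hb : g ^ p ∈ zpowers g := Subgroup.pow_mem _ (mem_zpowers g) p
  have hoa : orderOf (g ^ q) = p := by
    rw [orderOf_pow_of_dvd hq.ne_zero (hg ▸ dvd_mul_left q p), hg]
    exact Nat.mul_div_cancel p hq.pos
  have hob : orderOf (g ^ p) = q := by
    rw [orderOf_pow_of_dvd hp.ne_zero (hg ▸ dvd_mul_right p q), hg]
    exact Nat.mul_div_cancel_left q hp.pos
  have hg' : orderOf g = q * p := by rw [hg, mul_comm]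
  have hg1 : g ≠ 1 := by
    intro h
    rw [h, orderOf_one] at hg
    have h2 := hp.two_le
    have h3 := hq.two_le
    nlinarith
  have hnab := source_not_adj hp hq hpq hoa hob
  have hTa := source_T_prime hp hq hpq hg ha hb hoa hob
  have hTb := source_T_prime hq hp (Ne.symm hpq) hg' hb ha hob hoa
  have hTg := source_T_top hdomG hp hq hpq hg hg1 ha hb hoa hob
  have hN := source_nbhd hp hq hpq hg ha hb hoa hob
  refine exists_orderOf_mul hdomH hp hq hpq (a := e (g ^ q)) (b := e (g ^ p)) (g := e g)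
    ?_ ?_ ?_ ?_ ?_ ?_ ?_ ?_
  · exact fun h => hnab ((he _ _).2 h)
  · exact (he _ _).1 (Or.inl ha)
  · exact (he _ _).1 (Or.inl hb)
  · intro h
    exact hg1 (e.injective (h.trans he1.symm))
  · rw [ncard_T_map e he, hTa, ncard_zpowers_diff_one, hoa]
  · rw [ncard_T_map e he, hTb, ncard_zpowers_diff_one, hob]
  · rw [ncard_T_map e he, hTg, ncard_gens, hg,
      Nat.totient_mul ((Nat.coprime_primes hp hq).2 hpq), Nat.totient_prime hp,
      Nat.totient_prime hq]
  · intro z hz
    obtain ⟨z', rfl⟩ := e.surjective z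
    rcases hN z' ((he z' g).2 hz) with h | h | ⟨h1, h2⟩
    · left
      rw [T_map e he]
      exact ⟨z', h, rfl⟩
    · right; left
      rw [T_map e he]
      exact ⟨z', h, rfl⟩
    · right; right
      exact ⟨(he z' _).1 h1, (he z' _).1 h2⟩

end Transfer

end Cfsg.Agent.Lib.Helper6.PowGr
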