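import Mathlib

/-!
# S1906 (helper6): core linear algebra

`inv3`: an involution `M` of `M₃(F)` is `1`, `-1`, or satisfies `tr M = - det M`
(Cayley–Hamilton for `3 × 3` matrices, by brute force).
-/

set_option autoImplicit false

namespace Cfsg.Agent.Lib.Helper6.S1906

variable {F : Type*} [Field F]

/-- the second coefficient of the characteristic polynomial of a `3 × 3` matrix -/
def c2 (M : Matrix (Fin 3) (Fin 3) F) : F :=
  M 0 0 * M 1 1 - M 0 1 * M 1 0 + (M 0 0 * M 2 2 - M 0 2 * M 2 0) + (M 1 1 * M 2 2 - M 1 2 * M 2 1)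

/-- Cayley–Hamilton for `3 × 3` matrices. -/
theorem cayley3 (M : Matrix (Fin 3) (Fin 3) F) :
    M * M * M - M.trace • (M * M) + c2 M • M - M.det • (1 : Matrix (Fin 3) (Fin 3) F) = 0 := by
  ext i j
  fin_cases i <;> fin_cases j <;>
    simp [c2, Matrix.det_fin_three, Matrix.trace_fin_three, Matrix.mul_apply,
      Fin.sum_univ_three] <;> ring

/-- an involution of `M₃(F)` is `1`, `-1`, or has `tr = - det`. -/
theorem inv3 (M : Matrix (Fin 3) (Fin 3) F) (hM : M * M = 1) :
    M = 1 ∨ M = -1 ∨ M.trace = - M.det := by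
  have h := cayley3 M
  rw [hM, one_mul] at h
  -- h : M - tr • 1 + c2 • M - det • 1 = 0
  have h1 : (1 + c2 M) • M = (M.trace + M.det) • (1 : Matrix (Fin 3) (Fin 3) F) := by
    rw [add_smul, add_smul, one_smul]
    have h2 : M + c2 M • M = M.trace • (1 : Matrix (Fin 3) (Fin 3) F) + M.det • 1 := by
      have h3 : M + c2 M • M - (M.trace • (1 : Matrix (Fin 3) (Fin 3) F) + M.det • 1) = 0 := by
        rw [← h]; abel
      exact sub_eq_zero.mp h3
    exact h2
  by_cases hs : M.trace + M.det = 0
  · right; right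
    exact eq_neg_of_add_eq_zero_left hs
  · have hc : 1 + c2 M ≠ 0 := by
      intro hc
      rw [hc, zero_smul] at h1
      have h4 := congrFun (congrFun h1 0) 0
      simp at h4
      exact hs h4.symm
    -- M is the scalar κ = (1 + c2)⁻¹ (tr + det)
    obtain ⟨κ, hM2⟩ : ∃ κ : F, M = κ • (1 : Matrix (Fin 3) (Fin 3) F) := by
      have h5 := congrArg (fun N => (1 + c2 M)⁻¹ • N) h1
      simp only [smul_smul, inv_mul_cancel₀ hc, one_smul] at h5
      exact ⟨_, h5⟩
    have hκ2 : κ * κ = 1 := by
      have h6 := hM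
      rw [hM2] at h6
      have h7 := congrFun (congrFun h6 0) 0
      simpa [Matrix.mul_apply, Fin.sum_univ_three, Matrix.one_apply] using h7
    have hκ3 : κ = 1 ∨ κ = -1 := by
      have h8 : (κ - 1) * (κ + 1) = 0 := by linear_combination hκ2
      rcases mul_eq_zero.mp h8 with h9 | h9
      · left; exact sub_eq_zero.mp h9
      · right; exact eq_neg_of_add_eq_zero_left h9
    rcases hκ3 with h9 | h9
    · left; rw [hM2, h9, one_smul]
    · right; left; rw [hM2, h9, neg_smul, one_smul]

end Cfsg.Agent.Lib.Helper6.S1906
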