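import Mathlib
import Cfsg.Agent.Lib.Helper6.S1906Core

/-!
# S1906 piece DER

In a nonabelian 2-group `X` acting faithfully on `F^3` (char ≠ 2), a central involution `t`
with `det (f t) = 1` lies in the commutator subgroup.
-/

set_option autoImplicit false

namespace Cfsg.Agent.Lib.Helper6.S1906

open scoped commutatorElement

/-- a monoid hom into a field is trivial on the commutator subgroup -/
theorem s1906der_hom_commutator {F : Type*} [Field F] {X : Type*} [Group X] (φ : X →* F) (x : X)
    (hx : x ∈ commutator X) : φ x = 1 := by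
  have h := Abelianization.commutator_subset_ker φ.toHomUnits hx
  rw [MonoidHom.mem_ker] at h
  have h2 := congrArg (fun u : Fˣ => (u : F)) h
  simpa [MonoidHom.coe_toHomUnits] using h2

/-- a nontrivial 2-subgroup contains an involution -/
theorem s1906der_exists_inv {X : Type*} [Group X] [Finite X] (hX : IsPGroup 2 X)
    (K : Subgroup X) (hK : K ≠ ⊥) : ∃ s ∈ K, s * s = 1 ∧ s ≠ 1 := by
  classical
  have : Fact (Nat.Prime 2) := ⟨Nat.prime_two⟩
  have hKp : IsPGroup 2 K := hX.to_subgroup K
  obtain ⟨n, hn⟩ := IsPGroup.iff_card.mp hKp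
  have hn0 : n ≠ 0 := by
    rintro rfl
    rw [pow_zero] at hn
    exact hK ((Subgroup.card_eq_one).mp hn)
  have h2 : 2 ∣ Nat.card K := by
    rw [hn]; exact dvd_pow_self 2 hn0
  obtain ⟨s, hs⟩ := exists_prime_orderOf_dvd_card' 2 h2
  refine ⟨s.1, s.2, ?_, ?_⟩
  · have h3 : s ^ 2 = 1 := by rw [← hs]; exact pow_orderOf_eq_one s
    have h4 : (s : X) ^ 2 = 1 := by
      have := congrArg Subtype.val h3
      simpa using this
    rw [← pow_two]; exact h4
  · intro h1
    have h5 : s = 1 := Subtype.ext h1
    rw [h5, orderOf_one] at hs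
    norm_num at hs

/-- the auxiliary homomorphism `x ↦ f x * P + Q` -/
theorem s1906der_N {F : Type*} [Field F] (h2 : (2 : F) ≠ 0) {X : Type*} [Group X]
    (f : X →* Matrix (Fin 3) (Fin 3) F) (τ : Matrix (Fin 3) (Fin 3) F) (hττ : τ * τ = 1)
    (hτc : ∀ x, τ * f x = f x * τ) :
    ∃ N : X →* Matrix (Fin 3) (Fin 3) F,
      ∀ x, N x = (2 : F)⁻¹ • (f x + f x * τ) + (2 : F)⁻¹ • (1 - τ) := by
  have hc : (2 : F)⁻¹ * (2 : F)⁻¹ * 2 = (2 : F)⁻¹ := by field_simp
  have hc2 : (2 : F)⁻¹ + (2 : F)⁻¹ = 1 := by field_simp; norm_num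
  refine ⟨{ toFun := fun x => (2 : F)⁻¹ • (f x + f x * τ) + (2 : F)⁻¹ • (1 - τ)
            map_one' := ?_
            map_mul' := ?_ }, fun x => rfl⟩
  · rw [map_one, one_mul, ← smul_add]
    have : (1 : Matrix (Fin 3) (Fin 3) F) + τ + (1 - τ) = (2 : F) • 1 := by
      rw [two_smul]; abel
    rw [this, smul_smul, inv_mul_cancel₀ h2, one_smul]
  · intro x y
    rw [map_mul]
    have e1 : (f x + f x * τ) * (f y + f y * τ) = (2 : F) • (f x * f y + f x * f y * τ) := by
      have a1 : f x * τ * f y = f x * f y * τ := by rw [mul_assoc, hτc y, ← mul_assoc]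
      have a2 : f x * τ * (f y * τ) = f x * f y := by
        rw [mul_assoc, ← mul_assoc τ, hτc y, mul_assoc (f y), hττ, mul_one]
      rw [add_mul, mul_add, mul_add, a1, a2, two_smul, ← mul_assoc]
      abel
    have e2 : (f x + f x * τ) * (1 - τ) = 0 := by
      have t0 : f x * τ * τ = f x := by rw [mul_assoc, hττ, mul_one]
      simp only [add_mul, mul_sub, mul_one, t0]
      abel
    have e3 : (1 - τ) * (f y + f y * τ) = 0 := by
      have t1 : τ * f y = f y * τ := hτc y
      have t2 : τ * (f y * τ) = f y := by rw [← mul_assoc, hτc y, mul_assoc, hττ, mul_one]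
      rw [sub_mul, one_mul, mul_add, t1, t2]
      abel
    have e4 : (1 - τ) * (1 - τ) = (2 : F) • (1 - τ) := by
      rw [sub_mul, one_mul, mul_sub, mul_one, hττ, two_smul]
      abel
    rw [add_mul, mul_add, mul_add, smul_mul_smul_comm, smul_mul_smul_comm, smul_mul_smul_comm,
      smul_mul_smul_comm, e1, e2, e3, e4]
    simp only [smul_zero, add_zero, zero_add, smul_smul, hc]

theorem central_inv_mem_commutator {F : Type*} [Field F] (h2 : (2 : F) ≠ 0) {X : Type*} [Group X]
    [Finite X] (hX : IsPGroup 2 X) (hna : ¬ ∀ a b : X, a * b = b * a)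
    (f : X →* Matrix (Fin 3) (Fin 3) F) (hf : Function.Injective f)
    (t : X) (ht : ∀ x : X, t * x = x * t) (ht2 : t * t = 1) (ht1 : t ≠ 1)
    (hdet : (f t).det = 1) :
    t ∈ commutator X := by
  classical
  have h11 : (1 : F) ≠ -1 := by
    intro h
    apply h2
    have : (2 : F) = 1 + 1 := by norm_num
    rw [this]
    nth_rewrite 2 [h]
    ring
  have hdetneg : (-1 : Matrix (Fin 3) (Fin 3) F).det = -1 := by
    rw [Matrix.det_neg, Matrix.det_one, Fintype.card_fin]
    norm_num
  have hττ : f t * f t = 1 := by rw [← map_mul, ht2, map_one]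
  have hτc : ∀ x, f t * f x = f x * f t := fun x => by rw [← map_mul, ← map_mul, ht x]
  have hτ1 : f t ≠ 1 := fun h => ht1 (hf (by rw [h, map_one]))
  -- the involution `s` in the commutator subgroup
  have hc : commutator X ≠ ⊥ := by
    intro hc
    apply hna
    intro a b
    have h1 : ⁅a, b⁆ ∈ commutator X := by
      rw [commutator_def]
      exact Subgroup.commutator_mem_commutator (Subgroup.mem_top a) (Subgroup.mem_top b)
    rw [hc, Subgroup.mem_bot] at h1
    exact commutatorElement_eq_one_iff_mul_comm.mp h1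
  obtain ⟨s, hs, hs2, hs1⟩ := s1906der_exists_inv hX (commutator X) hc
  have hσσ : f s * f s = 1 := by rw [← map_mul, hs2, map_one]
  have hσ1 : f s ≠ 1 := fun h => hs1 (hf (by rw [h, map_one]))
  -- determinants
  have hdσ : (f s).det = 1 :=
    s1906der_hom_commutator ((Matrix.detMonoidHom).comp f) s hs
  obtain ⟨N, hN⟩ := s1906der_N h2 f (f t) hττ hτc
  have hdN : (N s).det = 1 :=
    s1906der_hom_commutator ((Matrix.detMonoidHom).comp N) s hs
  have hNN : N s * N s = 1 := by rw [← map_mul, hs2, map_one]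
  -- traces
  have htrσ : (f s).trace = -1 := by
    rcases inv3 (f s) hσσ with h | h | h
    · exact absurd h hσ1
    · rw [h, hdetneg] at hdσ
      exact absurd hdσ.symm h11
    · rw [h, hdσ]
  have htrτ : (f t).trace = -1 := by
    rcases inv3 (f t) hττ with h | h | h
    · exact absurd h hτ1
    · rw [h, hdetneg] at hdet
      exact absurd hdet.symm h11
    · rw [h, hdet]
  have hστ2 : f s * f t * (f s * f t) = 1 := by
    rw [mul_assoc, ← mul_assoc (f t), hτc s, mul_assoc (f s) (f t), hττ, mul_one, hσσ]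
  have hdστ : (f s * f t).det = 1 := by rw [Matrix.det_mul, hdσ, hdet, one_mul]
  rcases inv3 (f s * f t) hστ2 with h | h | h
  · have h1 : s * t = 1 := hf (by rw [map_mul, h, map_one])
    have h3 : t = s⁻¹ := by
      rw [eq_inv_iff_mul_eq_one, ht s]; exact h1
    rw [h3]
    exact Subgroup.inv_mem _ hs
  · rw [h, hdetneg] at hdστ
    exact absurd hdστ.symm h11
  · exfalso
    rw [hdστ] at h
    have htrN : (N s).trace = 1 := by
      rw [hN, Matrix.trace_add, Matrix.trace_smul, Matrix.trace_smul, Matrix.trace_add,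
        Matrix.trace_sub, Matrix.trace_one, htrσ, h, htrτ]
      simp only [smul_eq_mul, Fintype.card_fin]
      field_simp
      norm_num
    rcases inv3 (N s) hNN with h' | h' | h'
    · rw [h', Matrix.trace_one] at htrN
      simp only [Fintype.card_fin] at htrN
      apply h2
      have : (2 : F) = ((3 : ℕ) : F) - 1 := by norm_num
      rw [this, htrN]; ring
    · rw [h', hdetneg] at hdN
      exact absurd hdN.symm h11
    · rw [hdN, htrN] at h'
      exact h11 h'

end Cfsg.Agent.Lib.Helper6.S1906
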