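import Mathlib
import Cfsg.Agent.Lib.Helper6.S1906Core

/-!
# S1906 piece NEG (proved by helper88)

An elementary abelian group `E` of order 8 acting faithfully on `F^3` (char ≠ 2) contains `-1`.

PROOF (only `inv3` from `S1906Core` and multiplicativity of `det`; no eigenvectors).
Suppose `f e ≠ -1` for all `e`.  For `e ≠ 1`: `f e` is an involution (`(f e)^2 = f (e^2) = 1`),
`≠ 1` (injective), `≠ -1`, so by `inv3`: `tr (f e) = - d e` where `d e := det (f e)`
(`d` multiplicative, `d e * d e = 1`).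
Choose `a ≠ 1` as follows: if some `a` has `d a = -1` take it (then `a ≠ 1`), otherwise `d ≡ 1`
and take any `a ≠ 1`.  Put `A = f a`, `P = (2:F)⁻¹ • (1 + A)`, `Q = (2:F)⁻¹ • (1 - A)`:
`P * P = P`, `Q * Q = Q`, `P * Q = 0 = Q * P`, `P + Q = 1`, and `P`, `Q` commute with every `f b`.
`N b := f b * P + Q` satisfies `N (b * b') = N b * N b'`, `N 1 = 1`; so `N b * N b = 1` and
`ν b := det (N b)` is multiplicative.
For `b ∉ {1, a}` (then also `a * b ∉ {1, a}`):
`tr (N b) = (tr (f b) + tr (f (a * b))) / 2 + (3 - tr A) / 2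
         = (- d b - d a * d b + 3 + d a) / 2 = 1`
(in the first case `d a = -1`; in the second case `d ≡ 1`).
`N b = 1` would give `3 = 1`, `N b = -1` would give `-3 = 1`; both contradict `2 ≠ 0`.
So `inv3` gives `ν b = -1` for every `b ∉ {1, a}`.
Now take `b ∉ {1, a}` and `b' ∉ {1, a, b, a * b}` (possible as `|E| = 8 > 4`); then
`b * b' ∉ {1, a}` and `-1 = ν (b * b') = ν b * ν b' = 1`: contradiction with `2 ≠ 0`.
-/

set_option autoImplicit false

namespace Cfsg.Agent.Lib.Helper6.S1906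

theorem neg_aux_mul {R : Type*} [Ring R] (P Q X Y : R) (hPP : P * P = P) (hQQ : Q * Q = Q)
    (hPQ : P * Q = 0) (hQP : Q * P = 0) (hPY : P * Y = Y * P) (hQY : Q * Y = Y * Q) :
    (X * P + Q) * (Y * P + Q) = X * Y * P + Q := by
  calc (X * P + Q) * (Y * P + Q) = X * (P * Y) * P + X * (P * Q) + (Q * Y) * P + Q * Q := by
        noncomm_ring
    _ = X * (Y * P) * P + X * 0 + (Y * Q) * P + Q := by rw [hPY, hPQ, hQY, hQQ]
    _ = X * Y * (P * P) + Y * (Q * P) + Q := by noncomm_ring
    _ = X * Y * P + Q := by rw [hPP, hQP]; noncomm_ring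

theorem neg_aux_idem {F : Type*} [Field F] (h2 : (2 : F) ≠ 0)
    (A P Q : Matrix (Fin 3) (Fin 3) F) (hA : A * A = 1) (hP : P = (2 : F)⁻¹ • (1 + A))
    (hQ : Q = (2 : F)⁻¹ • (1 - A)) :
    P * P = P ∧ Q * Q = Q ∧ P * Q = 0 ∧ Q * P = 0 ∧ P + Q = 1 := by
  subst hP hQ
  have e1 : (1 + A) * (1 + A) = (2 : F) • (1 + A) := by
    rw [two_smul]
    calc (1 + A) * (1 + A) = 1 + A + (A + A * A) := by noncomm_ring
      _ = 1 + A + (1 + A) := by rw [hA, add_comm A 1]
  have e2 : (1 - A) * (1 - A) = (2 : F) • (1 - A) := by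
    rw [two_smul]
    calc (1 - A) * (1 - A) = 1 - A + (A * A - A) := by noncomm_ring
      _ = 1 - A + (1 - A) := by rw [hA]
  have e3 : (1 + A) * (1 - A) = 0 := by
    calc (1 + A) * (1 - A) = 1 - A * A := by noncomm_ring
      _ = 0 := by rw [hA, sub_self]
  have e4 : (1 - A) * (1 + A) = 0 := by
    calc (1 - A) * (1 + A) = 1 - A * A := by noncomm_ring
      _ = 0 := by rw [hA, sub_self]
  have hc : (2 : F)⁻¹ * (2 : F)⁻¹ * 2 = (2 : F)⁻¹ := by
    rw [mul_assoc, inv_mul_cancel₀ h2, mul_one]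
  refine ⟨?_, ?_, ?_, ?_, ?_⟩
  · rw [smul_mul_smul_comm, e1, smul_smul, hc]
  · rw [smul_mul_smul_comm, e2, smul_smul, hc]
  · rw [smul_mul_smul_comm, e3, smul_zero]
  · rw [smul_mul_smul_comm, e4, smul_zero]
  · rw [← smul_add]
    have e5 : (1 + A) + (1 - A) = (2 : F) • (1 : Matrix (Fin 3) (Fin 3) F) := by
      rw [two_smul]
      abel
    rw [e5, smul_smul, inv_mul_cancel₀ h2, one_smul]

theorem neg_one_mem {F : Type*} [Field F] (h2 : (2 : F) ≠ 0) {E : Type*} [Group E] [Finite E]
    (hsq : ∀ a : E, a * a = 1) (hcard : Nat.card E = 8)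
    (f : E →* Matrix (Fin 3) (Fin 3) F) (hf : Function.Injective f) :
    ∃ e : E, f e = -1 := by
  classical
  by_contra hcon
  push Not at hcon
  have hinv : ∀ x : E, x⁻¹ = x := fun x => (eq_inv_of_mul_eq_one_left (hsq x)).symm
  have hcomm : ∀ x y : E, x * y = y * x := by
    intro x y
    calc x * y = (x * y)⁻¹ := (hinv _).symm
      _ = y⁻¹ * x⁻¹ := mul_inv_rev x y
      _ = y * x := by rw [hinv, hinv]
  have hff : ∀ e : E, f e * f e = 1 := fun e => by rw [← map_mul, hsq, map_one]
  have hfc : ∀ x y : E, f x * f y = f y * f x := fun x y => by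
    rw [← map_mul, ← map_mul, hcomm]
  have hf1 : ∀ e : E, e ≠ 1 → f e ≠ 1 := fun e he h => he (hf (by rw [h, map_one]))
  have htr : ∀ e : E, e ≠ 1 → (f e).trace = - (f e).det := by
    intro e he
    rcases inv3 (f e) (hff e) with h | h | h
    · exact absurd h (hf1 e he)
    · exact absurd h (hcon e)
    · exact h
  have hdd : ∀ e : E, (f e).det * (f e).det = 1 := fun e => by
    rw [← Matrix.det_mul, hff, Matrix.det_one]
  obtain ⟨a, ha1, hstar⟩ : ∃ a : E, a ≠ 1 ∧
      ∀ b : E, - (f b).det - (f a).det * (f b).det + 3 + (f a).det = 2 := by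
    by_cases hex : ∃ a : E, (f a).det = -1
    · obtain ⟨a, ha⟩ := hex
      refine ⟨a, ?_, fun b => by rw [ha]; ring⟩
      rintro rfl
      rw [map_one, Matrix.det_one] at ha
      exact h2 (by linear_combination ha)
    · push Not at hex
      have hd1 : ∀ e : E, (f e).det = 1 := by
        intro e
        have h1 : ((f e).det - 1) * ((f e).det + 1) = 0 := by linear_combination hdd e
        rcases mul_eq_zero.1 h1 with h | h
        · exact sub_eq_zero.1 h
        · exact absurd (eq_neg_of_add_eq_zero_left h) (hex e)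
      obtain ⟨a, ha⟩ : ∃ a : E, a ≠ 1 := by
        have hnt : Nontrivial E := by
          rw [← Finite.one_lt_card_iff_nontrivial, hcard]
          norm_num
        exact exists_ne 1
      exact ⟨a, ha, fun b => by rw [hd1, hd1]; ring⟩
  obtain ⟨P, hPdef⟩ : ∃ P : Matrix (Fin 3) (Fin 3) F, P = (2 : F)⁻¹ • (1 + f a) := ⟨_, rfl⟩
  obtain ⟨Q, hQdef⟩ : ∃ Q : Matrix (Fin 3) (Fin 3) F, Q = (2 : F)⁻¹ • (1 - f a) := ⟨_, rfl⟩
  obtain ⟨hPP, hQQ, hPQ, hQP, hPQ1⟩ := neg_aux_idem h2 (f a) P Q (hff a) hPdef hQdef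
  have hPc : ∀ b : E, P * f b = f b * P := by
    intro b
    rw [hPdef, smul_mul_assoc, mul_smul_comm, add_mul, mul_add, one_mul, mul_one, hfc a b]
  have hQc : ∀ b : E, Q * f b = f b * Q := by
    intro b
    rw [hQdef, smul_mul_assoc, mul_smul_comm, sub_mul, mul_sub, one_mul, mul_one, hfc a b]
  have hNmul : ∀ b b' : E, (f b * P + Q) * (f b' * P + Q) = f (b * b') * P + Q := by
    intro b b'
    rw [map_mul]
    exact neg_aux_mul P Q (f b) (f b') hPP hQQ hPQ hQP (hPc b') (hQc b')
  have hNN : ∀ b : E, (f b * P + Q) * (f b * P + Q) = 1 := by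
    intro b
    rw [hNmul, hsq, map_one, one_mul, hPQ1]
  have hNtr : ∀ b : E, b ≠ 1 → b ≠ a → (f b * P + Q).trace = 1 := by
    intro b hb1 hba
    have hba1 : b * a ≠ 1 := by
      intro h
      apply hba
      calc b = b * (a * a) := by rw [hsq, mul_one]
        _ = (b * a) * a := (mul_assoc _ _ _).symm
        _ = a := by rw [h, one_mul]
    have hNb : f b * P + Q = (2 : F)⁻¹ • (f b + f (b * a) + 1 - f a) := by
      rw [hPdef, hQdef, map_mul, mul_smul_comm, mul_add, mul_one, ← smul_add]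
      congr 1
      abel
    rw [hNb, Matrix.trace_smul, Matrix.trace_sub, Matrix.trace_add, Matrix.trace_add,
      Matrix.trace_one, htr b hb1, htr (b * a) hba1, htr a ha1, map_mul, Matrix.det_mul,
      smul_eq_mul, Fintype.card_fin]
    have hX : (-(f b).det + -((f b).det * (f a).det) + ((3 : ℕ) : F) - -(f a).det) = 2 := by
      push_cast
      linear_combination hstar b
    rw [hX, inv_mul_cancel₀ h2]
  have hNdet : ∀ b : E, b ≠ 1 → b ≠ a → (f b * P + Q).det = -1 := by
    intro b hb1 hba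
    have ht := hNtr b hb1 hba
    rcases inv3 _ (hNN b) with h | h | h
    · rw [h, Matrix.trace_one, Fintype.card_fin] at ht
      push_cast at ht
      exact absurd (by linear_combination ht) h2
    · rw [h, Matrix.trace_neg, Matrix.trace_one, Fintype.card_fin] at ht
      push_cast at ht
      have h4 : (2 : F) * 2 = 0 := by linear_combination -ht
      exact absurd (mul_self_eq_zero.1 h4) h2
    · rw [ht] at h
      linear_combination h
  have hex : ∀ s : Finset E, s.card < 8 → ∃ x, x ∉ s := by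
    intro s hs
    by_contra hc
    push Not at hc
    haveI := Fintype.ofFinite E
    have hu : s = Finset.univ := Finset.eq_univ_iff_forall.2 hc
    rw [hu, Finset.card_univ, ← Nat.card_eq_fintype_card, hcard] at hs
    exact lt_irrefl _ hs
  obtain ⟨b, hb⟩ := hex {1, a} (lt_of_le_of_lt Finset.card_le_two (by norm_num))
  obtain ⟨b', hb'⟩ := hex {1, a, b, a * b} (lt_of_le_of_lt Finset.card_le_four (by norm_num))
  simp only [Finset.mem_insert, Finset.mem_singleton, not_or] at hb hb'
  obtain ⟨hb1, hba⟩ := hb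
  obtain ⟨hb'1, hb'a, hb'b, hb'ab⟩ := hb'
  have hbb1 : b * b' ≠ 1 := by
    intro h
    apply hb'b
    calc b' = (b * b) * b' := by rw [hsq, one_mul]
      _ = b * (b * b') := mul_assoc _ _ _
      _ = b := by rw [h, mul_one]
  have hbba : b * b' ≠ a := by
    intro h
    apply hb'ab
    calc b' = (b * b) * b' := by rw [hsq, one_mul]
      _ = b * (b * b') := mul_assoc _ _ _
      _ = b * a := by rw [h]
      _ = a * b := hcomm b a
  have h1 := hNdet b hb1 hba
  have h2' := hNdet b' hb'1 hb'a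
  have h3 := hNdet (b * b') hbb1 hbba
  rw [← hNmul, Matrix.det_mul, h1, h2'] at h3
  exact h2 (by linear_combination h3)

end Cfsg.Agent.Lib.Helper6.S1906
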