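import Mathlib

/-!
# S1906 piece TRIV

If `G` has no subgroup of index 2, the transfer of any homomorphism from a Sylow 2-subgroup
to an abelian group is trivial.

PROOF.  `ψ := MonoidHom.transfer ϕ : G →* A`.  Every value of `ψ` is a product of values of `ϕ`
(`MonoidHom.transfer_def`, `Subgroup.leftTransversals.diff`: a `Finset.prod` of `ϕ ⟨_, _⟩`), so
`ψ.range ≤ ϕ.range`, and `ϕ.range` is a finite 2-group (image of the 2-group `X`; e.g.
`IsPGroup.map` / `IsPGroup.of_surjective`).  If `ψ y ≠ 1` then `ψ.range` is a nontrivial finite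
2-group, so it has a subgroup `K` of index 2 (e.g. `Sylow.exists_subgroup_card_pow_prime` for
`2 ^ (k - 1)` where `Nat.card ψ.range = 2 ^ k`, or a maximal subgroup of a p-group), and
`K.comap ψ.rangeRestrict` has index 2 in `G` (`Subgroup.index_comap_of_surjective`),
contradicting `hG`.
-/

set_option autoImplicit false

namespace Cfsg.Agent.Lib.Helper6.S1906

theorem s1906triv_mem_range {G : Type*} [Group G] {H : Subgroup G} [H.FiniteIndex]
    {A : Type*} [CommGroup A] (ϕ : ↥H →* A) (y : G) : MonoidHom.transfer ϕ y ∈ ϕ.range := by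
  rw [MonoidHom.transfer_def ϕ default y]
  unfold Subgroup.leftTransversals.diff
  exact Subgroup.prod_mem _ (fun q _ => ⟨_, rfl⟩)

theorem transfer_eq_one {G : Type*} [Group G] [Finite G] (hG : ∀ H : Subgroup G, H.index ≠ 2)
    (X : Sylow 2 G) {A : Type*} [CommGroup A] (ϕ : ↥(X : Subgroup G) →* A) (y : G) :
    MonoidHom.transfer ϕ y = 1 := by
  classical
  by_contra hne
  have : Fact (Nat.Prime 2) := ⟨Nat.prime_two⟩
  have hle : (MonoidHom.transfer ϕ).range ≤ ϕ.range := by
    rintro _ ⟨g, rfl⟩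
    exact s1906triv_mem_range ϕ g
  have h2' : IsPGroup 2 ↥ϕ.range :=
    X.2.of_surjective ϕ.rangeRestrict ϕ.rangeRestrict_surjective
  have h2 : IsPGroup 2 ↥(MonoidHom.transfer ϕ).range := h2'.to_le hle
  have hfin : Finite ↥(MonoidHom.transfer ϕ).range :=
    Finite.of_surjective (MonoidHom.transfer ϕ).rangeRestrict
      (MonoidHom.transfer ϕ).rangeRestrict_surjective
  obtain ⟨k, hk⟩ := IsPGroup.iff_card.mp h2
  have hk0 : k ≠ 0 := by
    rintro rfl
    rw [pow_zero] at hk
    have hsub : Subsingleton ↥(MonoidHom.transfer ϕ).range :=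
      (Nat.card_eq_one_iff_unique.mp hk).1
    apply hne
    have h3 := Subsingleton.elim
      (⟨MonoidHom.transfer ϕ y, ⟨y, rfl⟩⟩ : ↥(MonoidHom.transfer ϕ).range) 1
    exact congrArg Subtype.val h3
  obtain ⟨K, hK⟩ := Sylow.exists_subgroup_card_pow_prime (G := ↥(MonoidHom.transfer ϕ).range) 2
    (n := k - 1) (by rw [hk]; exact pow_dvd_pow 2 (Nat.sub_le k 1))
  have hidx : K.index = 2 := by
    have h3 := Subgroup.card_mul_index K
    rw [hK, hk] at h3
    have h4 : 2 ^ k = 2 ^ (k - 1) * 2 := by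
      rw [← pow_succ]
      congr 1
      omega
    rw [h4] at h3
    exact Nat.eq_of_mul_eq_mul_left (by positivity) h3
  have hidx' : (K.comap (MonoidHom.transfer ϕ).rangeRestrict).index = 2 := by
    rw [Subgroup.index_comap_of_surjective K (MonoidHom.transfer ϕ).rangeRestrict_surjective]
    exact hidx
  exact hG _ hidx'

end Cfsg.Agent.Lib.Helper6.S1906
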